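import Mathlib

/-!
# Degrees that do not divide the order in characteristic three
-/

set_option autoImplicit false

namespace Cfsg.Agent.H75.G2Deg

/-- A divisor of a product divides the product of its gcds with the factors. -/
theorem dvd_gcd_mul_gcd {N a b : ℕ} (h : N ∣ a * b) : N ∣ N.gcd a * N.gcd b := by
  obtain ⟨x, y, hx, hy, rfl⟩ := Nat.dvd_mul.1 h
  exact mul_dvd_mul (Nat.dvd_gcd (dvd_mul_right x y) hx) (Nat.dvd_gcd (dvd_mul_left y x) hy)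

/-- A divisor of the order is bounded by three gcds. -/
theorem le_of_dvd_order {q N : ℕ} (hq : 2 ≤ q) (h : N ∣ q ^ 6 * (q ^ 2 - 1) * (q ^ 6 - 1)) :
    N ≤ N.gcd (q ^ 6) * (N.gcd (q ^ 2 - 1) * N.gcd (q ^ 2 - 1)) * N.gcd (q ^ 4 + q ^ 2 + 1) := by
  have h2 : 1 ≤ q ^ 2 := Nat.one_le_pow _ _ (by omega)
  have h6 : 1 ≤ q ^ 6 := Nat.one_le_pow _ _ (by omega)
  have e : q ^ 6 - 1 = (q ^ 2 - 1) * (q ^ 4 + q ^ 2 + 1) := by
    zify [h2, h6]; ring
  have hq0 : q ^ 2 - 1 ≠ 0 := by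
    have : 2 ^ 2 ≤ q ^ 2 := Nat.pow_le_pow_left hq 2
    omega
  rw [e, show q ^ 6 * (q ^ 2 - 1) * ((q ^ 2 - 1) * (q ^ 4 + q ^ 2 + 1)) =
    q ^ 6 * ((q ^ 2 - 1) * (q ^ 2 - 1)) * (q ^ 4 + q ^ 2 + 1) by ring] at h
  have d1 : N.gcd (q ^ 6 * ((q ^ 2 - 1) * (q ^ 2 - 1))) ∣
      N.gcd (q ^ 6) * (N.gcd (q ^ 2 - 1) * N.gcd (q ^ 2 - 1)) := by
    set M := N.gcd (q ^ 6 * ((q ^ 2 - 1) * (q ^ 2 - 1))) with hM
    have hMN : M ∣ N := Nat.gcd_dvd_left _ _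
    have g : ∀ a, M.gcd a ∣ N.gcd a := fun a => Nat.gcd_dvd_gcd_of_dvd_left a hMN
    have d2 : M.gcd ((q ^ 2 - 1) * (q ^ 2 - 1)) ∣ N.gcd (q ^ 2 - 1) * N.gcd (q ^ 2 - 1) :=
      dvd_trans (dvd_gcd_mul_gcd (Nat.gcd_dvd_right _ _))
        (mul_dvd_mul
          (Nat.gcd_dvd_gcd_of_dvd_left _ ((Nat.gcd_dvd_left _ _).trans hMN))
          (Nat.gcd_dvd_gcd_of_dvd_left _ ((Nat.gcd_dvd_left _ _).trans hMN)))
    exact dvd_trans (dvd_gcd_mul_gcd (Nat.gcd_dvd_right _ _)) (mul_dvd_mul (g _) d2)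
  refine Nat.le_of_dvd ?_ (dvd_trans (dvd_gcd_mul_gcd h) (mul_dvd_mul_right d1 _))
  exact Nat.mul_pos (Nat.mul_pos (Nat.gcd_pos_of_pos_right _ (by omega))
    (Nat.mul_pos (Nat.gcd_pos_of_pos_right _ (by omega)) (Nat.gcd_pos_of_pos_right _ (by omega))))
    (Nat.gcd_pos_of_pos_right _ (by omega))

/-- A number prime to three is prime to a power of three. -/
theorem gcd_pow_three {M k : ℕ} (h : ¬ 3 ∣ M) : M.gcd (3 ^ k) = 1 :=
  (((Nat.Prime.coprime_iff_not_dvd Nat.prime_three).2 h).pow_left k).symm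

/-- The remaining degrees in characteristic three do not divide the order. -/
theorem no_dvd {n q N e : ℕ} (hn : q = 3 ^ n) (hq : 9 ≤ q) (he : e ≤ q + 1)
    (hN : N + (q + 1) = q ^ 4 + q ^ 2 + e) (h : N ∣ q ^ 6 * (q ^ 2 - 1) * (q ^ 6 - 1)) : False := by
  have h1 : 1 ≤ n := by
    rcases Nat.eq_zero_or_pos n with rfl | h1
    · simp at hn; omega
    · exact h1
  have h3 : 3 ∣ q := hn ▸ dvd_pow_self 3 (by omega)
  have h32 : 3 ∣ q ^ 2 := dvd_pow h3 (by norm_num)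
  have hq2 : 81 ≤ q ^ 2 := le_trans (by norm_num) (Nat.pow_le_pow_left hq 2)
  have e6 : q ^ 6 = 3 ^ (n * 6) := by rw [hn, ← pow_mul]
  have hA : (q ^ 2 + 2) * (q ^ 2 - 1) + 2 = q ^ 4 + q ^ 2 := by
    zify [show 1 ≤ q ^ 2 by omega]; ring
  obtain ⟨D, hD⟩ : ∃ D, D + e = q + 1 := ⟨q + 1 - e, by omega⟩
  have hND : N + D = q ^ 4 + q ^ 2 := by omega
  have hB := le_of_dvd_order (by omega) h
  -- a divisor of the order that is prime to three
  have special : ∀ M, M ∣ N → ¬ 3 ∣ M → M.gcd (q ^ 2 - 1) ≤ 2 → M.gcd (q ^ 4 + q ^ 2 + 1) ≤ 3 → M ≤ 12 := by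
    intro M hMN hM3 ha hb
    have := le_of_dvd_order (q := q) (by omega) (hMN.trans h)
    rw [e6, gcd_pow_three hM3, one_mul] at this
    exact this.trans (Nat.mul_le_mul (Nat.mul_le_mul ha ha) hb)
  rcases Nat.lt_or_ge D 3 with hD3 | hD3
  · interval_cases D
    · -- `e = q + 1`
      have hM : q ^ 2 + 1 ≤ 12 := by
        refine special _ ⟨q ^ 2, by rw [show N = q ^ 4 + q ^ 2 by omega]; ring⟩ (by omega) ?_ ?_
        · refine Nat.le_of_dvd (by omega) ?_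
          have := Nat.dvd_sub (Nat.gcd_dvd_left (q ^ 2 + 1) (q ^ 2 - 1)) (Nat.gcd_dvd_right (q ^ 2 + 1) (q ^ 2 - 1))
          rwa [show q ^ 2 + 1 - (q ^ 2 - 1) = 2 by omega] at this
        · refine le_trans (Nat.le_of_dvd (by omega) ?_) (by omega : 1 ≤ 3)
          have := Nat.dvd_sub (Nat.gcd_dvd_right (q ^ 2 + 1) (q ^ 4 + q ^ 2 + 1))
            ((Nat.gcd_dvd_left (q ^ 2 + 1) (q ^ 4 + q ^ 2 + 1)).mul_left (q ^ 2))
          rwa [show q ^ 4 + q ^ 2 + 1 - q ^ 2 * (q ^ 2 + 1) = 1 by rw [mul_add, mul_one, ← pow_add, show 2 + 2 = 4 from rfl]; omega] at this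
      omega
    · -- `e = q`
      have g1 : N.gcd (q ^ 6) = 1 := by
        rw [e6]
        exact gcd_pow_three fun hd => by
          have h34 : 3 ∣ q ^ 4 := dvd_pow h3 (by norm_num)
          omega
      have g2 : N.gcd (q ^ 2 - 1) = 1 := Nat.dvd_one.1 (by
        have := Nat.dvd_sub (Nat.gcd_dvd_left N (q ^ 2 - 1)) ((Nat.gcd_dvd_right N (q ^ 2 - 1)).mul_left (q ^ 2 + 2))
        rwa [show N - (q ^ 2 + 2) * (q ^ 2 - 1) = 1 by omega] at this)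
      have g3 : N.gcd (q ^ 4 + q ^ 2 + 1) ≤ 2 := Nat.le_of_dvd (by omega) (by
        have := Nat.dvd_sub (Nat.gcd_dvd_right N (q ^ 4 + q ^ 2 + 1)) (Nat.gcd_dvd_left N (q ^ 4 + q ^ 2 + 1))
        rwa [show q ^ 4 + q ^ 2 + 1 - N = 2 by omega] at this)
      rw [g1, g2] at hB
      omega
    · -- `e = q - 1`
      have hM : q ^ 2 + 2 ≤ 12 := by
        refine special _ ⟨q ^ 2 - 1, by omega⟩ (by omega) ?_ ?_
        · have d : (q ^ 2 + 2).gcd (q ^ 2 - 1) ∣ 3 := by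
            have := Nat.dvd_sub (Nat.gcd_dvd_left (q ^ 2 + 2) (q ^ 2 - 1)) (Nat.gcd_dvd_right (q ^ 2 + 2) (q ^ 2 - 1))
            rwa [show q ^ 2 + 2 - (q ^ 2 - 1) = 3 by omega] at this
          rcases (Nat.dvd_prime Nat.prime_three).1 d with d | d
          · omega
          · have := d ▸ Nat.gcd_dvd_left (q ^ 2 + 2) (q ^ 2 - 1)
            omega
        · refine Nat.le_of_dvd (by omega) ?_
          have := Nat.dvd_sub (Nat.gcd_dvd_right (q ^ 2 + 2) (q ^ 4 + q ^ 2 + 1))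
            ((Nat.gcd_dvd_left (q ^ 2 + 2) (q ^ 4 + q ^ 2 + 1)).mul_right (q ^ 2 - 1))
          rwa [show q ^ 4 + q ^ 2 + 1 - (q ^ 2 + 2) * (q ^ 2 - 1) = 3 by omega] at this
      omega
  · have g2 : N.gcd (q ^ 2 - 1) ≤ D - 2 := Nat.le_of_dvd (by omega) (by
      have := Nat.dvd_sub ((Nat.gcd_dvd_right N (q ^ 2 - 1)).mul_left (q ^ 2 + 2)) (Nat.gcd_dvd_left N (q ^ 2 - 1))
      rwa [show (q ^ 2 + 2) * (q ^ 2 - 1) - N = D - 2 by omega] at this)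
    have g3 : N.gcd (q ^ 4 + q ^ 2 + 1) ≤ D + 1 := Nat.le_of_dvd (by omega) (by
      have := Nat.dvd_sub (Nat.gcd_dvd_right N (q ^ 4 + q ^ 2 + 1)) (Nat.gcd_dvd_left N (q ^ 4 + q ^ 2 + 1))
      rwa [show q ^ 4 + q ^ 2 + 1 - N = D + 1 by omega] at this)
    have g1 : N.gcd (q ^ 6) ∣ D := by
      obtain ⟨j, -, hj⟩ := (Nat.dvd_prime_pow Nat.prime_three).1 (e6 ▸ Nat.gcd_dvd_right N (q ^ 6))
      have hq2p : q ^ 2 = 3 ^ (n * 2) := by rw [hn, ← pow_mul]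
      have hsub : ∀ x, x ∣ N → x ∣ q ^ 2 → x ∣ D := fun x hx hx' => by
        have := Nat.dvd_sub (dvd_add (hx'.trans (dvd_mul_right _ (q ^ 2))) hx') hx
        rwa [show q ^ 2 * q ^ 2 + q ^ 2 - N = D by rw [← pow_add, show 2 + 2 = 4 from rfl]; omega] at this
      rw [e6, hj]
      have hjN : 3 ^ j ∣ N := hj ▸ Nat.gcd_dvd_left N _
      rcases Nat.lt_or_ge (n * 2) j with hlt | hge
      · exfalso
        have := Nat.le_of_dvd (by omega) (hsub _ (dvd_trans (hq2p ▸ pow_dvd_pow 3 hlt.le) hjN) dvd_rfl)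
        have : q * 9 ≤ q ^ 2 := by rw [sq]; exact Nat.mul_le_mul_left _ hq
        omega
      · exact hsub _ hjN (hq2p ▸ pow_dvd_pow 3 hge)
    have h1' : N.gcd (q ^ 6) ≤ if D = q + 1 then 1 else q := by
      split_ifs with hc
      · refine le_of_eq ?_
        refine Nat.eq_one_of_dvd_coprimes (a := q + 1) ?_ (hc ▸ g1) (Nat.gcd_dvd_right N (q ^ 6))
        rw [e6]
        exact ((Nat.Prime.coprime_iff_not_dvd Nat.prime_three).2 (by omega)).symm.pow_right _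
      · exact le_trans (Nat.le_of_dvd (by omega) g1) (by omega)
    have hB' := le_trans hB (Nat.mul_le_mul (Nat.mul_le_mul h1' (Nat.mul_le_mul g2 g2)) g3)
    have hq9 : (9 : ℤ) ≤ q := by exact_mod_cast hq
    have hDN : (N : ℤ) + D = (q : ℤ) ^ 4 + (q : ℤ) ^ 2 := by exact_mod_cast hND
    split_ifs at hB' with hc
    · subst hc
      zify [show 2 ≤ q + 1 by omega] at hB'
      push_cast at hB' hDN
      nlinarith [hB', hDN, hq9]
    · have hDq : D ≤ q := by omega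
      have m1 : D - 2 ≤ q - 2 := by omega
      have m2 : D + 1 ≤ q + 1 := by omega
      have hB'' := le_trans hB' (Nat.mul_le_mul (Nat.mul_le_mul (le_refl q) (Nat.mul_le_mul m1 m1)) m2)
      zify [show 2 ≤ q by omega] at hB''
      have hDq' : (D : ℤ) ≤ q := by exact_mod_cast hDq
      nlinarith [hB'', hDN, hq9, hDq']

end Cfsg.Agent.H75.G2Deg
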