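import Cfsg.Agent.H75.G2Deg.NotThree

/-!
# The fixed space of the root groups `10` and `11` as a module of the Levi group of long roots
-/

set_option autoImplicit false
set_option maxRecDepth 10000

namespace Cfsg.Agent.H75.G2Deg

open Cfsg.Lie Module

variable {F : Type*} [Field F] [Fintype F] {V : Type*} [AddCommGroup V] [Module ℂ V]
  (ρ : ↥(chevG2.group F) →* End ℂ V) (P : Pairing F)

/-- The common fixed projection of `10` and `11`. -/
noncomputable def EL : End ℂ V := Pr ρ P 10 * Pr ρ P 11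

theorem c10_11 : Commute (Pr ρ P 10) (Pr ρ P 11) := Pr_commute ρ P (Or.inl (by simp [commPairs]))

theorem EL_idem : EL ρ P * EL ρ P = EL ρ P := by
  rw [EL, (c10_11 ρ P).symm.mul_mul_mul_comm, Pr_idem, Pr_idem]

theorem R6_commute_EL (t : F) : Commute (R ρ 6 t) (EL ρ P) := by
  have h11 : Commute (R ρ 6 t) (Pr ρ P 11) := R_commute_Pr ρ P (Or.inl (by simp [commPairs])) t
  have hs : ∀ u, Commute (R ρ 6 t) (S ρ P 10 u) := by
    intro u
    have h := S_commute ρ P (r := 6) (s := 10) (by simp) (by simp) t u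
    rw [commute_iff_eq] at h ⊢
    rw [S_mul ρ P (by simp [commPairs]) _ _ (by simp [commPairs]),
      S_mul ρ P (by simp [commPairs]) _ _ (by simp [commPairs])] at h
    simp only [S]
    rw [← mul_assoc, h, mul_assoc, h11.eq, ← mul_assoc]
  have e : EL ρ P = (⟨S ρ P 10, S_add ρ P (by simp [commPairs])⟩ : Fam F V).proj P 0 := by
    simp only [EL, Pr, Fam.proj, fam1, S, smul_mul_assoc, Finset.sum_mul]
  rw [e]
  exact Fam.commute_proj P _ hs 0

theorem Diag_commute_EL {g : ↥(chevG2.group F)} (hg : IsDiag g) : Commute (ρ g) (EL ρ P) :=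
  (Diag_commute_Pr ρ P hg (by norm_num)).mul_right (Diag_commute_Pr ρ P hg (by norm_num))

theorem N_move : ρ (Ne 1) * Pr ρ P 10 = Pr ρ P 11 * ρ (Ne 1) ∧ ρ (Ne 1) * Pr ρ P 11 = Pr ρ P 10 * ρ (Ne 1) := by
  obtain ⟨e, he, h⟩ := Ne_mul_Xe (F := F) (i := 1) (r := 10) (by norm_num) (by norm_num)
  obtain ⟨e', he', h'⟩ := Ne_mul_Xe (F := F) (i := 1) (r := 11) (by norm_num) (by norm_num)
  exact ⟨move_Pr ρ P he h, move_Pr ρ P he' h'⟩

theorem N_commute_EL : Commute (ρ (Ne 1)) (EL ρ P) := by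
  obtain ⟨h1, h2⟩ := N_move ρ P
  rw [commute_iff_eq, EL]
  calc ρ (Ne 1) * (Pr ρ P 10 * Pr ρ P 11) = Pr ρ P 11 * Pr ρ P 10 * ρ (Ne 1) := by
        rw [← mul_assoc, h1, mul_assoc, h2, ← mul_assoc]
    _ = _ := by rw [(c10_11 ρ P).eq]

/-- The root group `6` on `EL`. -/
noncomputable def famE : Fam F V where
  π t := R ρ 6 t * EL ρ P
  add t u := by
    rw [R_add, mul_assoc (R ρ 6 t) (EL ρ P), ← mul_assoc (EL ρ P), ← (R6_commute_EL ρ P u).eq, mul_assoc (R ρ 6 u),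
      EL_idem, ← mul_assoc]

/-- The projection on a character of the root group `6` inside `EL`. -/
noncomputable def pe (a : F) : End ℂ V := (famE ρ P).proj P a

theorem famE_zero : (famE ρ P).π 0 = EL ρ P := by simp [famE, R_zero]

theorem sum_pe : ∑ a, pe ρ P a = EL ρ P := ((famE ρ P).sum_proj P).trans (famE_zero ρ P)

theorem pe_idem (a : F) : pe ρ P a * pe ρ P a = pe ρ P a := Fam.proj_idem P _ a

theorem EL_mul_pe (a : F) : EL ρ P * pe ρ P a = pe ρ P a := by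
  rw [← famE_zero]; exact Fam.zero_mul_proj P _ a

theorem pe_mul_EL (a : F) : pe ρ P a * EL ρ P = pe ρ P a := by
  rw [← famE_zero]; exact Fam.proj_mul_zero P _ a

theorem R6_mul_pe (t a : F) : R ρ 6 t * pe ρ P a = P.e a t • pe ρ P a := by
  have h : R ρ 6 t * EL ρ P * pe ρ P a = P.e a t • pe ρ P a := (famE ρ P).mul_proj P t a
  rwa [mul_assoc, EL_mul_pe] at h

theorem pe_mul_R6 (t a : F) : pe ρ P a * R ρ 6 t = P.e a t • pe ρ P a := by
  have h : pe ρ P a * (R ρ 6 t * EL ρ P) = P.e a t • pe ρ P a := (famE ρ P).proj_mul P t a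
  rwa [(R6_commute_EL ρ P t).eq, ← mul_assoc, pe_mul_EL] at h

theorem Pr6_mul_EL : Pr ρ P 6 * EL ρ P = pe ρ P 0 := by
  simp only [pe, Pr, Fam.proj, fam1, famE, smul_mul_assoc, Finset.sum_mul]

theorem EL_mul_Pr6 : EL ρ P * Pr ρ P 6 = pe ρ P 0 := by
  rw [← Pr6_mul_EL]
  exact (commute_Pr ρ P fun t => (R6_commute_EL ρ P t).symm).eq

theorem Diag_commute_pe_zero {g : ↥(chevG2.group F)} (hg : IsDiag g) : Commute (ρ g) (pe ρ P 0) := by
  rw [← Pr6_mul_EL]
  exact (Diag_commute_Pr ρ P hg (by norm_num)).mul_right (Diag_commute_EL ρ P hg)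

variable (hP : ∀ a b c : F, P.e (a * b) c = P.e a (b * c))

include hP

theorem He_move_pe (y : Fˣ) (a : F) : ρ (He y y) * pe ρ P (a * (y : F)⁻¹) = pe ρ P a * ρ (He y y) := by
  refine (famE ρ P).move_proj P (Equiv.mulLeft₀ (y : F)⁻¹ (inv_ne_zero y.ne_zero)) (fun t => ?_) fun t => ?_
  · show ρ (He y y) * (R ρ 6 t * EL ρ P) = R ρ 6 ((y : F)⁻¹ * t) * EL ρ P * ρ (He y y)
    rw [← mul_assoc, R, ← map_mul, He_mul_Xe y y (by norm_num), map_mul, mul_assoc,
      (Diag_commute_EL ρ P (isDiag_He y y)).eq, ← mul_assoc]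
    congr 3
    simp [ea, eb]
    field_simp
  · show P.e a ((y : F)⁻¹ * t) = _
    rw [hP]

/-- The characters on `EL`. -/
theorem EL_dims [FiniteDimensional ℂ V] [DecidableEq F]
    (hax : ∀ k a b : F, k ≠ 0 → dQ ρ P (k, a, b, 0) = if a = 0 ∧ b = 0 then 1 else 0) :
    (∀ a, a ≠ 0 → rk (pe ρ P a) = 1) ∧
      rk (pe ρ P 0) = ∑ c ∈ Finset.univ.filter (fun c : F × F × F × F => c.1 = 0 ∧ c.2.2.2 = 0), dQ ρ P c ∧
      pe ρ P 0 =
        ∑ c ∈ Finset.univ.filter (fun c : F × F × F × F => c.1 = 0 ∧ c.2.2.2 = 0), (famQ ρ P).proj (PQ P) c := by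
  have ep : ∀ a, pe ρ P a =
      ∑ c ∈ Finset.univ.filter (fun c : F × F × F × F => c.1 = a ∧ c.2.2.2 = 0), (famQ ρ P).proj (PQ P) c := by
    intro a
    let T : Fam F V := ⟨fun t => R ρ 6 t * Pr ρ P 11, fun t u => S_add ρ P (by simp [commPairs]) t u⟩
    have hT := (famQ ρ P).proj_restrict (PQ P) P T (fun t => (t, 0, 0, 0)) (fun c => c.1)
      (fun t => (famQ_six ρ P t).symm) (fun c t => by simp [PQ_apply, AddChar.map_zero_eq_one]) a
    have hpe : pe ρ P a = T.proj P a * (Pr ρ P 10 * Pr ρ P 11) := by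
      simp only [pe, Fam.proj, famE, T, EL, smul_mul_assoc, Finset.sum_mul, mul_assoc,
        ← mul_assoc (Pr ρ P 11) (Pr ρ P 10), ← (c10_11 ρ P).eq]
      simp only [mul_assoc, Pr_idem]
    rw [hpe, hT, Pr_ten_eq, Fam.sum_mul_sum_proj, ← Finset.filter_and]
  have e : ∀ a, rk (pe ρ P a) =
      ∑ c ∈ Finset.univ.filter (fun c : F × F × F × F => c.1 = a ∧ c.2.2.2 = 0), dQ ρ P c := by
    intro a
    rw [ep a, Fam.rk_sum]
    rfl
  refine ⟨fun a ha => ?_, e 0, ep 0⟩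
  rw [e a, Finset.sum_eq_single (a, 0, 0, 0)]
  · rw [hax a 0 0 ha, if_pos ⟨rfl, rfl⟩]
  · rintro ⟨c0, c1, c2, c3⟩ hc hne
    obtain ⟨rfl, rfl⟩ := (Finset.mem_filter.1 hc).2
    rw [hax c0 c1 c2 ha, if_neg]
    rintro ⟨rfl, rfl⟩
    exact hne rfl
  · intro h
    exact absurd (Finset.mem_filter.2 ⟨Finset.mem_univ _, rfl, rfl⟩) h

section Key

variable [FiniteDimensional ℂ V] (h1 : ∀ a, a ≠ 0 → rk (pe ρ P a) = 1) (h0 : rk (pe ρ P 0) ≤ 1)
  (hQ : pe ρ P 0 = (famQ ρ P).proj (PQ P) 0)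
  (hline : ∀ v : V, (∀ g, ∃ c : ℂ, ρ g v = c • v) → v = 0)

omit hP in
include h0 in
theorem commute_sandwich {X : End ℂ V} (hX : Commute X (pe ρ P 0)) :
    X * pe ρ P 0 = LinearMap.trace ℂ V (pe ρ P 0 * X) • pe ρ P 0 := by
  rw [← exists_sandwich (pe_idem ρ P 0) h0 X, ← hX.eq, mul_assoc, pe_idem]

omit hP in
theorem A_commute_pe_zero : Commute (ρ (Ne 0)) (pe ρ P 0) := by
  obtain ⟨e, he, h⟩ := Ne_mul_Xe (F := F) (i := 0) (r := 6) (by norm_num) (by norm_num)
  obtain ⟨e', he', h'⟩ := Ne_mul_Xe (F := F) (i := 0) (r := 10) (by norm_num) (by norm_num)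
  obtain ⟨e'', he'', h''⟩ := Ne_mul_Xe (F := F) (i := 0) (r := 11) (by norm_num) (by norm_num)
  have m6 := move_Pr ρ P he h
  have m10 := move_Pr ρ P he' h'
  have m11 := move_Pr ρ P he'' h''
  rw [show refl 0 6 = 10 from rfl] at m6
  rw [show refl 0 10 = 6 from rfl] at m10
  rw [show refl 0 11 = 11 from rfl] at m11
  have c611 := Pr_commute ρ P (r := 6) (s := 11) (Or.inl (by simp [commPairs]))
  have e1 : pe ρ P 0 = Pr ρ P 6 * (Pr ρ P 10 * Pr ρ P 11) := (Pr6_mul_EL ρ P).symm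
  have e2 : pe ρ P 0 = Pr ρ P 10 * (Pr ρ P 6 * Pr ρ P 11) := by
    rw [← EL_mul_Pr6, EL, mul_assoc, c611.eq]
  rw [commute_iff_eq]
  conv_lhs => rw [e1, ← mul_assoc, m6, mul_assoc, ← mul_assoc (ρ (Ne 0)), m10, mul_assoc, m11, ← mul_assoc,
    ← mul_assoc, mul_assoc (Pr ρ P 10), ← e2]

include h0 hQ hline

omit hP in
/-- The line fixed by the radical is not invariant. -/
theorem pe_zero_moved (hN : ρ (Ne 1) * pe ρ P 0 = LinearMap.trace ℂ V (pe ρ P 0 * ρ (Ne 1)) • pe ρ P 0) :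
    pe ρ P 0 = 0 := by
  refine LinearMap.ext fun x => ?_
  refine hline _ fun g => ?_
  let K : Submonoid ↥(chevG2.group F) :=
    { carrier := {g | ∃ c : ℂ, ρ g * pe ρ P 0 = c • pe ρ P 0}
      one_mem' := ⟨1, by rw [map_one, one_mul, one_smul]⟩
      mul_mem' := by
        rintro g g' ⟨c, hc⟩ ⟨c', hc'⟩
        exact ⟨c' * c, by rw [map_mul, mul_assoc, hc', mul_smul_comm, hc, smul_smul]⟩ }
  haveI : Finite ↥(chevG2.group F) := inferInstance
  have hinv : ∀ g ∈ K, g⁻¹ ∈ K := fun g hg => by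
    have := K.pow_mem hg (orderOf g - 1)
    rwa [pow_sub _ (orderOf_pos g), pow_orderOf_eq_one, one_mul, pow_one] at this
  let H : Subgroup ↥(chevG2.group F) := { K with inv_mem' := fun {g} hg => hinv g hg }
  have hA : ∀ i < 2, Ne i ∈ H := by
    intro i hi
    obtain rfl | rfl : i = 0 ∨ i = 1 := by omega
    · exact ⟨_, commute_sandwich ρ P h0 (A_commute_pe_zero ρ P)⟩
    · exact ⟨_, hN⟩
  have h7 : ∀ t, Xe 7 t ∈ H := fun t => by
    refine ⟨_, commute_sandwich ρ P h0 ?_⟩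
    rw [hQ, commute_iff_eq]
    exact (famQ ρ P).move_proj (PQ P) (Equiv.ofBijective _ (shearMap_bijective t)) (shear_move ρ t)
      fun a => by rw [Pairing.zero_apply, Pairing.zero_apply]
  have h6 : ∀ t, Xe 6 t ∈ H := fun t =>
    ⟨1, by rw [show ρ (Xe 6 t) = R ρ 6 t from rfl, R6_mul_pe, Pairing.zero_apply]⟩
  have step : ∀ i r, i < 2 → r < 12 → (∀ t, Xe r t ∈ H) → ∀ t, Xe (refl i r) t ∈ H := by
    intro i r hi hr hrH t
    obtain ⟨e, he, h⟩ := Ne_mul_Xe (F := F) hi hr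
    have := mul_mem (mul_mem (hA i hi) (hrH (e⁻¹ * t))) (inv_mem (hA i hi))
    rwa [h, mul_inv_cancel_right, mul_inv_cancel_left₀ he] at this
  have h4 : ∀ t, Xe 4 t ∈ H := step 0 7 (by norm_num) (by norm_num) h7
  have h10 : ∀ t, Xe 10 t ∈ H := step 0 6 (by norm_num) (by norm_num) h6
  have h5 : ∀ t, Xe 5 t ∈ H := step 1 6 (by norm_num) (by norm_num) h6
  have h8 : ∀ t, Xe 8 t ∈ H := step 1 7 (by norm_num) (by norm_num) h7
  have h11 : ∀ t, Xe 11 t ∈ H := step 1 10 (by norm_num) (by norm_num) h10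
  have h9 : ∀ t, Xe 9 t ∈ H := step 0 8 (by norm_num) (by norm_num) h8
  have h1' : ∀ t, Xe 1 t ∈ H := step 0 5 (by norm_num) (by norm_num) h5
  have h0' : ∀ t, Xe 0 t ∈ H := step 1 1 (by norm_num) (by norm_num) h1'
  have h3 : ∀ t, Xe 3 t ∈ H := step 1 4 (by norm_num) (by norm_num) h4
  have h2 : ∀ t, Xe 2 t ∈ H := step 0 3 (by norm_num) (by norm_num) h3
  have hg : g ∈ H := by
    refine (Subgroup.closure_le H).2 ?_ (closure_Xe (F := F) ▸ Subgroup.mem_top g)
    rintro _ ⟨r, t, hr, rfl⟩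
    interval_cases r
    exacts [h0' t, h1' t, h2 t, h3 t, h4 t, h5 t, h6 t, h7 t, h8 t, h9 t, h10 t, h11 t]
  obtain ⟨c, hc⟩ := hg
  exact ⟨c, by rw [← Module.End.mul_apply, hc, LinearMap.smul_apply]⟩

include hP h1 in
/-- The reflection at `b` on the line fixed by the radical. -/
theorem key :
    pe ρ P 0 * ρ (Ne 1) * pe ρ P 0 = (-(Fintype.card F : ℂ)⁻¹) • pe ρ P 0 ∧
      pe ρ P 0 * ρ (Ne 1)⁻¹ * pe ρ P 0 = (-(Fintype.card F : ℂ)⁻¹) • pe ρ P 0 ∧
      (∀ t : F, t ≠ 0 → ρ (Hb t) * pe ρ P 0 = pe ρ P 0) ∧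
      (pe ρ P 0 ≠ 0 → pe ρ P 1 * ρ (Ne 1) * pe ρ P 0 ≠ 0) := by
  classical
  set z := pe ρ P 0 with hz
  by_cases hz0 : z = 0
  · simp [hz0]
  set q := Fintype.card F with hq
  set N := ρ (Ne 1) with hN
  set M := ρ (Ne 1)⁻¹ with hM
  have hNM : N * M = 1 := map_mul_inv ρ _
  have hzi : z * z = z := pe_idem ρ P 0
  have sw : ∀ X : End ℂ V, z * X * z = LinearMap.trace ℂ V (z * X) • z := exists_sandwich hzi h0
  set c := LinearMap.trace ℂ V (z * N) with hc
  set c' := LinearMap.trace ℂ V (z * M) with hc'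
  set L : F → ℂ := fun t => LinearMap.trace ℂ V (z * ρ (Hb t)) with hL
  have hH : ∀ t : F, t ≠ 0 → ρ (Hb t) * z = L t • z := fun t ht =>
    commute_sandwich ρ P h0 (Diag_commute_pe_zero ρ P (isDiag_Hb ht))
  have hzN : z * EL ρ P = z := pe_mul_EL ρ P 0
  have hEz : EL ρ P * z = z := EL_mul_pe ρ P 0
  -- the components of `N z` off the line
  set D : F → End ℂ V := fun a => pe ρ P a * N * z with hD
  have hDy : ∀ (y : Fˣ) (a : F), D (a * (y : F)⁻¹) = 0 → D a = 0 := by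
    intro y a h
    set g := He y y with hg
    set g' := ρ ((Ne 1)⁻¹ * g * Ne 1) with hg'
    have e1 : ρ g * N = N * g' := by rw [hg', hN, ← map_mul, ← map_mul]; group
    have e2 : Commute g' z := Diag_commute_pe_zero ρ P ((isDiag_He y y).conj (by norm_num))
    have e3 : ρ g * D (a * (y : F)⁻¹) = D a * g' := by
      rw [hD]
      simp only
      rw [← mul_assoc, ← mul_assoc, He_move_pe ρ P hP, mul_assoc (pe ρ P a), e1, ← mul_assoc, mul_assoc _ g', e2.eq,
        ← mul_assoc]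
    rw [h, mul_zero] at e3
    have e4 := congrArg (fun X => X * ρ ((Ne 1)⁻¹ * g * Ne 1)⁻¹) e3.symm
    have e5 : g' * ρ ((Ne 1)⁻¹ * g * Ne 1)⁻¹ = 1 := map_mul_inv ρ _
    rw [mul_assoc (D a) g', e5, mul_one, zero_mul] at e4
    exact e4
  have hDne : ∀ a, a ≠ 0 → D a ≠ 0 := by
    intro a ha hDa
    have hall : ∀ b, b ≠ 0 → D b = 0 := fun b hb => hDy (Units.mk0 (b / a) (div_ne_zero hb ha)) b (by
      rw [Units.val_mk0, show b * (b / a)⁻¹ = a by field_simp]; exact hDa)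
    refine hz0 (pe_zero_moved ρ P h0 hQ hline ?_)
    have e : N * z = EL ρ P * (N * z) := by
      rw [← mul_assoc, ← (N_commute_EL ρ P).eq, mul_assoc, hEz]
    rw [← hz, ← hN, e, ← sum_pe, Finset.sum_mul, Finset.sum_eq_single (0 : F) (fun b _ hb => by
      rw [← mul_assoc]; exact hall b hb) (fun h => absurd (Finset.mem_univ _) h), ← mul_assoc]
    exact sw N
  -- the sum over the root group `5`
  obtain ⟨e, he, hNe⟩ := Ne_mul_Xe (F := F) (i := 1) (r := 6) (by norm_num) (by norm_num)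
  have m65 : N * Pr ρ P 6 = Pr ρ P 5 * N := move_Pr ρ P he hNe
  have hP5 : Pr ρ P 5 * z = c' • (N * z) := by
    have hEM : Commute M (EL ρ P) := by
      rw [commute_iff_eq]
      calc M * EL ρ P = M * (EL ρ P * N) * M := by rw [mul_assoc, mul_assoc, hNM, mul_one]
        _ = M * N * EL ρ P * M := by rw [← (N_commute_EL ρ P).eq, mul_assoc M N]
        _ = EL ρ P * M := by rw [map_inv_mul, one_mul]
    have e1 : Pr ρ P 5 = N * Pr ρ P 6 * M := by rw [m65, mul_assoc, hNM, mul_one]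
    have e2 : M * z = EL ρ P * (M * z) := by rw [← mul_assoc, ← hEM.eq, mul_assoc, hEz]
    rw [e1, mul_assoc, mul_assoc, e2, ← mul_assoc (Pr ρ P 6), Pr6_mul_EL, ← hz, ← mul_assoc z, sw, mul_smul_comm]
  have hsum5 : ∑ s, R ρ 5 s = (q : ℂ) • Pr ρ P 5 := by
    simp only [Pr, Fam.proj, fam1, Pairing.zero_apply, one_smul, smul_smul]
    rw [mul_inv_cancel₀ (Nat.cast_ne_zero.2 Fintype.card_ne_zero), one_smul]
  have hterm : ∀ s : F, s ≠ 0 → R ρ 5 s * z = L (-s) • (R ρ 6 s⁻¹ * (N * z)) := by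
    intro s hs
    rw [R, Xe_five hs, map_mul, map_mul, map_mul, mul_assoc, show ρ (Xe 6 s⁻¹) = R ρ 6 s⁻¹ from rfl, R6_mul_pe,
      Pairing.zero_apply, one_smul, mul_assoc, hH _ (neg_ne_zero.2 hs), mul_smul_comm, mul_assoc]
  set ℓ : F → ℂ := fun u => if u = 0 then 0 else L (-u⁻¹) with hℓ
  have hG : ∀ a : F, a ≠ 0 → (q : ℂ) * c' = ∑ u, ℓ u * P.e a u := by
    intro a ha
    have h := congrArg (fun X => pe ρ P a * (X * z)) hsum5
    simp only [smul_mul_assoc, hP5, mul_smul_comm, Finset.sum_mul, Finset.mul_sum, smul_smul, ← mul_assoc] at h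
    have e2 : ∑ s, pe ρ P a * R ρ 5 s * z = (∑ u, ℓ u * P.e a u) • D a := by
      rw [Finset.sum_smul]
      refine Fintype.sum_bijective (·⁻¹) inv_involutive.bijective _ _ fun s => ?_
      by_cases hs : s = 0
      · subst hs
        rw [R_zero, mul_one, inv_zero, hℓ]
        simp only [if_true, zero_mul, zero_smul]
        rw [hz, pe, pe, Fam.proj_mul_proj, if_neg ha]
      · rw [mul_assoc, hterm s hs, mul_smul_comm, ← mul_assoc, pe_mul_R6, smul_mul_assoc, smul_smul, hℓ]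
        simp only [inv_ne_zero hs, if_false, inv_inv, hD, mul_assoc]
    rw [e2] at h
    have hne : D a ≠ 0 := hDne a ha
    have := sub_eq_zero.2 h
    rw [hD] at this hne
    simp only at this hne
    rw [← sub_smul, smul_eq_zero] at this
    exact (sub_eq_zero.1 (this.resolve_right hne)).symm
  -- inversion
  have hinv : ∀ w : F, (q : ℂ) * ℓ w = (∑ u, ℓ u) + (q : ℂ) * c' * ((if w = 0 then (q : ℂ) else 0) - 1) := by
    intro w
    have e1 : ∑ a, P.e a (-w) * ∑ u, ℓ u * P.e a u = (q : ℂ) * ℓ w := by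
      simp only [Finset.mul_sum]
      rw [Finset.sum_comm]
      have e : ∀ u a, P.e a (-w) * (ℓ u * P.e a u) = ℓ u * P.e (u - w) a := fun u a => by
        rw [sub_eq_add_neg, Pairing.add_apply, P.symm u a, P.symm (-w) a]; ring
      simp only [e, ← Finset.mul_sum, Pairing.sum_e, sub_eq_zero, mul_ite, mul_zero, Finset.sum_ite_eq',
        Finset.mem_univ, if_true]
      ring
    have e2 : ∑ a, P.e a (-w) = if w = 0 then (q : ℂ) else 0 := by
      rw [Finset.sum_congr rfl fun a _ => P.symm a (-w), Pairing.sum_e]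
      simp
      rfl
    rw [← e1, ← e2, ← Finset.add_sum_erase _ _ (Finset.mem_univ (0 : F)), ← Finset.add_sum_erase _ (fun a => P.e a (-w))
      (Finset.mem_univ (0 : F)), Pairing.zero_apply, one_mul, add_sub_cancel_left, Finset.mul_sum]
    refine congrArg₂ (· + ·) ?_ (Finset.sum_congr rfl fun a ha => ?_)
    · exact Finset.sum_congr rfl fun u _ => by rw [Pairing.zero_apply, mul_one]
    · rw [← hG a (Finset.ne_of_mem_erase ha), mul_comm]
  have hL1 : L 1 = 1 := by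
    rw [hL]; simp only
    rw [Hb_one, map_one, mul_one, trace_idem hzi]
    have : rk z = 1 := le_antisymm h0 (Nat.one_le_iff_ne_zero.2 fun h => hz0 (rk_eq_zero.1 h))
    rw [this, Nat.cast_one]
  have hq0 : (q : ℂ) ≠ 0 := Nat.cast_ne_zero.2 Fintype.card_ne_zero
  have hconst : ∀ u : F, u ≠ 0 → ℓ u = 1 := by
    intro u hu
    have a := hinv u
    have b := hinv (-1)
    simp only [hu, neg_eq_zero, one_ne_zero, if_false] at a b
    have hb1 : ℓ (-1) = 1 := by simp [hℓ, hL1]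
    rw [← hb1]
    exact mul_left_cancel₀ hq0 (a.trans b.symm)
  have hLt : ∀ t : F, t ≠ 0 → L t = 1 := by
    intro t ht
    have := hconst (-t)⁻¹ (inv_ne_zero (neg_ne_zero.2 ht))
    simpa [hℓ, ht] using this
  have hqc : (q : ℂ) * c' = -1 := by
    have h := hG 1 one_ne_zero
    rw [h, ← Finset.add_sum_erase _ _ (Finset.mem_univ (0 : F))]
    have e : ∑ u ∈ Finset.univ.erase (0 : F), ℓ u * P.e 1 u = ∑ u ∈ Finset.univ.erase (0 : F), P.e 1 u :=
      Finset.sum_congr rfl fun u hu => by rw [hconst u (Finset.ne_of_mem_erase hu), one_mul]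
    have h' := P.sum_e (1 : F)
    rw [if_neg one_ne_zero, ← Finset.add_sum_erase _ _ (Finset.mem_univ (0 : F)), AddChar.map_zero_eq_one] at h'
    rw [e]
    simp only [hℓ, if_true, zero_mul, zero_add]
    linear_combination h'
  have hcc : c' = c := by
    have e : z * M * z = z * N * z := by
      rw [hM, Ne_inv, map_mul, ← mul_assoc, ← (Diag_commute_pe_zero ρ P (isDiag_Hb (neg_ne_zero.2 one_ne_zero))).eq,
        hH _ (neg_ne_zero.2 one_ne_zero), hLt _ (neg_ne_zero.2 one_ne_zero), one_smul]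
    rw [sw, sw] at e
    exact smul_left_injective ℂ hz0 e
  have hcv : c' = -(q : ℂ)⁻¹ := by
    field_simp
    linear_combination hqc
  refine ⟨?_, ?_, fun t ht => by rw [hH t ht, hLt t ht, one_smul], fun _ => hDne 1 one_ne_zero⟩
  · rw [sw N, ← hc, ← hcc, hcv]
  · rw [sw M, ← hc', hcv]

end Key

end Cfsg.Agent.H75.G2Deg
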