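import Cfsg.Agent.H65.Chev.G2

/-!
# Relations of `G₂(F)` used for the degree bound

Roots: `7 = a`, `6 = b`, `8 = a + b`, `9 = 2a + b`, `10 = 3a + b`, `11 = 3a + 2b`, and `r ↦ 11 - r` is negation.
-/

set_option autoImplicit false
set_option maxRecDepth 10000

namespace Cfsg.Agent.H75.G2Deg

open Cfsg.Lie Cfsg.Agent.H46
open scoped Matrix MatrixGroups

variable {F : Type*} [Field F]

/-- A root element of the group. -/
noncomputable def Xe (r : ℕ) (t : F) : ↥(chevG2.group F) := ⟨goodG2.xg r t, goodG2.xg_mem_group r t⟩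

/-- A simple reflection representative (`0` for `a`, `1` for `b`). -/
noncomputable def Ne (i : ℕ) : ↥(chevG2.group F) :=
  ⟨goodG2.ng (chevG2.simple i) 1, goodG2.ng_mem_group _ _⟩

/-- The element `h_b(t)`. -/
noncomputable def Hb (t : F) : ↥(chevG2.group F) := ⟨goodG2.hg 6 t, goodG2.hg_mem_group _ _⟩

/-- An element of the maximal torus. -/
noncomputable def He (x y : Fˣ) : ↥(chevG2.group F) :=
  ⟨goodG2.hg 7 (x : F) * goodG2.hg 6 (y : F), mul_mem (goodG2.hg_mem_group _ _) (goodG2.hg_mem_group _ _)⟩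

/-- Membership in the maximal torus. -/
def IsDiag (g : ↥(chevG2.group F)) : Prop := (g : GL chevG2.Idx F) ∈ chevG2.diagonalSubgroup F

/-- The values of the roots on `h_a`. -/
def ea (r : ℕ) : ℤ := [0, -3, -1, 1, -2, 3, -3, 2, -1, 1, 3, 0].getD r 0

/-- The values of the roots on `h_b`. -/
def eb (r : ℕ) : ℤ := [-1, 1, 0, -1, 1, -2, 2, -1, 1, 0, -1, 1].getD r 0

/-- The root permutations of the simple reflections. -/
def refl (i r : ℕ) : ℕ :=
  ([[0, 5, 3, 2, 7, 1, 10, 4, 9, 8, 6, 11], [1, 0, 2, 4, 3, 6, 5, 8, 7, 9, 11, 10]].getD i []).getD r 0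

theorem tables :
    chevG2.simple 0 = 7 ∧ chevG2.simple 1 = 6 ∧ chevG2.rank = 2 ∧ chevG2.nroots = 12 ∧
      chevG2.neg 6 = 5 ∧
      (∀ r < 12, chevG2.cartan 0 r = ea r ∧ chevG2.cartan 1 r = eb r ∧ chevG2.reflectRoot 0 r = refl 0 r ∧
        chevG2.reflectRoot 1 r = refl 1 r) := by
  decide +kernel

theorem Xe_add (r : ℕ) (t u : F) : Xe r (t + u) = Xe r t * Xe r u := Subtype.ext (goodG2.xg_add r t u).symm

theorem Xe_zero (r : ℕ) : Xe r (0 : F) = 1 := Subtype.ext (goodG2.xg_zero r)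

theorem Xe_inv (r : ℕ) (t : F) : (Xe r t)⁻¹ = Xe r (-t) := Subtype.ext (goodG2.xg_inv r t)

theorem Xe_ne_one {r : ℕ} (hr : r < 12) {t : F} (ht : t ≠ 0) : Xe r t ≠ 1 := fun h =>
  ht ((goodG2.xg_eq_one_iff (tables.2.2.2.1.symm ▸ hr) t).1 (congrArg Subtype.val h))

theorem He_mul_Xe (x y : Fˣ) {r : ℕ} (hr : r < 12) (t : F) :
    He x y * Xe r t = Xe r ((x : F) ^ ea r * (y : F) ^ eb r * t) * He x y := by
  obtain ⟨s0, s1, hrk, hn, -, htab⟩ := tables
  have h7 : (7 : ℕ) < chevG2.nroots := by omega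
  have h6 : (6 : ℕ) < chevG2.nroots := by omega
  have hr' : r < chevG2.nroots := by omega
  have p7 : chevG2.pairing 7 r = ea r := by
    rw [← s0, goodG2.pairing_simple (by omega) hr', (htab r hr).1]
  have p6 : chevG2.pairing 6 r = eb r := by
    rw [← s1, goodG2.pairing_simple (by omega) hr', (htab r hr).2.1]
  refine Subtype.ext ?_
  simp only [He, Xe, Subgroup.coe_mul]
  rw [mul_assoc, goodG2.hg_mul_xg h6 hr' y.ne_zero, ← mul_assoc, goodG2.hg_mul_xg h7 hr' x.ne_zero, p6, p7, mul_assoc,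
    mul_assoc ((x : F) ^ ea r)]

theorem Ne_mul_Xe {i : ℕ} (hi : i < 2) {r : ℕ} (hr : r < 12) :
    ∃ e : F, e ≠ 0 ∧ ∀ t : F, Ne i * Xe r t = Xe (refl i r) (e * t) * Ne i := by
  obtain ⟨s0, s1, hrk, hn, -, htab⟩ := tables
  refine ⟨(goodG2.tab.eta i r : F), left_ne_zero_of_mul_eq_one (goodG2.eta_cast_sq i r), fun t => Subtype.ext ?_⟩
  have he : chevG2.reflectRoot i r = refl i r := by
    obtain rfl | rfl : i = 0 ∨ i = 1 := by omega
    exacts [(htab r hr).2.2.1, (htab r hr).2.2.2]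
  simp only [Ne, Xe, Subgroup.coe_mul]
  rw [goodG2.ng_simple_mul_xg (by omega) (by omega), he]

theorem IsDiag.mul_Xe {g : ↥(chevG2.group F)} (hg : IsDiag g) {r : ℕ} (hr : r < 12) :
    ∃ k : F, k ≠ 0 ∧ ∀ t : F, g * Xe r t = Xe r (k * t) * g := by
  obtain ⟨z, hz⟩ := goodG2.mem_diagonal.1 hg
  refine ⟨(goodG2.torusVal z r : F), Units.ne_zero _, fun t => Subtype.ext ?_⟩
  simp only [Xe, Subgroup.coe_mul, hz]
  exact goodG2.torus_mul_xg z (tables.2.2.2.1.symm ▸ hr) t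

theorem isDiag_He (x y : Fˣ) : IsDiag (He x y) :=
  mul_mem (goodG2.hg_mem_diagonal (by decide +kernel) x.ne_zero) (goodG2.hg_mem_diagonal (by decide +kernel) y.ne_zero)

theorem isDiag_Hb {t : F} (ht : t ≠ 0) : IsDiag (Hb t) := goodG2.hg_mem_diagonal (by decide +kernel) ht

theorem IsDiag.comm {g g' : ↥(chevG2.group F)} (hg : IsDiag g) (hg' : IsDiag g') : Commute g g' :=
  Subtype.ext (goodG2.diagonal_comm hg hg')

theorem IsDiag.conj {g : ↥(chevG2.group F)} (hg : IsDiag g) {i : ℕ} (hi : i < 2) :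
    IsDiag ((Ne i)⁻¹ * g * Ne i) := by
  have hN : goodG2.ng (chevG2.simple i) (1 : F) ∈ chevG2.monomialSubgroup F :=
    goodG2.ng_mem_N (goodG2.simple_lt (by rw [tables.2.2.1]; exact hi)) one_ne_zero
  have h := goodG2.diagonal_normalized (inv_mem hN) hg
  simpa [IsDiag, Ne] using h

theorem Hb_one : Hb (1 : F) = 1 := Subtype.ext (goodG2.hg_one (by decide +kernel))

theorem Hb_mul {t u : F} (ht : t ≠ 0) (hu : u ≠ 0) : Hb t * Hb u = Hb (t * u) :=
  Subtype.ext (goodG2.hg_mul_hg (by decide +kernel) ht hu)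

/-- The inverse of the reflection at `b`. -/
theorem Ne_inv : (Ne 1 : ↥(chevG2.group F))⁻¹ = Hb (-1) * Ne 1 := by
  refine Subtype.ext ?_
  simp only [Ne, Hb, tables.2.1, Subgroup.coe_mul, InvMemClass.coe_inv]
  rw [goodG2.ng_inv]
  exact goodG2.ng_eq_hg_mul (r := 6) (-1)

/-- A root element of `-b` as a product of root elements of `b`, the reflection and the torus. -/
theorem Xe_five {s : F} (hs : s ≠ 0) :
    Xe 5 s = Xe 6 s⁻¹ * Ne 1 * Hb (-s) * Xe 6 s⁻¹ := by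
  set t : F := -s⁻¹ with ht
  have ht0 : t ≠ 0 := neg_ne_zero.2 (inv_ne_zero hs)
  have h6 : (6 : ℕ) < chevG2.nroots := by decide +kernel
  have hN : goodG2.ng 6 t = goodG2.ng 6 (1 : F) * goodG2.hg 6 t⁻¹ := by
    have e1 : (goodG2.ng 6 (1 : F))⁻¹ * goodG2.ng 6 t * goodG2.hg 6 t = 1 := by
      rw [goodG2.ng_inv]
      have e2 : goodG2.hg 6 (-t) = goodG2.ng 6 (-t) * goodG2.ng 6 (-1) := rfl
      have e3 : goodG2.ng 6 (-1 : F) * goodG2.ng 6 (-1) = goodG2.hg 6 (-1) := rfl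
      have e4 : goodG2.hg 6 t = goodG2.hg 6 (-t) * goodG2.hg 6 (-1) := by
        rw [goodG2.hg_mul_hg h6 (neg_ne_zero.2 ht0) (neg_ne_zero.2 one_ne_zero)]; simp
      rw [e4, e2, ← e3, ← goodG2.ng_inv (r := 6) t]
      simp only [mul_assoc]
      rw [mul_inv_cancel_left, ← mul_assoc, e3]
      rw [goodG2.hg_mul_hg h6 (neg_ne_zero.2 (one_ne_zero (α := F))) (neg_ne_zero.2 (one_ne_zero (α := F)))]
      simpa using goodG2.hg_one (F := F) h6
    calc goodG2.ng 6 t = goodG2.ng 6 1 * ((goodG2.ng 6 (1 : F))⁻¹ * goodG2.ng 6 t * goodG2.hg 6 t) *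
          (goodG2.hg 6 t)⁻¹ := by group
      _ = goodG2.ng 6 1 * goodG2.hg 6 t⁻¹ := by
          rw [e1, mul_one]
          congr 1
          refine inv_eq_of_mul_eq_one_right ?_
          rw [goodG2.hg_mul_hg h6 ht0 (inv_ne_zero ht0), mul_inv_cancel₀ ht0, goodG2.hg_one h6]
  have hdef : goodG2.ng 6 t = goodG2.xg 6 t * goodG2.xg 5 (-t⁻¹) * goodG2.xg 6 t := by
    rw [Good.ng, tables.2.2.2.2.1]
  have hti : t⁻¹ = -s := by rw [ht, inv_neg, inv_inv]
  refine Subtype.ext ?_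
  simp only [Xe, Ne, Hb, tables.2.1, Subgroup.coe_mul]
  rw [show goodG2.xg 6 s⁻¹ = (goodG2.xg 6 t)⁻¹ by rw [goodG2.xg_inv, ht, neg_neg], ← hti, mul_assoc _ _ (goodG2.hg 6 _),
    ← hN, hdef, hti, neg_neg]
  group

/-! ### Commutation -/

/-- Pairs of commuting roots, in every characteristic. -/
def commPairs : List (ℕ × ℕ) :=
  [(6, 8), (6, 9), (6, 11), (8, 10), (8, 11), (9, 10), (9, 11), (10, 11), (0, 1), (1, 6), (0, 5), (7, 10), (7, 11)]

theorem Xe_commute {r s : ℕ} (h : (r, s) ∈ commPairs) (t u : F) : Commute (Xe r t) (Xe s u) := by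
  have key : ∀ p ∈ commPairs,
      p.1 < chevG2.nroots ∧ p.2 < chevG2.nroots ∧ p.2 ≠ p.1 ∧ p.2 ≠ chevG2.neg p.1 ∧ chevG2.commTerms p.1 p.2 = [] := by
    decide +kernel
  obtain ⟨hr, hs, hne, hn, hc⟩ := key _ h
  exact Subtype.ext (H65.xg_commute goodG2 hr hs hne hn (fun c hc' => by rw [hc] at hc'; simp at hc') t u)

theorem comm10_6 (t u : F) : Xe 10 u * Xe 6 t = Xe 6 t * Xe 10 u * Xe 11 (-(t * u)) := by
  refine Subtype.ext ?_
  simp only [Xe, Subgroup.coe_mul]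
  rw [H65.xg_mul_xg goodG2 (by decide +kernel) (by decide +kernel) (by decide) (by decide +kernel)
    (L := [(11, 1, 1, 1)]) (by decide +kernel)]
  simp

theorem comm9_8 (t u : F) : Xe 9 u * Xe 8 t = Xe 8 t * Xe 9 u * Xe 11 (-(3 * t * u)) := by
  refine Subtype.ext ?_
  simp only [Xe, Subgroup.coe_mul]
  rw [H65.xg_mul_xg goodG2 (by decide +kernel) (by decide +kernel) (by decide) (by decide +kernel)
    (L := [(11, 3, 1, 1)]) (by decide +kernel)]
  simp [mul_assoc]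

theorem conj_low (u t : F) : Xe 6 u * Xe 0 t * Xe 6 (-u) = Xe 0 t * Xe 1 (-(t * u)) := by
  have h : Xe 6 u * Xe 0 t = Xe 0 t * Xe 6 u * Xe 1 (-(t * u)) := by
    refine Subtype.ext ?_
    simp only [Xe, Subgroup.coe_mul]
    rw [H65.xg_mul_xg goodG2 (by decide +kernel) (by decide +kernel) (by decide) (by decide +kernel)
      (L := [(1, 1, 1, 1)]) (by decide +kernel)]
    simp
  rw [h, mul_assoc (Xe 0 t), ← (Xe_commute (by simp [commPairs]) (-(t * u)) u).eq, mul_assoc, mul_assoc,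
    ← Xe_add, add_neg_cancel, Xe_zero, mul_one]

theorem conj_five (u t : F) : Xe 5 u * Xe 1 t = Xe 1 t * Xe 0 (-(t * u)) * Xe 5 u := by
  have h : Xe 5 u * Xe 1 t = Xe 1 t * Xe 5 u * Xe 0 (-(t * u)) := by
    refine Subtype.ext ?_
    simp only [Xe, Subgroup.coe_mul]
    rw [H65.xg_mul_xg goodG2 (by decide +kernel) (by decide +kernel) (by decide) (by decide +kernel)
      (L := [(0, 1, 1, 1)]) (by decide +kernel)]
    simp
  rw [h, mul_assoc, ← (Xe_commute (by simp [commPairs]) (-(t * u)) u).eq, mul_assoc]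

theorem conj_seven_six (v t : F) : Xe 7 v * Xe 6 t =
    Xe 6 t * Xe 8 (-(v * t)) * Xe 9 (v ^ 2 * t) * Xe 10 (v ^ 3 * t) * Xe 11 (v ^ 3 * t ^ 2) * Xe 7 v := by
  have h : Xe 6 t * Xe 7 (-v) = Xe 7 (-v) * Xe 6 t *
      (Xe 8 (-(v * t)) * Xe 9 (v ^ 2 * t) * Xe 10 (v ^ 3 * t) * Xe 11 (v ^ 3 * t ^ 2)) := by
    refine Subtype.ext ?_
    simp only [Xe, Subgroup.coe_mul]
    rw [H65.xg_mul_xg goodG2 (by decide +kernel) (by decide +kernel) (by decide) (by decide +kernel)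
      (L := [(8, -1, 1, 1), (9, 1, 2, 1), (10, 1, 3, 1), (11, 1, 3, 2)]) (by decide +kernel)]
    simp [mul_assoc]
  rw [← Xe_inv] at h
  calc Xe 7 v * Xe 6 t = Xe 7 v * (Xe 6 t * (Xe 7 v)⁻¹) * Xe 7 v := by group
    _ = _ := by rw [h]; group

theorem conj_seven_eight (v t : F) : Xe 7 v * Xe 8 t =
    Xe 8 t * Xe 9 (-(2 * v * t)) * Xe 10 (-(3 * v ^ 2 * t)) * Xe 11 (3 * v * t ^ 2) * Xe 7 v := by
  have h : Xe 8 t * Xe 7 (-v) = Xe 7 (-v) * Xe 8 t *
      (Xe 9 (-(2 * v * t)) * Xe 10 (-(3 * v ^ 2 * t)) * Xe 11 (3 * v * t ^ 2)) := by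
    refine Subtype.ext ?_
    simp only [Xe, Subgroup.coe_mul]
    rw [H65.xg_mul_xg goodG2 (by decide +kernel) (by decide +kernel) (by decide) (by decide +kernel)
      (L := [(9, -2, 1, 1), (10, -3, 2, 1), (11, 3, 1, 2)]) (by decide +kernel)]
    simp [mul_assoc]
  rw [← Xe_inv] at h
  calc Xe 7 v * Xe 8 t = Xe 7 v * (Xe 8 t * (Xe 7 v)⁻¹) * Xe 7 v := by group
    _ = _ := by rw [h]; group

theorem conj_seven_nine (v t : F) : Xe 7 v * Xe 9 t = Xe 9 t * Xe 10 (3 * v * t) * Xe 7 v := by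
  have h : Xe 9 t * Xe 7 (-v) = Xe 7 (-v) * Xe 9 t * Xe 10 (3 * v * t) := by
    refine Subtype.ext ?_
    simp only [Xe, Subgroup.coe_mul]
    rw [H65.xg_mul_xg goodG2 (by decide +kernel) (by decide +kernel) (by decide) (by decide +kernel)
      (L := [(10, 3, 1, 1)]) (by decide +kernel)]
    simp [mul_assoc]
  rw [← Xe_inv] at h
  calc Xe 7 v * Xe 9 t = Xe 7 v * (Xe 9 t * (Xe 7 v)⁻¹) * Xe 7 v := by group
    _ = _ := by rw [h]; group

theorem conj_four_ten (t u : F) : Xe 10 u * Xe 4 t =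
    Xe 4 t * Xe 10 u * (Xe 9 (-(t * u)) * Xe 8 (-(t ^ 2 * u)) * Xe 6 (-(t ^ 3 * u)) * Xe 11 (t ^ 3 * u ^ 2)) := by
  refine Subtype.ext ?_
  simp only [Xe, Subgroup.coe_mul]
  rw [H65.xg_mul_xg goodG2 (by decide +kernel) (by decide +kernel) (by decide) (by decide +kernel)
    (L := [(9, 1, 1, 1), (8, -1, 2, 1), (6, 1, 3, 1), (11, -1, 3, 2)]) (by decide +kernel)]
  have o : Odd 3 := by decide
  simp [mul_assoc, o.neg_pow]

/-- The group is generated by the root elements. -/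
theorem closure_Xe : Subgroup.closure {g : ↥(chevG2.group F) | ∃ (r : ℕ) (t : F), r < 12 ∧ g = Xe r t} = ⊤ := by
  rw [eq_top_iff]
  rintro ⟨g, hg⟩ -
  have hle : chevG2.group F ≤
      (Subgroup.closure {g : ↥(chevG2.group F) | ∃ (r : ℕ) (t : F), r < 12 ∧ g = Xe r t}).map
        (chevG2.group F).subtype :=
    goodG2.group_le fun r hr t =>
      ⟨Xe r t, Subgroup.subset_closure ⟨r, t, by rwa [tables.2.2.2.1] at hr, rfl⟩, rfl⟩
  obtain ⟨g', hg', e⟩ := hle hg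
  rwa [show (⟨g, hg⟩ : ↥(chevG2.group F)) = g' from Subtype.ext e.symm]

end Cfsg.Agent.H75.G2Deg
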