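import Cfsg.Agent.H75.G2Deg.Eig
import Cfsg.Agent.H75.G2Deg.Group

/-!
# Representations of `G₂(F)`: the fixed space of a long root group and the characters of the radical
-/

set_option autoImplicit false
set_option maxRecDepth 10000

namespace Cfsg.Agent.H75.G2Deg

open Cfsg.Lie Module

variable {F : Type*} [Field F] {V : Type*} [AddCommGroup V] [Module ℂ V]
  (ρ : ↥(chevG2.group F) →* End ℂ V) (P : Pairing F)

/-- A root element acting. -/
noncomputable def R (r : ℕ) (t : F) : End ℂ V := ρ (Xe r t)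

theorem R_add (r : ℕ) (t u : F) : R ρ r (t + u) = R ρ r t * R ρ r u := by rw [R, Xe_add, map_mul, R, R]

theorem R_zero (r : ℕ) : R ρ r (0 : F) = 1 := by rw [R, Xe_zero, map_one]

theorem R_commute {r s : ℕ} (h : (r, s) ∈ commPairs ∨ (s, r) ∈ commPairs ∨ r = s) (t u : F) :
    Commute (R ρ r t) (R ρ s u) := by
  rcases h with h | h | rfl
  · exact (Xe_commute h t u).map ρ
  · exact ((Xe_commute h u t).map ρ).symm
  · rw [commute_iff_eq, ← R_add, ← R_add, add_comm]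

theorem map_inv_mul (g : ↥(chevG2.group F)) : ρ g⁻¹ * ρ g = 1 := by rw [← map_mul, inv_mul_cancel, map_one]

theorem map_mul_inv (g : ↥(chevG2.group F)) : ρ g * ρ g⁻¹ = 1 := by rw [← map_mul, mul_inv_cancel, map_one]

/-- The operators of one root group. -/
noncomputable def fam1 (r : ℕ) : Fam F V := ⟨R ρ r, R_add ρ r⟩

variable [Fintype F]

/-- The projection on the fixed space of a root group. -/
noncomputable def Pr (r : ℕ) : End ℂ V := (fam1 ρ r).proj P 0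

theorem Pr_idem (r : ℕ) : Pr ρ P r * Pr ρ P r = Pr ρ P r := Fam.proj_idem P _ 0

theorem R_mul_Pr (r : ℕ) (t : F) : R ρ r t * Pr ρ P r = Pr ρ P r :=
  ((fam1 ρ r).mul_proj P t 0).trans (by rw [P.zero_apply, one_smul]; rfl)

theorem Pr_mul_R (r : ℕ) (t : F) : Pr ρ P r * R ρ r t = Pr ρ P r :=
  ((fam1 ρ r).proj_mul P t 0).trans (by rw [P.zero_apply, one_smul]; rfl)

theorem commute_Pr {T : End ℂ V} {r : ℕ} (h : ∀ t, Commute T (R ρ r t)) : Commute T (Pr ρ P r) :=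
  (fam1 ρ r).commute_proj P h 0

theorem R_commute_Pr {r s : ℕ} (h : (r, s) ∈ commPairs ∨ (s, r) ∈ commPairs ∨ r = s) (t : F) :
    Commute (R ρ r t) (Pr ρ P s) := commute_Pr ρ P fun u => R_commute ρ h t u

theorem Pr_commute {r s : ℕ} (h : (r, s) ∈ commPairs ∨ (s, r) ∈ commPairs ∨ r = s) :
    Commute (Pr ρ P r) (Pr ρ P s) :=
  commute_Pr ρ P fun u =>
    (R_commute_Pr ρ P (r := s) (s := r) (by tauto) u).symm

/-- An element moving one root group to another moves the fixed projections. -/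
theorem move_Pr {g : ↥(chevG2.group F)} {r r' : ℕ} {e : F} (he : e ≠ 0)
    (h : ∀ t, g * Xe r t = Xe r' (e * t) * g) : ρ g * Pr ρ P r = Pr ρ P r' * ρ g := by
  classical
  have e1 : ∀ t, ρ g * R ρ r t = R ρ r' (e * t) * ρ g := fun t => by rw [R, R, ← map_mul, ← map_mul, h]
  simp only [Pr, Fam.proj, fam1, mul_smul_comm, smul_mul_assoc, Finset.mul_sum, Finset.sum_mul]
  congr 1
  refine Fintype.sum_equiv (Equiv.mulLeft₀ e he) _ _ fun t => ?_
  rw [e1, P.zero_apply, P.zero_apply]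
  rfl

theorem rk_conj_Pr [FiniteDimensional ℂ V] {i : ℕ} (hi : i < 2) {r : ℕ} (hr : r < 12) :
    rk (Pr ρ P (refl i r)) = rk (Pr ρ P r) := by
  obtain ⟨e, he, h⟩ := Ne_mul_Xe (F := F) hi hr
  exact rk_conj (map_inv_mul ρ (Ne i)) (Pr_idem ρ P r) (Pr_idem ρ P _) (move_Pr ρ P he h)

theorem Diag_commute_Pr {g : ↥(chevG2.group F)} (hg : IsDiag g) {r : ℕ} (hr : r < 12) :
    Commute (ρ g) (Pr ρ P r) := by
  obtain ⟨k, hk, h⟩ := hg.mul_Xe hr
  exact move_Pr ρ P hk h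

/-! ### The radical modulo the long root group -/

/-- A root element on the fixed space of the long root group `11`. -/
noncomputable def S (r : ℕ) (t : F) : End ℂ V := R ρ r t * Pr ρ P 11

theorem S_eq {r : ℕ} (hr : (r, 11) ∈ commPairs) (t : F) : Pr ρ P 11 * R ρ r t = S ρ P r t :=
  ((R_commute_Pr ρ P (Or.inl hr) t).eq).symm

theorem S_add {r : ℕ} (hr : (r, 11) ∈ commPairs) (t u : F) :
    S ρ P r (t + u) = S ρ P r t * S ρ P r u := by
  rw [S, S, S, R_add, ← mul_assoc, mul_assoc (R ρ r t) (Pr ρ P 11), S_eq ρ P hr, S, mul_assoc, mul_assoc,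
    mul_assoc, Pr_idem]

theorem S_zero (r : ℕ) : S ρ P r (0 : F) = Pr ρ P 11 := by rw [S, R_zero, one_mul]

theorem S_mul {r s : ℕ} (hr : (r, 11) ∈ commPairs) (t u : F) (hs : (s, 11) ∈ commPairs) :
    S ρ P r t * S ρ P s u = R ρ r t * R ρ s u * Pr ρ P 11 := by
  have _ := hr
  rw [S, S, mul_assoc, ← mul_assoc (Pr ρ P 11), S_eq ρ P hs, S, mul_assoc, Pr_idem, mul_assoc]

theorem R11_Pr (t : F) (X : End ℂ V) : R ρ 11 t * (Pr ρ P 11 * X) = Pr ρ P 11 * X := by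
  rw [← mul_assoc, R_mul_Pr]

/-- The four root groups of the radical commute modulo the long root group. -/
theorem S_commute {r s : ℕ} (hr : r ∈ [6, 8, 9, 10]) (hs : s ∈ [6, 8, 9, 10]) (t u : F) :
    Commute (S ρ P r t) (S ρ P s u) := by
  have c11 : ∀ r ∈ [6, 8, 9, 10], (r, 11) ∈ commPairs := by decide +kernel
  have key : ∀ p ∈ [(6, 10), (8, 9)], ∀ t u : F, R ρ p.2 u * R ρ p.1 t * Pr ρ P 11 = R ρ p.1 t * R ρ p.2 u * Pr ρ P 11 := by
    intro p hp t u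
    simp only [List.mem_cons, List.not_mem_nil, or_false] at hp
    rcases hp with rfl | rfl
    · simp only [R]; rw [← map_mul, comm10_6, map_mul, map_mul, mul_assoc _ (ρ (Xe 11 _))]
      rw [show ρ (Xe 11 (-(t * u))) = R ρ 11 (-(t * u)) from rfl, R_mul_Pr]
    · simp only [R]; rw [← map_mul, comm9_8, map_mul, map_mul, mul_assoc _ (ρ (Xe 11 _))]
      rw [show ρ (Xe 11 (-(3 * t * u))) = R ρ 11 (-(3 * t * u)) from rfl, R_mul_Pr]
  rw [commute_iff_eq, S_mul ρ P (c11 r hr) t u (c11 s hs), S_mul ρ P (c11 s hs) u t (c11 r hr)]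
  have cases' : (r, s) ∈ commPairs ∨ (s, r) ∈ commPairs ∨ r = s ∨ (r, s) ∈ [(6, 10), (8, 9)] ∨
      (s, r) ∈ [(6, 10), (8, 9)] :=
    (by decide +kernel : ∀ r ∈ [6, 8, 9, 10], ∀ s ∈ [6, 8, 9, 10], (r, s) ∈ commPairs ∨ (s, r) ∈ commPairs ∨
      r = s ∨ (r, s) ∈ [(6, 10), (8, 9)] ∨ (s, r) ∈ [(6, 10), (8, 9)]) r hr s hs
  rcases cases' with h | h | h | h | h
  · rw [(R_commute ρ (Or.inl h) t u).eq]
  · rw [(R_commute ρ (Or.inr (Or.inl h)) t u).eq]
  · rw [(R_commute ρ (Or.inr (Or.inr h)) t u).eq]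
  · exact (key (r, s) h t u).symm
  · exact key (s, r) h u t

/-- The radical modulo the long root group. -/
noncomputable def famQ : Fam (F × F × F × F) V where
  π a := S ρ P 6 a.1 * S ρ P 8 a.2.1 * (S ρ P 9 a.2.2.1 * S ρ P 10 a.2.2.2)
  add a b := by
    have c := fun r s hr hs t u => S_commute ρ P (r := r) (s := s) hr hs t u
    simp only [Prod.fst_add, Prod.snd_add, S_add ρ P (show (6, 11) ∈ commPairs by simp [commPairs]),
      S_add ρ P (show (8, 11) ∈ commPairs by simp [commPairs]), S_add ρ P (show (9, 11) ∈ commPairs by simp [commPairs]),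
      S_add ρ P (show (10, 11) ∈ commPairs by simp [commPairs])]
    rw [(c 6 8 (by simp) (by simp) b.1 a.2.1).mul_mul_mul_comm, (c 9 10 (by simp) (by simp) b.2.2.1 a.2.2.2).mul_mul_mul_comm]
    exact (((c 9 6 (by simp) (by simp) a.2.2.1 b.1).mul_right (c 9 8 (by simp) (by simp) a.2.2.1 b.2.1)).mul_left
      ((c 10 6 (by simp) (by simp) a.2.2.2 b.1).mul_right (c 10 8 (by simp) (by simp) a.2.2.2 b.2.1))).symm.mul_mul_mul_comm _ _

/-- The pairing of the radical. -/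
noncomputable def PQ : Pairing (F × F × F × F) := P.prod (P.prod (P.prod P))

theorem PQ_apply (c a : F × F × F × F) :
    (PQ P).e c a = P.e c.1 a.1 * (P.e c.2.1 a.2.1 * (P.e c.2.2.1 a.2.2.1 * P.e c.2.2.2 a.2.2.2)) := rfl

/-- The multiplicity of a character of the radical. -/
noncomputable def dQ (c : F × F × F × F) : ℕ := (famQ ρ P).dim (PQ P) c

theorem famQ_apply (a : F × F × F × F) :
    (famQ ρ P).π a = R ρ 6 a.1 * R ρ 8 a.2.1 * R ρ 9 a.2.2.1 * R ρ 10 a.2.2.2 * Pr ρ P 11 := by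
  have hP : Pr ρ P 11 * (R ρ 9 a.2.2.1 * R ρ 10 a.2.2.2) = R ρ 9 a.2.2.1 * R ρ 10 a.2.2.2 * Pr ρ P 11 :=
    ((R_commute_Pr ρ P (r := 9) (s := 11) (Or.inl (by simp [commPairs])) _).mul_left
      (R_commute_Pr ρ P (r := 10) (s := 11) (Or.inl (by simp [commPairs])) _)).eq.symm
  show S ρ P 6 a.1 * S ρ P 8 a.2.1 * (S ρ P 9 a.2.2.1 * S ρ P 10 a.2.2.2) = _
  rw [S_mul ρ P (by simp [commPairs]) _ _ (by simp [commPairs]), S_mul ρ P (by simp [commPairs]) _ _ (by simp [commPairs]),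
    mul_assoc (R ρ 6 _ * R ρ 8 _), ← mul_assoc (Pr ρ P 11), hP, mul_assoc (R ρ 9 _ * R ρ 10 _), Pr_idem]
  simp only [mul_assoc]

theorem famQ_zero : (famQ ρ P).π 0 = Pr ρ P 11 := by
  rw [famQ_apply]; simp [R_zero]

theorem famQ_six (t : F) : (famQ ρ P).π (t, 0, 0, 0) = R ρ 6 t * Pr ρ P 11 := by
  rw [famQ_apply]; simp [R_zero]

theorem famQ_ten (t : F) : (famQ ρ P).π (0, 0, 0, t) = R ρ 10 t * Pr ρ P 11 := by
  rw [famQ_apply]; simp [R_zero]

theorem famQ_coord (a : F × F × F × F) : (famQ ρ P).π a =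
    (famQ ρ P).π (a.1, 0, 0, 0) * (famQ ρ P).π (0, a.2.1, 0, 0) * (famQ ρ P).π (0, 0, a.2.2.1, 0) *
      (famQ ρ P).π (0, 0, 0, a.2.2.2) := by
  rw [← Fam.add, ← Fam.add, ← Fam.add]
  congr 1
  simp

/-- An operator acting additively on the radical is determined on the four root groups. -/
theorem famQ_move {T : End ℂ V} (τ : F × F × F × F →+ F × F × F × F)
    (h6 : ∀ t, T * (famQ ρ P).π (t, 0, 0, 0) = (famQ ρ P).π (τ (t, 0, 0, 0)) * T)
    (h8 : ∀ t, T * (famQ ρ P).π (0, t, 0, 0) = (famQ ρ P).π (τ (0, t, 0, 0)) * T)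
    (h9 : ∀ t, T * (famQ ρ P).π (0, 0, t, 0) = (famQ ρ P).π (τ (0, 0, t, 0)) * T)
    (h10 : ∀ t, T * (famQ ρ P).π (0, 0, 0, t) = (famQ ρ P).π (τ (0, 0, 0, t)) * T) (a : F × F × F × F) :
    T * (famQ ρ P).π a = (famQ ρ P).π (τ a) * T := by
  conv_rhs => rw [show a = (a.1, 0, 0, 0) + (0, a.2.1, 0, 0) + (0, 0, a.2.2.1, 0) + (0, 0, 0, a.2.2.2) by simp]
  rw [map_add, map_add, map_add, Fam.add, Fam.add, Fam.add, famQ_coord, ← mul_assoc, ← mul_assoc, ← mul_assoc, h6,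
    mul_assoc _ T, h8, ← mul_assoc, mul_assoc _ T, h9, ← mul_assoc, mul_assoc _ T, h10, ← mul_assoc]

section Dim

variable [FiniteDimensional ℂ V]

omit [FiniteDimensional ℂ V] in
theorem Pr11_eq : Pr ρ P 11 = ∑ c, (famQ ρ P).proj (PQ P) c := by rw [Fam.sum_proj, famQ_zero]

theorem sum_dQ : ∑ c, dQ ρ P c = rk (Pr ρ P 11) := by
  simp only [dQ]; rw [Fam.sum_dim, famQ_zero]

theorem rk_split : finrank ℂ V = rk (Pr ρ P 11) + rk (1 - Pr ρ P 11) := by
  rw [← rk_sub (one_mul 1) (Pr_idem ρ P 11) (one_mul _) (mul_one _), rk,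
    show LinearMap.range (1 : End ℂ V) = ⊤ from LinearMap.range_eq_top.2 fun v => ⟨v, rfl⟩, finrank_top]

omit [FiniteDimensional ℂ V] in
/-- The fixed space of `10` and `11` in terms of characters. -/
theorem Pr_ten_eq [DecidableEq F] : Pr ρ P 10 * Pr ρ P 11 =
    ∑ c ∈ Finset.univ.filter (fun c : F × F × F × F => c.2.2.2 = 0), (famQ ρ P).proj (PQ P) c := by
  have hT : ∀ t u : F, R ρ 10 (t + u) * Pr ρ P 11 = R ρ 10 t * Pr ρ P 11 * (R ρ 10 u * Pr ρ P 11) :=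
    fun t u => S_add ρ P (by simp [commPairs]) t u
  let T : Fam F V := ⟨fun t => R ρ 10 t * Pr ρ P 11, hT⟩
  rw [← (famQ ρ P).proj_restrict (PQ P) P T (fun t => (0, 0, 0, t)) (fun c => c.2.2.2) (fun t => (famQ_ten ρ P t).symm)
    (fun c t => by simp [PQ_apply, AddChar.map_zero_eq_one]) 0]
  simp only [Pr, Fam.proj, T, fam1, smul_mul_assoc, Finset.sum_mul]

/-- Root group `10` on the fixed space of `11` against root group `6` off it. -/
theorem sum_dQ_ten [DecidableEq F] :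
    ∑ c ∈ Finset.univ.filter (fun c : F × F × F × F => c.2.2.2 ≠ 0), dQ ρ P c =
      rk (Pr ρ P 6 - Pr ρ P 6 * Pr ρ P 11) := by
  have c1011 := Pr_commute ρ P (r := 10) (s := 11) (Or.inl (by simp [commPairs]))
  have c611 := Pr_commute ρ P (r := 6) (s := 11) (Or.inl (by simp [commPairs]))
  have i1011 : Pr ρ P 10 * Pr ρ P 11 * (Pr ρ P 10 * Pr ρ P 11) = Pr ρ P 10 * Pr ρ P 11 := by
    rw [c1011.symm.mul_mul_mul_comm, Pr_idem, Pr_idem]
  have h1 := rk_sub (Pr_idem ρ P 10) i1011 (by rw [← mul_assoc, Pr_idem])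
    (by rw [mul_assoc, ← c1011.eq, ← mul_assoc, Pr_idem])
  have h10 : rk (Pr ρ P 10) = rk (Pr ρ P 11) := rk_conj_Pr ρ P (i := 1) (r := 11) (by norm_num) (by norm_num)
  have h2 : rk (Pr ρ P 10 - Pr ρ P 10 * Pr ρ P 11) = rk (Pr ρ P 6 - Pr ρ P 6 * Pr ρ P 11) := by
    obtain ⟨e, he, h⟩ := Ne_mul_Xe (F := F) (i := 0) (r := 6) (by norm_num) (by norm_num)
    obtain ⟨e', he', h'⟩ := Ne_mul_Xe (F := F) (i := 0) (r := 11) (by norm_num) (by norm_num)
    have m6 := move_Pr ρ P he h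
    have m11 := move_Pr ρ P he' h'
    rw [show refl 0 6 = 10 from rfl] at m6
    rw [show refl 0 11 = 11 from rfl] at m11
    have i611 : Pr ρ P 6 * Pr ρ P 11 * (Pr ρ P 6 * Pr ρ P 11) = Pr ρ P 6 * Pr ρ P 11 := by
      rw [c611.symm.mul_mul_mul_comm, Pr_idem, Pr_idem]
    refine rk_conj (map_inv_mul ρ (Ne 0)) ?_ ?_ ?_
    · rw [sub_mul, mul_sub, mul_sub, Pr_idem, i611, mul_assoc _ _ (Pr ρ P 6), ← c611.eq, ← mul_assoc, Pr_idem]
      abel
    · rw [sub_mul, mul_sub, mul_sub, Pr_idem, i1011, mul_assoc _ _ (Pr ρ P 10), ← c1011.eq, ← mul_assoc, Pr_idem]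
      abel
    · rw [mul_sub, sub_mul, m6, ← mul_assoc, m6, mul_assoc, m11, ← mul_assoc]
  have hsplit := Finset.sum_filter_add_sum_filter_not (Finset.univ : Finset (F × F × F × F))
    (fun c => c.2.2.2 = 0) (dQ ρ P)
  rw [sum_dQ] at hsplit
  have hz : rk (Pr ρ P 10 * Pr ρ P 11) =
      ∑ c ∈ Finset.univ.filter (fun c : F × F × F × F => c.2.2.2 = 0), dQ ρ P c := by
    rw [Pr_ten_eq, Fam.rk_sum]; rfl
  have hne : ∑ c ∈ (Finset.univ : Finset (F × F × F × F)).filter (fun c => ¬ c.2.2.2 = 0), dQ ρ P c =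
      ∑ c ∈ Finset.univ.filter (fun c : F × F × F × F => c.2.2.2 ≠ 0), dQ ρ P c :=
    Finset.sum_congr (by ext; simp) fun _ _ => rfl
  simp only [ne_eq] at hne ⊢
  omega

end Dim

end Cfsg.Agent.H75.G2Deg
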