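import Mathlib.Analysis.Fourier.FiniteAbelian.PontryaginDuality
import Mathlib.LinearAlgebra.Trace
import Mathlib.Data.Complex.Basic

/-!
# Simultaneous eigenspaces of a multiplicative family of operators

A family `π : A → End V` with `π (a + b) = π a * π b` over a finite abelian group with a symmetric non-degenerate
pairing splits the image of the idempotent `π 0` into eigenspaces indexed by `A`.
-/

set_option autoImplicit false

namespace Cfsg.Agent.H75.G2Deg

open Module Finset

variable {V : Type*} [AddCommGroup V] [Module ℂ V]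

/-- The rank of an operator. -/
noncomputable def rk (e : End ℂ V) : ℕ := finrank ℂ (LinearMap.range e)

section Rank

variable [FiniteDimensional ℂ V]

theorem trace_idem {e : End ℂ V} (he : e * e = e) : LinearMap.trace ℂ V e = (rk e : ℂ) := by
  have hi : IsIdempotentElem e := he
  exact (LinearMap.IsIdempotentElem.isProj_range e hi).trace

theorem rk_le (e : End ℂ V) : rk e ≤ finrank ℂ V := Submodule.finrank_le _

theorem rk_eq_zero {e : End ℂ V} : rk e = 0 ↔ e = 0 := by
  rw [rk, Submodule.finrank_eq_zero, LinearMap.range_eq_bot]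

theorem rk_add {e e' : End ℂ V} (he : e * e = e) (he' : e' * e' = e') (h : e * e' = 0) (h' : e' * e = 0) :
    rk (e + e') = rk e + rk e' := by
  have hs : (e + e') * (e + e') = e + e' := by rw [add_mul, mul_add, mul_add, he, he', h, h', add_zero, zero_add]
  have := trace_idem hs
  rw [map_add, trace_idem he, trace_idem he'] at this
  exact_mod_cast this.symm

theorem rk_sub {e e' : End ℂ V} (he : e * e = e) (he' : e' * e' = e') (h : e * e' = e') (h' : e' * e = e') :
    rk e = rk e' + rk (e - e') := by
  have hd : (e - e') * (e - e') = e - e' := by rw [sub_mul, mul_sub, mul_sub, he, he', h, h']; abel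
  conv_lhs => rw [show e = e' + (e - e') by abel]
  exact rk_add he' hd (by rw [mul_sub, h', he', sub_self]) (by rw [sub_mul, h, he', sub_self])

theorem rk_mul_le (e f : End ℂ V) : rk (e * f) ≤ rk e :=
  Submodule.finrank_mono (LinearMap.range_comp_le_range f e)

/-- Conjugate idempotents have equal rank. -/
theorem rk_conj {T T' e e' : End ℂ V} (hT : T' * T = 1) (he : e * e = e) (he' : e' * e' = e')
    (h : T * e = e' * T) : rk e' = rk e := by
  have hT' : T * T' = 1 := mul_eq_one_comm.1 hT
  have e1 : e' = T * e * T' := by rw [h, mul_assoc, hT', mul_one]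
  have := trace_idem he'
  rw [e1, LinearMap.trace_mul_comm, ← mul_assoc, hT, one_mul, trace_idem he] at this
  rw [e1]
  exact_mod_cast this.symm

/-- An operator compressed to a line is a scalar. -/
theorem exists_sandwich {e : End ℂ V} (he : e * e = e) (h1 : rk e ≤ 1) (X : End ℂ V) :
    e * X * e = LinearMap.trace ℂ V (e * X) • e := by
  obtain ⟨c, hc⟩ : ∃ c : ℂ, e * X * e = c • e := by
    obtain ⟨⟨v, y, hy⟩, hv⟩ := finrank_le_one_iff.1 h1
    obtain ⟨c, hc⟩ := hv ⟨e (X v), X v, rfl⟩
    refine ⟨c, LinearMap.ext fun x => ?_⟩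
    obtain ⟨b, hb⟩ := hv ⟨e x, x, rfl⟩
    have hb' : b • v = e x := congrArg Subtype.val hb
    have hc' : c • v = e (X v) := congrArg Subtype.val hc
    rw [Module.End.mul_apply, Module.End.mul_apply, LinearMap.smul_apply, ← hb', map_smul, map_smul, ← hc',
      smul_comm]
  by_cases h0 : e = 0
  · simp [h0]
  · have hr : rk e = 1 := le_antisymm h1 (Nat.one_le_iff_ne_zero.2 fun h => h0 (rk_eq_zero.1 h))
    have := congrArg (LinearMap.trace ℂ V) hc
    rw [map_smul, trace_idem he, hr, Nat.cast_one, smul_eq_mul, mul_one, LinearMap.trace_mul_comm, ← mul_assoc,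
      he] at this
    rw [hc, this]

end Rank

/-- A symmetric non-degenerate pairing into the complex numbers. -/
structure Pairing (A : Type*) [AddCommGroup A] where
  /-- The pairing. -/
  e : A → AddChar A ℂ
  symm : ∀ a b, e a b = e b a
  nondeg : ∀ a, (∀ b, e a b = 1) → a = 0

namespace Pairing

variable {A B : Type*} [AddCommGroup A] [AddCommGroup B]

/-- The pairing of a field through an additive character. -/
def ofField {F : Type*} [Field F] (ψ : AddChar F ℂ) (hψ : ψ ≠ 1) : Pairing F where
  e a := ψ.compAddMonoidHom (AddMonoidHom.mulLeft a)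
  symm a b := congrArg ψ (mul_comm a b)
  nondeg a h := by
    by_contra ha
    refine hψ (DFunLike.ext _ _ fun x => ?_)
    have := h (x / a)
    rw [AddChar.compAddMonoidHom_apply, AddMonoidHom.coe_mulLeft, mul_div_cancel₀ _ ha] at this
    simpa using this

@[simp] theorem ofField_apply {F : Type*} [Field F] (ψ : AddChar F ℂ) (hψ : ψ ≠ 1) (a b : F) :
    (ofField ψ hψ).e a b = ψ (a * b) := rfl

/-- The sum of two pairings. -/
noncomputable def prod (P : Pairing A) (Q : Pairing B) : Pairing (A × B) where
  e a := (P.e a.1).compAddMonoidHom (AddMonoidHom.fst A B) * (Q.e a.2).compAddMonoidHom (AddMonoidHom.snd A B)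
  symm a b := by
    simp only [AddChar.mul_apply, AddChar.compAddMonoidHom_apply, AddMonoidHom.coe_fst, AddMonoidHom.coe_snd]
    rw [P.symm, Q.symm]
  nondeg a h := by
    refine Prod.ext (P.nondeg _ fun b => ?_) (Q.nondeg _ fun b => ?_)
    · simpa [AddChar.map_zero_eq_one] using h (b, 0)
    · simpa [AddChar.map_zero_eq_one] using h (0, b)

@[simp] theorem prod_apply (P : Pairing A) (Q : Pairing B) (a b : A × B) :
    (P.prod Q).e a b = P.e a.1 b.1 * Q.e a.2 b.2 := rfl

theorem zero_apply (P : Pairing A) (b : A) : P.e 0 b = 1 := by rw [P.symm, AddChar.map_zero_eq_one]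

theorem add_apply (P : Pairing A) (a a' b : A) : P.e (a + a') b = P.e a b * P.e a' b := by
  rw [P.symm, AddChar.map_add_eq_mul, P.symm b, P.symm b]

theorem sum_e [Fintype A] [DecidableEq A] (P : Pairing A) (a : A) :
    ∑ b, P.e a b = if a = 0 then (Fintype.card A : ℂ) else 0 := by
  split_ifs with h
  · simp [h, zero_apply]
  · exact AddChar.sum_eq_zero_iff_ne_zero.2 fun h0 => h (P.nondeg a fun b => by rw [h0]; rfl)

end Pairing

/-- A multiplicative family of operators. -/
structure Fam (A V : Type*) [AddCommGroup A] [AddCommGroup V] [Module ℂ V] where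
  /-- The operators. -/
  π : A → End ℂ V
  add : ∀ a b, π (a + b) = π a * π b

namespace Fam

variable {A : Type*} [AddCommGroup A] [Fintype A] (P : Pairing A) (S : Fam A V)

/-- The projection on an eigenspace. -/
noncomputable def proj (c : A) : End ℂ V := (Fintype.card A : ℂ)⁻¹ • ∑ a, P.e c (-a) • S.π a

/-- The dimension of an eigenspace. -/
noncomputable def dim (c : A) : ℕ := rk (S.proj P c)

theorem mul_proj (a c : A) : S.π a * S.proj P c = P.e c a • S.proj P c := by
  simp only [proj, mul_smul_comm, Finset.mul_sum, Finset.smul_sum, smul_comm (P.e c a)]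
  refine Fintype.sum_equiv (Equiv.addLeft a) _ _ fun b => ?_
  rw [← S.add, Equiv.coe_addLeft, smul_smul (P.e c (-(a + b))), ← AddChar.map_add_eq_mul]
  congr 3
  simp [neg_add_rev]

theorem proj_mul (a c : A) : S.proj P c * S.π a = P.e c a • S.proj P c := by
  rw [← S.mul_proj P a c]
  simp only [proj, smul_mul_assoc, mul_smul_comm, Finset.mul_sum, Finset.sum_mul, ← S.add, add_comm]

theorem proj_mul_proj [DecidableEq A] (c d : A) :
    S.proj P c * S.proj P d = if c = d then S.proj P d else 0 := by
  conv_lhs => arg 1; rw [proj]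
  simp only [smul_mul_assoc, Finset.sum_mul, S.mul_proj P, smul_smul, ← Finset.sum_smul]
  have : ∑ a, P.e c (-a) * P.e d a = if c = d then (Fintype.card A : ℂ) else 0 := by
    have e : ∀ a, P.e c (-a) * P.e d a = P.e (d - c) a := fun a => by
      rw [sub_eq_add_neg, P.add_apply, P.symm (-c) a, AddChar.map_neg_eq_inv, AddChar.map_neg_eq_inv,
        P.symm a c, mul_comm]
    rw [Finset.sum_congr rfl fun a _ => e a, P.sum_e]
    by_cases h : c = d
    · rw [if_pos h, if_pos (by rw [h, sub_self])]
    · rw [if_neg h, if_neg (fun h' => h (sub_eq_zero.1 h').symm)]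
  rw [this]
  split_ifs
  · rw [inv_mul_cancel₀ (Nat.cast_ne_zero.2 Fintype.card_ne_zero), one_smul]
  · simp

theorem proj_idem (c : A) : S.proj P c * S.proj P c = S.proj P c := by
  classical
  rw [proj_mul_proj, if_pos rfl]

theorem sum_proj : ∑ c, S.proj P c = S.π 0 := by
  classical
  simp only [proj, ← Finset.smul_sum]
  rw [Finset.sum_comm]
  simp only [← Finset.sum_smul]
  have e : ∀ a, ∑ c, P.e c (-a) = if a = 0 then (Fintype.card A : ℂ) else 0 := fun a => by
    rw [Finset.sum_congr rfl fun c _ => P.symm c (-a), P.sum_e]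
    simp
  simp only [e, ite_smul, zero_smul, Finset.sum_ite_eq', Finset.mem_univ, if_true, smul_smul]
  rw [inv_mul_cancel₀ (Nat.cast_ne_zero.2 Fintype.card_ne_zero), one_smul]

theorem zero_mul_proj (c : A) : S.π 0 * S.proj P c = S.proj P c := by
  rw [S.mul_proj, AddChar.map_zero_eq_one, one_smul]

theorem proj_mul_zero (c : A) : S.proj P c * S.π 0 = S.proj P c := by
  rw [S.proj_mul, AddChar.map_zero_eq_one, one_smul]

theorem expand (a : A) : S.π a = ∑ c, P.e c a • S.proj P c := by
  conv_lhs => rw [← add_zero a, S.add, ← S.sum_proj P, Finset.mul_sum]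
  exact Finset.sum_congr rfl fun c _ => S.mul_proj P a c

/-- An operator commuting with the family commutes with the projections. -/
theorem commute_proj {T : End ℂ V} (h : ∀ a, Commute T (S.π a)) (c : A) : Commute T (S.proj P c) :=
  (Commute.sum_right _ _ _ fun a _ => (h a).smul_right _).smul_right _

/-- An operator permuting the family permutes the projections. -/
theorem move_proj {T : End ℂ V} (τ : A ≃ A) (h : ∀ a, T * S.π a = S.π (τ a) * T) {c c' : A}
    (hc : ∀ a, P.e c' (τ a) = P.e c a) : T * S.proj P c = S.proj P c' * T := by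
  simp only [proj, mul_smul_comm, smul_mul_assoc, Finset.mul_sum, Finset.sum_mul]
  congr 1
  refine Fintype.sum_equiv τ _ _ fun a => ?_
  rw [h, AddChar.map_neg_eq_inv, AddChar.map_neg_eq_inv, hc]

section Dim

variable [FiniteDimensional ℂ V]

theorem dim_move {T T' : End ℂ V} (hT : T' * T = 1) (τ : A ≃ A) (h : ∀ a, T * S.π a = S.π (τ a) * T) {c c' : A}
    (hc : ∀ a, P.e c' (τ a) = P.e c a) : S.dim P c' = S.dim P c :=
  rk_conj hT (S.proj_idem P c) (S.proj_idem P c') (S.move_proj P τ h hc)

theorem trace_proj (c : A) : LinearMap.trace ℂ V (S.proj P c) = (S.dim P c : ℂ) := trace_idem (S.proj_idem P c)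

theorem dim_eq_zero {c : A} : S.dim P c = 0 ↔ S.proj P c = 0 := rk_eq_zero

theorem sum_idem (s : Finset A) : (∑ c ∈ s, S.proj P c) * (∑ c ∈ s, S.proj P c) = ∑ c ∈ s, S.proj P c := by
  classical
  rw [Finset.sum_mul]
  refine Finset.sum_congr rfl fun c hc => ?_
  rw [Finset.mul_sum, Finset.sum_congr rfl fun d _ => S.proj_mul_proj P c d, Finset.sum_ite_eq, if_pos hc]

theorem rk_sum (s : Finset A) : rk (∑ c ∈ s, S.proj P c) = ∑ c ∈ s, S.dim P c := by
  apply Nat.cast_injective (R := ℂ)
  rw [← trace_idem (S.sum_idem P s), map_sum, Nat.cast_sum]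
  exact Finset.sum_congr rfl fun c _ => S.trace_proj P c

theorem sum_dim : ∑ c, S.dim P c = rk (S.π 0) := by rw [← S.rk_sum, S.sum_proj]

theorem dim_le (c : A) : S.dim P c ≤ rk (S.π 0) := by
  rw [← S.sum_dim P]
  exact Finset.single_le_sum (fun d _ => Nat.zero_le _) (Finset.mem_univ c)

end Dim

/-- An operator moving an eigenspace to another one has no trace there. -/
theorem trace_moved {T : End ℂ V} {c c' : A} (hne : c ≠ c') (h : T * S.proj P c = S.proj P c' * T) :
    LinearMap.trace ℂ V (T * S.proj P c) = 0 := by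
  classical
  rw [← S.proj_idem P c, ← mul_assoc, LinearMap.trace_mul_comm, h, ← mul_assoc, S.proj_mul_proj P c c', if_neg hne,
    zero_mul, map_zero]

theorem sum_mul_sum_proj [DecidableEq A] (s t : Finset A) :
    (∑ c ∈ s, S.proj P c) * (∑ c ∈ t, S.proj P c) = ∑ c ∈ s ∩ t, S.proj P c := by
  rw [Finset.sum_mul, ← Finset.sum_ite_mem s t]
  refine Finset.sum_congr rfl fun c _ => ?_
  rw [Finset.mul_sum, Finset.sum_congr rfl fun d _ => S.proj_mul_proj P c d, Finset.sum_ite_eq]

/-! ### Restriction to a subgroup -/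

section Restrict

variable {B : Type*} [AddCommGroup B] [Fintype B] (Q : Pairing B)

theorem proj_restrict (T : Fam B V) (j : B → A) (j' : A → B) (hj : ∀ b, T.π b = S.π (j b))
    (hc : ∀ c b, Q.e (j' c) b = P.e c (j b)) (d : B) [DecidableEq B] :
    T.proj Q d = ∑ c ∈ Finset.univ.filter (fun c => j' c = d), S.proj P c := by
  classical
  simp only [proj]
  conv_lhs => rw [Finset.sum_congr rfl fun b _ => show Q.e d (-b) • T.π b =
    ∑ c, (Q.e d (-b) * Q.e (j' c) b) • S.proj P c by rw [hj, S.expand P, Finset.smul_sum]; simp only [smul_smul, hc]]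
  rw [Finset.sum_comm, Finset.smul_sum, Finset.sum_filter]
  refine Finset.sum_congr rfl fun c _ => ?_
  rw [← Finset.sum_smul, smul_smul]
  have e : ∀ b, Q.e d (-b) * Q.e (j' c) b = Q.e (j' c - d) b := fun b => by
    rw [sub_eq_add_neg, Q.add_apply, Q.symm (-d) b, AddChar.map_neg_eq_inv, AddChar.map_neg_eq_inv,
      Q.symm b d, mul_comm]
  rw [Finset.sum_congr rfl fun b _ => e b, Q.sum_e]
  by_cases h : j' c = d
  · rw [if_pos (by rw [h, sub_self]), if_pos h, inv_mul_cancel₀ (Nat.cast_ne_zero.2 Fintype.card_ne_zero), one_smul,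
      proj]
  · rw [if_neg (fun h' => h (sub_eq_zero.1 h')), if_neg h, mul_zero, zero_smul]

theorem dim_restrict [FiniteDimensional ℂ V] (T : Fam B V) (j : B → A) (j' : A → B) (hj : ∀ b, T.π b = S.π (j b))
    (hc : ∀ c b, Q.e (j' c) b = P.e c (j b)) (d : B) [DecidableEq B] :
    T.dim Q d = ∑ c ∈ Finset.univ.filter (fun c => j' c = d), S.dim P c := by
  rw [dim, S.proj_restrict P Q T j j' hj hc, S.rk_sum]

end Restrict

end Fam

end Cfsg.Agent.H75.G2Deg
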