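import Cfsg.Agent.H75.G2Deg.Three

/-!
# Characteristic three: the bound
-/

set_option autoImplicit false
set_option maxRecDepth 10000

namespace Cfsg.Agent.H75.G2Deg

open Cfsg.Lie Module

variable {F : Type*} [Field F] [Fintype F] [CharP F 3] [DecidableEq F] {V : Type*} [AddCommGroup V] [Module ℂ V]
  (ρ : ↥(chevG2.group F) →* End ℂ V)
  {P : Pairing F} (hP : ∀ a b c : F, P.e (a * b) c = P.e a (b * c))

omit [CharP F 3] [DecidableEq F] in
/-- Operators fixing a complement move with conjugation. -/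
theorem fix_conj {g : ↥(chevG2.group F)} {r r' s s' : ℕ} {e e' : F} (he : e ≠ 0) (he' : e' ≠ 0)
    (h : ∀ t, g * Xe r t = Xe r' (e * t) * g) (h' : ∀ t, g * Xe s t = Xe s' (e' * t) * g)
    (hfix : ∀ t, R ρ r t * (1 - Pr ρ P s) = 1 - Pr ρ P s) (t : F) :
    R ρ r' t * (1 - Pr ρ P s') = 1 - Pr ρ P s' := by
  have m := move_Pr ρ P he' h'
  have k : ρ g * R ρ r (e⁻¹ * t) = R ρ r' t * ρ g := by
    simp only [R, ← map_mul, h, mul_inv_cancel_left₀ he]
  have m' : ρ g * (1 - Pr ρ P s) = (1 - Pr ρ P s') * ρ g := by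
    rw [mul_sub, mul_one, m, sub_mul, one_mul]
  calc R ρ r' t * (1 - Pr ρ P s') = R ρ r' t * ((1 - Pr ρ P s') * ρ g) * ρ g⁻¹ := by
        rw [mul_assoc, mul_assoc, map_mul_inv, mul_one]
    _ = (R ρ r' t * ρ g) * (1 - Pr ρ P s) * ρ g⁻¹ := by rw [← m']; simp only [mul_assoc]
    _ = ρ g * (R ρ r (e⁻¹ * t) * (1 - Pr ρ P s)) * ρ g⁻¹ := by rw [← k]; simp only [mul_assoc]
    _ = 1 - Pr ρ P s' := by rw [hfix, m', mul_assoc, map_mul_inv, mul_one]

variable [FiniteDimensional ℂ V]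

include hP

/-- Short root groups move the complement of the fixed space of a long root group. -/
theorem mu_one_ne_zero (hq : 4 < Fintype.card F) {t0 : F} (hnt : R ρ 11 t0 ≠ 1) :
    dB ρ P (0, 0, 1, 1) ≠ 0 := by
  classical
  intro hμ
  have h1 : (1 : End ℂ V) = ∑ c, (famB ρ).proj (PQ P) c := by rw [Fam.sum_proj, famB_zero]
  have hout : (1 : End ℂ V) - Pr ρ P 11 =
      ∑ c ∈ Finset.univ.filter (fun c : F × F × F × F => ¬ c.2.2.2 = 0), (famB ρ).proj (PQ P) c := by
    rw [sub_eq_iff_eq_add', Pr_eleven_sumB, h1, Finset.sum_filter_add_sum_filter_not]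
  have hz : ∀ η a b χ : F, χ ≠ 0 → ¬ (a = 0 ∧ b = 0) → (famB ρ).proj (PQ P) (η, a, b, χ) = 0 := by
    intro η a b χ hχ h
    have := dB_eq ρ hP η a b hχ
    rw [if_neg h, hμ] at this
    exact (Fam.dim_eq_zero (PQ P) (famB ρ)).1 this
  -- the short root group `8` fixes the complement of the fixed space of `11`
  have f8 : ∀ t, R ρ 8 t * (1 - Pr ρ P 11) = 1 - Pr ρ P 11 := by
    intro t
    rw [hout, Finset.mul_sum]
    refine Finset.sum_congr rfl fun c hc => ?_
    obtain ⟨η, a, b, χ⟩ := c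
    have hχ : χ ≠ 0 := (Finset.mem_filter.1 hc).2
    by_cases h : a = 0 ∧ b = 0
    · obtain ⟨rfl, rfl⟩ := h
      rw [show R ρ 8 t = (famB ρ).π (0, t, 0, 0) by simp [famB, R_zero], Fam.mul_proj, PQ_apply]
      simp [Pairing.zero_apply, AddChar.map_zero_eq_one]
    · rw [hz η a b χ hχ h, mul_zero]
  obtain ⟨e, he, h⟩ := Ne_mul_Xe (F := F) (i := 1) (r := 8) (by norm_num) (by norm_num)
  obtain ⟨e', he', h'⟩ := Ne_mul_Xe (F := F) (i := 1) (r := 11) (by norm_num) (by norm_num)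
  have f7 : ∀ t, R ρ 7 t * (1 - Pr ρ P 10) = 1 - Pr ρ P 10 := fix_conj ρ he he' h h' f8
  obtain ⟨d, hd, k⟩ := Ne_mul_Xe (F := F) (i := 0) (r := 7) (by norm_num) (by norm_num)
  obtain ⟨d', hd', k'⟩ := Ne_mul_Xe (F := F) (i := 0) (r := 10) (by norm_num) (by norm_num)
  have f4 : ∀ t, R ρ 4 t * (1 - Pr ρ P 6) = 1 - Pr ρ P 6 := fix_conj ρ hd hd' k k' f7
  -- the multiplicity `μ₀` is positive
  have hμ0 : dB ρ P (0, 0, 0, 1) ≠ 0 := by
    intro h0
    refine hnt ?_
    have : (1 : End ℂ V) - Pr ρ P 11 = 0 := by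
      rw [hout]
      refine Finset.sum_eq_zero fun c hc => ?_
      obtain ⟨η, a, b, χ⟩ := c
      have := dB_eq ρ hP η a b (Finset.mem_filter.1 hc).2
      rw [h0, hμ] at this
      simp only [ite_self] at this
      exact (Fam.dim_eq_zero (PQ P) (famB ρ)).1 this
    rw [← mul_one (R ρ 11 t0), sub_eq_zero.1 this, R_mul_Pr]
  have hne : ∀ η : F, (famB ρ).proj (PQ P) (η, 0, 0, 1) ≠ 0 := fun η h0 => hμ0 (by
    have := dB_eq ρ hP η 0 0 (one_ne_zero : (1 : F) ≠ 0)
    rw [if_pos ⟨rfl, rfl⟩] at this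
    rw [← this]
    exact (Fam.dim_eq_zero (PQ P) (famB ρ)).2 h0)
  have hfix : ∀ η : F, η ≠ 0 → R ρ 4 1 * (famB ρ).proj (PQ P) (η, 0, 0, 1) = (famB ρ).proj (PQ P) (η, 0, 0, 1) := by
    intro η hη
    have e : (1 - Pr ρ P 6) * (famB ρ).proj (PQ P) (η, 0, 0, 1) = (famB ρ).proj (PQ P) (η, 0, 0, 1) := by
      rw [sub_mul, one_mul, Pr_six_sumB, Finset.sum_mul, Finset.sum_eq_zero fun c hc => ?_, sub_zero]
      rw [Fam.proj_mul_proj, if_neg]
      rintro rfl
      exact hη (Finset.mem_filter.1 hc).2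
    rw [← e, ← mul_assoc, f4]
  have hψ : ∀ η : F, η ≠ 0 → η + 1 ≠ 0 → P.e 1 (1 - η) = 1 := by
    intro η hη hη1
    set π := (famB ρ).proj (PQ P) (η, 0, 0, 1) with hπ
    set π' := (famB ρ).proj (PQ P) (η + 1, 0, 0, 1) with hπ'
    have hm : R ρ 10 1 * π = π' * R ρ 10 1 := by
      have := ten_move ρ hP (η + 1) 0 0 1 1
      rwa [one_mul, add_sub_cancel_right] at this
    set κ := (PQ P).e (η, 0, 0, 1) (-1, -1, -1, 1) with hκ
    have hg : R ρ 10 1 * R ρ 4 1 = R ρ 4 1 * R ρ 10 1 * (famB ρ).π (-1, -1, -1, 1) := by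
      have c98 := (R8_R9 ρ (-1 : F) (-1)).eq
      have c86 := (R_commute ρ (r := 8) (s := 6) (by simp [commPairs]) (-1 : F) (-1)).eq
      have c96 := (R_commute ρ (r := 9) (s := 6) (by simp [commPairs]) (-1 : F) (-1)).eq
      have e : R ρ 10 1 * R ρ 4 1 =
          R ρ 4 1 * R ρ 10 1 * (R ρ 9 (-1) * R ρ 8 (-1) * R ρ 6 (-1) * R ρ 11 1) := by
        simp only [R, ← map_mul, conj_four_ten]
        simp
      rw [e]
      congr 1
      show _ = R ρ 6 (-1) * R ρ 8 (-1) * (R ρ 9 (-1) * R ρ 11 1)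
      rw [← c98, mul_assoc (R ρ 8 (-1)) (R ρ 9 (-1)), c96, ← mul_assoc (R ρ 8 (-1)), c86]
      simp only [mul_assoc]
    have hl : R ρ 10 1 * (R ρ 4 1 * π) = R ρ 10 1 * π := by rw [hπ, hfix η hη]
    rw [← mul_assoc, hg, mul_assoc _ _ π, hπ, Fam.mul_proj, ← hκ, ← hπ, mul_smul_comm, mul_assoc, hm,
      ← mul_assoc (R ρ 4 1), hfix (η + 1) hη1, ← hm] at hl
    have h0 : (κ - 1) • (R ρ 10 1 * π) = 0 := by rw [sub_smul, one_smul, hl, sub_self]
    rw [smul_eq_zero] at h0
    have hne' : R ρ 10 1 * π ≠ 0 := by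
      intro h00
      refine hne η ?_
      rw [← hπ, ← one_mul π, ← map_inv_mul ρ (Xe 10 1), mul_assoc, show ρ (Xe 10 1) * π = 0 from h00, mul_zero]
    have := sub_eq_zero.1 (h0.resolve_right hne')
    rw [hκ, PQ_dot hP] at this
    rw [← this]
    congr 1
    simp
    ring
  -- the character is trivial
  have hw : ∀ x : F, x ≠ 1 → x ≠ 2 → P.e 1 x = 1 := by
    intro x h1' h2'
    have := hψ (1 - x) (sub_ne_zero.2 (Ne.symm h1')) (fun h => h2' (by linear_combination -h))
    rwa [sub_sub_cancel] at this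
  obtain ⟨w, -, hw'⟩ := Finset.exists_mem_notMem_of_card_lt_card
    (s := ({0, 1, 2, -1} : Finset F)) (t := Finset.univ) (by
      refine lt_of_le_of_lt Finset.card_le_four ?_
      rw [Finset.card_univ]; exact hq)
  simp only [Finset.mem_insert, Finset.mem_singleton, not_or] at hw'
  obtain ⟨w0, w1, w2, wn⟩ := hw'
  have e1 : P.e 1 1 = 1 := by
    rw [show (1 : F) = w + (1 - w) by ring, AddChar.map_add_eq_mul]
    rw [show P.e (w + (1 - w)) = P.e 1 by rw [show w + (1 - w) = (1 : F) by ring]]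
    rw [hw w w1 w2, hw (1 - w) (fun h => w0 (by linear_combination -h)) (fun h => wn (by linear_combination -h)), one_mul]
  refine one_ne_zero (P.nondeg (1 : F) fun x => ?_)
  by_cases h1' : x = 1
  · rw [h1', e1]
  by_cases h2' : x = 2
  · rw [h2', show (2 : F) = 1 + 1 by norm_num, AddChar.map_add_eq_mul, e1, one_mul]
  exact hw x h1' h2'

/-- The multiplicity of a character of the short part of the radical. -/
theorem sum_dQ_fibre (a b : F) (hab : ¬ (a = 0 ∧ b = 0)) :
    ∑ c ∈ Finset.univ.filter (fun c : F × F × F × F => (c.2.1, c.2.2.1) = (a, b)), dQ ρ P c =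
      ∑ c ∈ Finset.univ.filter (fun c : F × F × F × F => (c.2.1, c.2.2.1) = (1, 0)), dQ ρ P c := by
  let T : Fam (F × F) V := ⟨fun x => (famQ ρ P).π (0, x.1, x.2, 0), fun x y => by rw [← Fam.add]; simp⟩
  let P2 : Pairing (F × F) := P.prod P
  have hP2 : ∀ c a : F × F, P2.e c a = P.e 1 (c.1 * a.1 + c.2 * a.2) := fun c a => by
    rw [AddChar.map_add_eq_mul, ← e_eq_one_mul hP, ← e_eq_one_mul hP]; rfl
  have hT : ∀ x : F × F, T.dim P2 x =
      ∑ c ∈ Finset.univ.filter (fun c : F × F × F × F => (c.2.1, c.2.2.1) = x), dQ ρ P c := fun x =>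
    (famQ ρ P).dim_restrict (PQ P) P2 T (fun x => (0, x.1, x.2, 0)) (fun c => (c.2.1, c.2.2.1)) (fun x => rfl)
      (fun c x => by simp [PQ_apply, P2, AddChar.map_zero_eq_one]) x
  have coord : ∀ x : F × F, T.π x = (famQ ρ P).π (0, x.1, 0, 0) * (famQ ρ P).π (0, 0, x.2, 0) := fun x => by
    rw [← Fam.add]; simp [T]
  have shear : ∀ a b v : F, T.dim P2 (a, b) = T.dim P2 (a - b * (2 * v), b) := by
    intro a b v
    let τ : F × F ≃ F × F :=
      { toFun := fun x => (x.1, x.2 + -(2 * v * x.1))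
        invFun := fun x => (x.1, x.2 + 2 * v * x.1)
        left_inv := fun x => by simp
        right_inv := fun x => by simp }
    refine T.dim_move P2 (map_inv_mul ρ (Xe 7 v)) τ (fun x => ?_) fun x => ?_
    · show ρ (Xe 7 v) * (famQ ρ P).π (0, x.1, x.2, 0) = (famQ ρ P).π (0, x.1, x.2 + -(2 * v * x.1), 0) * ρ (Xe 7 v)
      rw [shear_move]
      congr 2
      simp [shearMap, three_eq, sub_eq_add_neg]
    · rw [hP2, hP2]
      congr 1
      simp only [τ, Equiv.coe_fn_mk]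
      ring
  have tor : ∀ a b : F, ∀ x y : Fˣ, T.dim P2 (a * ((x : F)⁻¹ * (y : F)), b * (x : F)) = T.dim P2 (a, b) := by
    intro a b x y
    let τ : F × F ≃ F × F :=
      (Equiv.mulLeft₀ ((x : F)⁻¹ * (y : F)) (mul_ne_zero (inv_ne_zero x.ne_zero) y.ne_zero)).prodCongr
        (Equiv.mulLeft₀ (x : F) x.ne_zero)
    refine (T.dim_move P2 (map_inv_mul ρ (He x y)) τ (fun z => ?_) (c' := (a, b)) fun z => ?_).symm
    · have hg := Diag_commute_Pr ρ P (isDiag_He x y) (r := 11) (by norm_num)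
      show ρ (He x y) * T.π z = T.π _ * ρ (He x y)
      rw [coord, coord, famQ_eight, famQ_nine, famQ_eight, famQ_nine, ← mul_assoc,
        R_move ρ P hg (He_mul_Xe x y (by norm_num)), mul_assoc _ (ρ (He x y)),
        R_move ρ P hg (He_mul_Xe x y (by norm_num))]
      simp [τ, ea, eb, mul_assoc]
    · rw [hP2, hP2]
      congr 1
      simp only [τ, Equiv.prodCongr_apply, Prod.map, Equiv.mulLeft₀, Units.mulLeft_apply, Units.val_mk0]
      ring
  obtain ⟨e8, n8, h8⟩ := Ne_mul_Xe (F := F) (i := 0) (r := 8) (by norm_num) (by norm_num)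
  obtain ⟨e9, n9, h9⟩ := Ne_mul_Xe (F := F) (i := 0) (r := 9) (by norm_num) (by norm_num)
  have weyl : ∀ a b : F, T.dim P2 (a, b) = T.dim P2 (b * e8, a * e9) := by
    intro a b
    let τ : F × F ≃ F × F :=
      { toFun := fun z => (e9 * z.2, e8 * z.1)
        invFun := fun z => (z.2 / e8, z.1 / e9)
        left_inv := fun z => by simp [mul_div_cancel_left₀ _ n8, mul_div_cancel_left₀ _ n9]
        right_inv := fun z => by simp [mul_div_cancel₀ _ n8, mul_div_cancel₀ _ n9] }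
    refine T.dim_move P2 (map_inv_mul ρ (Ne 0)) τ (fun z => ?_) fun z => ?_
    · have hg := Ne_commute_Pr11 ρ P 0 rfl
      show ρ (Ne 0) * T.π z = T.π (e9 * z.2, e8 * z.1) * ρ (Ne 0)
      rw [coord, coord, famQ_eight, famQ_nine, famQ_eight, famQ_nine, ← mul_assoc, R_move ρ P hg h8,
        mul_assoc _ (ρ (Ne 0)), R_move ρ P hg h9, ← mul_assoc]
      congr 1
      exact (S_commute ρ P (r := 8) (s := 9) (by simp) (by simp) (e9 * z.2) (e8 * z.1)).eq.symm
    · rw [hP2, hP2]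
      congr 1
      simp only [τ, Equiv.coe_fn_mk]
      ring
  have base : ∀ a : F, a ≠ 0 → T.dim P2 (a, 0) = T.dim P2 (1, 0) := fun a ha => by
    rw [← tor 1 0 1 (Units.mk0 a ha)]
    simp
  rw [← hT, ← hT]
  by_cases hb : b = 0
  · subst hb
    exact base a fun h => hab ⟨h, rfl⟩
  · rw [shear a b (a / (2 * b)), show a - b * (2 * (a / (2 * b))) = 0 by
      have := two_ne (F := F); field_simp; ring, weyl, zero_mul]
    exact base _ (mul_ne_zero hb n8)

/-- The identities between the multiplicities. -/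
theorem three_counts :
    rk (1 - Pr ρ P 11) = Fintype.card F * (Fintype.card F - 1) *
        (dB ρ P (0, 0, 0, 1) + (Fintype.card F * Fintype.card F - 1) * dB ρ P (0, 0, 1, 1)) ∧
      ∑ c ∈ Finset.univ.filter (fun c : F × F × F × F => c.2.2.2 ≠ 0), dQ ρ P c = (Fintype.card F - 1) *
        (dB ρ P (0, 0, 0, 1) + (Fintype.card F * Fintype.card F - 1) * dB ρ P (0, 0, 1, 1)) ∧
      rk (Pr ρ P 11) + Fintype.card F * (Fintype.card F - 1) *
          (dB ρ P (0, 0, 0, 1) + (Fintype.card F - 1) * dB ρ P (0, 0, 1, 1)) =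
        rk (Pr ρ P 9) + Fintype.card F * (Fintype.card F - 1) *
          ∑ c ∈ Finset.univ.filter (fun c : F × F × F × F => (c.2.1, c.2.2.1) = (1, 0)), dQ ρ P c := by
  classical
  set q := Fintype.card F with hq
  have h1 : (1 : End ℂ V) = ∑ c, (famB ρ).proj (PQ P) c := by rw [Fam.sum_proj, famB_zero]
  have hu : (0 : F) ∈ (Finset.univ : Finset F) := Finset.mem_univ _
  refine ⟨?_, ?_, ?_⟩
  · have e : (1 : End ℂ V) - Pr ρ P 11 =
        ∑ c ∈ Finset.univ.filter (fun c : F × F × F × F => ¬ c.2.2.2 = 0), (famB ρ).proj (PQ P) c := by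
      rw [sub_eq_iff_eq_add', Pr_eleven_sumB, h1, Finset.sum_filter_add_sum_filter_not]
    rw [e, Fam.rk_sum, show Finset.univ.filter (fun c : F × F × F × F => ¬ c.2.2.2 = 0) =
      Finset.univ ×ˢ (Finset.univ ×ˢ (Finset.univ ×ˢ (Finset.univ.filter fun x : F => ¬ x = 0))) by
        ext ⟨a, b, c, d⟩; simp]
    rw [show ∀ s, ∑ c ∈ s, (famB ρ).dim (PQ P) c = ∑ c ∈ s, dB ρ P c from fun s => rfl, sum_dB ρ hP _ _ _ hu hu,
      Finset.card_univ]
  · have e : Pr ρ P 6 - Pr ρ P 6 * Pr ρ P 11 =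
        ∑ c ∈ Finset.univ.filter (fun c : F × F × F × F => c.1 = 0 ∧ ¬ c.2.2.2 = 0), (famB ρ).proj (PQ P) c := by
      rw [Pr_six_sumB, Pr_eleven_sumB, Fam.sum_mul_sum_proj, sub_eq_iff_eq_add', ← Finset.filter_and,
        ← Finset.sum_filter_add_sum_filter_not (Finset.univ.filter (fun c : F × F × F × F => c.1 = 0))
          (fun c => c.2.2.2 = 0), Finset.filter_filter, Finset.filter_filter]
    rw [sum_dQ_ten, e, Fam.rk_sum, show Finset.univ.filter (fun c : F × F × F × F => c.1 = 0 ∧ ¬ c.2.2.2 = 0) =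
      {(0 : F)} ×ˢ (Finset.univ ×ˢ (Finset.univ ×ˢ (Finset.univ.filter fun x : F => ¬ x = 0))) by
        ext ⟨a, b, c, d⟩; simp [eq_comm, and_comm]]
    rw [show ∀ s, ∑ c ∈ s, (famB ρ).dim (PQ P) c = ∑ c ∈ s, dB ρ P c from fun s => rfl, sum_dB ρ hP _ _ _ hu hu,
      Finset.card_univ, Finset.card_singleton, one_mul]
  · have e : Pr ρ P 9 - Pr ρ P 9 * Pr ρ P 11 =
        ∑ c ∈ Finset.univ.filter (fun c : F × F × F × F => c.2.2.1 = 0 ∧ ¬ c.2.2.2 = 0), (famB ρ).proj (PQ P) c := by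
      rw [Pr_nine_sumB, Pr_eleven_sumB, Fam.sum_mul_sum_proj, sub_eq_iff_eq_add', ← Finset.filter_and,
        ← Finset.sum_filter_add_sum_filter_not (Finset.univ.filter (fun c : F × F × F × F => c.2.2.1 = 0))
          (fun c => c.2.2.2 = 0), Finset.filter_filter, Finset.filter_filter]
    have c911 := Pr_commute ρ P (r := 9) (s := 11) (Or.inl (by simp [commPairs]))
    have i911 : Pr ρ P 9 * Pr ρ P 11 * (Pr ρ P 9 * Pr ρ P 11) = Pr ρ P 9 * Pr ρ P 11 := by
      rw [c911.symm.mul_mul_mul_comm, Pr_idem, Pr_idem]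
    have hs := rk_sub (Pr_idem ρ P 9) i911 (by rw [← mul_assoc, Pr_idem])
      (by rw [mul_assoc, ← c911.eq, ← mul_assoc, Pr_idem])
    have hR : rk (Pr ρ P 9 - Pr ρ P 9 * Pr ρ P 11) =
        q * (q - 1) * (dB ρ P (0, 0, 0, 1) + (q - 1) * dB ρ P (0, 0, 1, 1)) := by
      rw [e, Fam.rk_sum, show Finset.univ.filter (fun c : F × F × F × F => c.2.2.1 = 0 ∧ ¬ c.2.2.2 = 0) =
        Finset.univ ×ˢ (Finset.univ ×ˢ ({(0 : F)} ×ˢ (Finset.univ.filter fun x : F => ¬ x = 0))) by
          ext ⟨a, b, c, d⟩; simp [eq_comm, and_comm]]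
      rw [show ∀ s, ∑ c ∈ s, (famB ρ).dim (PQ P) c = ∑ c ∈ s, dB ρ P c from fun s => rfl,
        sum_dB ρ hP _ _ _ hu (Finset.mem_singleton_self _), Finset.card_univ, Finset.card_singleton, mul_one, ← hq]
    have hQ : Pr ρ P 9 * Pr ρ P 11 =
        ∑ c ∈ Finset.univ.filter (fun c : F × F × F × F => c.2.2.1 = 0), (famQ ρ P).proj (PQ P) c := by
      let T : Fam F V := ⟨fun t => R ρ 9 t * Pr ρ P 11, fun t u => S_add ρ P (by simp [commPairs]) t u⟩
      rw [← (famQ ρ P).proj_restrict (PQ P) P T (fun t => (0, 0, t, 0)) (fun c => c.2.2.1)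
        (fun t => (famQ_nine ρ P t).symm) (fun c t => by simp [PQ_apply, AddChar.map_zero_eq_one]) 0]
      simp only [Pr, Fam.proj, T, fam1, smul_mul_assoc, Finset.sum_mul]
    have hne : ∑ c ∈ Finset.univ.filter (fun c : F × F × F × F => ¬ c.2.2.1 = 0), dQ ρ P c = q * (q - 1) *
        ∑ c ∈ Finset.univ.filter (fun c : F × F × F × F => (c.2.1, c.2.2.1) = (1, 0)), dQ ρ P c := by
      rw [← Finset.sum_fiberwise_of_maps_to (g := fun c : F × F × F × F => (c.2.1, c.2.2.1))
        (t := Finset.univ ×ˢ (Finset.univ.filter fun x : F => ¬ x = 0)) (fun c hc => by simpa using hc)]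
      rw [Finset.sum_congr rfl fun p hp => ?_, Finset.sum_const, smul_eq_mul, Finset.card_product, Finset.card_univ,
        Finset.filter_ne', Finset.card_erase_of_mem hu, Finset.card_univ]
      have hp2 : p.2 ≠ 0 := by simpa using hp
      rw [← sum_dQ_fibre ρ hP p.1 p.2 fun h => hp2 h.2, Finset.filter_filter]
      refine Finset.sum_congr ?_ fun _ _ => rfl
      ext c
      simp only [Finset.mem_filter, Finset.mem_univ, true_and]
      exact ⟨fun h => h.2, fun h => ⟨fun h0 => hp2 (by rw [← h0]; exact (congrArg Prod.snd h).symm), h⟩⟩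
    have hall := Finset.sum_filter_add_sum_filter_not (Finset.univ : Finset (F × F × F × F))
      (fun c => c.2.2.1 = 0) (dQ ρ P)
    rw [sum_dQ, hne] at hall
    have hz : rk (Pr ρ P 9 * Pr ρ P 11) =
        ∑ c ∈ Finset.univ.filter (fun c : F × F × F × F => c.2.2.1 = 0), dQ ρ P c := by
      rw [hQ, Fam.rk_sum]; rfl
    omega

/-- The bound for the long root group alone. -/
theorem long_bound (hq : 4 < Fintype.card F) {t0 : F} (hnt : R ρ 11 t0 ≠ 1) :
    Fintype.card F * (Fintype.card F - 1) * (Fintype.card F * Fintype.card F - 1) + rk (Pr ρ P 11) ≤ finrank ℂ V := by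
  rw [rk_split ρ P, (three_counts ρ hP).1, add_comm]
  refine Nat.add_le_add_left (Nat.mul_le_mul_left _ (le_trans ?_ (Nat.le_add_left _ _))) _
  exact Nat.le_mul_of_pos_right _ (Nat.pos_of_ne_zero (mu_one_ne_zero ρ hP hq hnt))

omit hP [DecidableEq F] in
/-- The size of the orbit of a character with both coordinates non-zero. -/
theorem six_fibres {k : F} (hk : k ≠ 0) (c0 : F) :
    Fintype.card F * (Fintype.card F - 1) ≤ 6 * (Nat.card (Set.range fun z : Fˣ × F =>
      ((c0 * (z.1 : F)⁻¹ - z.2 + z.2 ^ 3 * (k * (z.1 : F) ^ 2) : F), k * (z.1 : F) ^ 2))) := by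
  classical
  set φ : Fˣ × F → F × F := fun z =>
    (c0 * (z.1 : F)⁻¹ - z.2 + z.2 ^ 3 * (k * (z.1 : F) ^ 2), k * (z.1 : F) ^ 2) with hφ
  rw [Nat.card_eq_fintype_card (α := Set.range φ), ← Set.toFinset_card, Set.toFinset_range]
  have hdom : (Finset.univ : Finset (Fˣ × F)).card = Fintype.card F * (Fintype.card F - 1) := by
    rw [Finset.card_univ, Fintype.card_prod, Fintype.card_units, mul_comm]
  rw [← hdom]
  refine Finset.card_le_mul_card_image_of_maps_to (fun a ha => Finset.mem_image_of_mem φ ha) 6 fun y hy => ?_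
  obtain ⟨⟨x0, v0⟩, -, rfl⟩ := Finset.mem_image.1 hy
  set fib := (Finset.univ : Finset (Fˣ × F)).filter (fun z => φ z = φ (x0, v0)) with hfib
  -- for each admissible first coordinate at most three second ones
  have hxs : ∀ z ∈ fib, z.1 = x0 ∨ z.1 = -x0 := by
    intro z hz
    have h := congrArg Prod.snd (Finset.mem_filter.1 hz).2
    simp only [hφ] at h
    rcases sq_eq_sq_iff_eq_or_eq_neg.1 (mul_left_cancel₀ hk h) with h' | h'
    · exact Or.inl (Units.ext h')
    · exact Or.inr (Units.ext (by rw [h', Units.val_neg]))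
  have hthree : ∀ x : Fˣ, (fib.filter fun z => z.1 = x).card ≤ 3 := by
    intro x
    rcases (fib.filter fun z => z.1 = x).eq_empty_or_nonempty with h | ⟨z0, hz0⟩
    · rw [h]; simp
    set K := k * (x : F) ^ 2 with hK
    have hK0 : K ≠ 0 := mul_ne_zero hk (pow_ne_zero _ x.ne_zero)
    have sol : ∀ z ∈ fib.filter fun z => z.1 = x, (z.2 - z0.2) * (K * (z.2 - z0.2) ^ 2 - 1) = 0 := by
      intro z hz
      obtain ⟨hzf, hzx⟩ := Finset.mem_filter.1 hz
      obtain ⟨hz0f, hz0x⟩ := Finset.mem_filter.1 hz0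
      have h := congrArg Prod.fst ((Finset.mem_filter.1 hzf).2.trans (Finset.mem_filter.1 hz0f).2.symm)
      simp only [hφ, hzx, hz0x] at h
      rw [← hK] at h
      linear_combination h + (-(K * z.2 ^ 2 * z0.2) + K * z.2 * z0.2 ^ 2) * (three_eq (F := F))
    by_cases hr : ∃ r : F, K * r ^ 2 = 1
    · obtain ⟨r, hr⟩ := hr
      refine le_trans (Finset.card_le_card_of_injOn (fun z => z.2 - z0.2) (t := {0, r, -r}) ?_ ?_) Finset.card_le_three
      · intro z hz
        simp only [Finset.coe_insert, Finset.coe_singleton, Set.mem_insert_iff, Set.mem_singleton_iff]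
        rcases mul_eq_zero.1 (sol z hz) with h | h
        · exact Or.inl h
        · exact Or.inr (sq_eq_sq_iff_eq_or_eq_neg.1 (mul_left_cancel₀ hK0 (by linear_combination h - hr)))
      · intro z hz z' hz' h
        exact Prod.ext ((Finset.mem_filter.1 hz).2.trans (Finset.mem_filter.1 hz').2.symm) (sub_left_inj.1 h)
    · refine le_trans (Finset.card_le_one.2 fun z hz z' hz' => ?_) (by norm_num)
      have e : ∀ w ∈ fib.filter fun z => z.1 = x, w.2 = z0.2 := fun w hw =>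
        sub_eq_zero.1 ((mul_eq_zero.1 (sol w hw)).resolve_right fun h => hr ⟨_, sub_eq_zero.1 h⟩)
      exact Prod.ext ((Finset.mem_filter.1 hz).2.trans (Finset.mem_filter.1 hz').2.symm)
        ((e z hz).trans (e z' hz').symm)
  calc fib.card ≤ ((fib.filter fun z => z.1 = x0) ∪ (fib.filter fun z => z.1 = -x0)).card :=
        Finset.card_le_card fun z hz => by
          rcases hxs z hz with h | h
          · exact Finset.mem_union_left _ (Finset.mem_filter.2 ⟨hz, h⟩)
          · exact Finset.mem_union_right _ (Finset.mem_filter.2 ⟨hz, h⟩)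
    _ ≤ 6 := le_trans (Finset.card_union_le _ _) (by have := hthree x0; have := hthree (-x0); omega)

/-- The bound, up to a final arithmetical case. -/
theorem three_bound (hq : 9 ≤ Fintype.card F) {t0 : F} (hnt : R ρ 11 t0 ≠ 1)
    (hshort : Fintype.card F * (Fintype.card F - 1) * (Fintype.card F * Fintype.card F - 1) + rk (Pr ρ P 9) ≤
      finrank ℂ V) :
    Fintype.card F ^ 4 + Fintype.card F ^ 2 + 1 ≤ finrank ℂ V ∨
      ∃ e ≤ Fintype.card F + 1, finrank ℂ V + (Fintype.card F + 1) = Fintype.card F ^ 4 + Fintype.card F ^ 2 + e := by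
  classical
  set q := Fintype.card F with hqdef
  obtain ⟨hblk, hten, hnine⟩ := three_counts ρ hP
  have hμ1 := mu_one_ne_zero ρ hP (by omega) hnt
  set μ0 := dB ρ P (0, 0, 0, 1)
  set μ1 := dB ρ P (0, 0, 1, 1)
  set bW := ∑ c ∈ Finset.univ.filter (fun c : F × F × F × F => (c.2.1, c.2.2.1) = (1, 0)), dQ ρ P c with hbW
  have hN := rk_split ρ P
  rw [hblk, ← hqdef] at hN
  have hq1 : 1 ≤ q := by omega
  have hqq : 1 ≤ q * q := Nat.one_le_iff_ne_zero.2 (Nat.mul_ne_zero (by omega) (by omega))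
  -- the fixed space by the short part
  set Zs := Finset.univ.filter (fun c : F × F × F × F => (c.2.1, c.2.2.1) = (0, 0))
  have hF : rk (Pr ρ P 11) = (q * q - 1) * bW + ∑ c ∈ Zs, dQ ρ P c := by
    rw [← sum_dQ ρ P, ← Finset.sum_fiberwise (s := Finset.univ) (g := fun c : F × F × F × F => (c.2.1, c.2.2.1)),
      ← Finset.add_sum_erase _ _ (Finset.mem_univ ((0 : F), (0 : F))), add_comm]
    congr 1
    rw [Finset.sum_congr rfl fun p hp => sum_dQ_fibre ρ hP p.1 p.2 fun h =>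
      Finset.ne_of_mem_erase hp (Prod.ext h.1 h.2), Finset.sum_const, Finset.card_erase_of_mem (Finset.mem_univ _),
      Finset.card_univ, Fintype.card_prod, smul_eq_mul]
  have hb : q * q - 1 ≤ bW + q * (q - 1) * μ1 := by
    rw [← hqdef] at hnine
    have key : q * (q - 1) * (q * q - 1) ≤ q * (q - 1) * (bW + q * (q - 1) * μ1) := by
      zify [hq1, hqq] at hN hnine hshort ⊢
      nlinarith
    exact Nat.le_of_mul_le_mul_left key (Nat.mul_pos (by omega) (by omega))
  by_cases hμ2 : 2 ≤ μ1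
  · left
    have hM : (q * q - 1) * 2 ≤ μ0 + (q * q - 1) * μ1 :=
      le_trans (Nat.mul_le_mul_left _ hμ2) (Nat.le_add_left _ _)
    have hN' : q * (q - 1) * ((q * q - 1) * 2) ≤ finrank ℂ V := by
      rw [hN]; exact le_trans (Nat.mul_le_mul_left _ hM) (Nat.le_add_left _ _)
    zify [hq1, hqq] at hN' ⊢
    have : (9 : ℤ) ≤ q := by exact_mod_cast hq
    nlinarith [mul_le_mul_of_nonneg_left this (show (0 : ℤ) ≤ (q : ℤ) ^ 3 by positivity)]
  have hμ : μ1 = 1 := by omega
  rw [hμ, mul_one] at hb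
  rw [hμ] at hN hten
  have hb' : q - 1 ≤ bW := by
    have : q * (q - 1) + (q - 1) = q * q - 1 := by
      zify [hq1, hqq]; ring
    omega
  by_cases hbig : q + 3 ≤ bW
  · left
    have h1 : (q * q - 1) * (q + 3) ≤ rk (Pr ρ P 11) := by
      rw [hF]; exact le_trans (Nat.mul_le_mul_left _ hbig) (Nat.le_add_right _ _)
    zify [hq1, hqq] at h1 hN ⊢
    have : (9 : ℤ) ≤ q := by exact_mod_cast hq
    have : (0 : ℤ) ≤ μ0 := Nat.cast_nonneg _
    nlinarith [mul_nonneg (mul_nonneg (show (0 : ℤ) ≤ q by positivity) (show (0 : ℤ) ≤ (q : ℤ) - 1 by linarith)) this]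
  -- the fibre over `(1, 0)`
  have hfib : ∀ c0 c3 : F, c3 ≠ 0 → dQ ρ P (c0, 1, 0, c3) = 0 := by
    intro c0 c3 hc3
    by_contra hne
    let φ : Fˣ × F → F × F := fun z =>
      (c0 * (z.1 : F)⁻¹ - z.2 + z.2 ^ 3 * (c3 * (z.1 : F) ^ 2), c3 * (z.1 : F) ^ 2)
    have hd : ∀ z, dQ ρ P ((φ z).1, 1, 0, (φ z).2) = dQ ρ P (c0, 1, 0, c3) := by
      intro z
      refine Eq.trans ?_ ((dQ_shear ρ hP z.2 _).trans (dQ_torus ρ hP z.1 z.1 (c0, 1, 0, c3)))
      congr 1
      have : (z.1 : F) ≠ 0 := z.1.ne_zero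
      simp [φ, ea, eb, three_eq]
      refine ⟨?_, ?_⟩ <;> field_simp <;> simp
    have hcard := six_fibres hc3 c0
    rw [Nat.card_eq_fintype_card, ← Set.toFinset_card, Set.toFinset_range] at hcard
    have hsub : (Finset.univ.image φ).image (fun y => (y.1, (1 : F), (0 : F), y.2)) ⊆
        Finset.univ.filter (fun c : F × F × F × F => (c.2.1, c.2.2.1) = (1, 0)) := by
      intro x hx
      obtain ⟨y, -, rfl⟩ := Finset.mem_image.1 hx
      simp
    have hconst : ∀ y ∈ Finset.univ.image φ, dQ ρ P (y.1, 1, 0, y.2) = dQ ρ P (c0, 1, 0, c3) := by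
      intro y hy
      obtain ⟨z, -, rfl⟩ := Finset.mem_image.1 hy
      exact hd z
    have hle := Finset.sum_le_sum_of_subset (f := dQ ρ P) hsub
    rw [← hbW, Finset.sum_image (fun y _ y' _ h => by
      simp only [Prod.mk.injEq, true_and] at h
      exact Prod.ext h.1 h.2), Finset.sum_congr rfl hconst, Finset.sum_const, smul_eq_mul] at hle
    have h1 : (Finset.univ.image φ).card ≤ q + 2 :=
      le_trans (le_trans (Nat.le_mul_of_pos_right _ (Nat.pos_of_ne_zero hne)) hle) (by omega)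
    have h2 : q * (q - 1) ≤ 6 * (q + 2) := le_trans hcard (Nat.mul_le_mul_left _ h1)
    have h3 : q * 8 ≤ q * (q - 1) := Nat.mul_le_mul_left _ (by omega)
    omega
  set d := dQ ρ P (0, 1, 0, 0) with hdd
  have hline : ∀ c0 : F, dQ ρ P (c0, 1, 0, 0) = d := by
    intro c0
    rw [hdd, ← dQ_shear ρ hP (-c0) (0, 1, 0, 0)]
    congr 1
    simp [three_eq]
  have hbd : bW = q * d := by
    rw [hbW, show Finset.univ.filter (fun c : F × F × F × F => (c.2.1, c.2.2.1) = (1, 0)) =
      Finset.univ ×ˢ ({(1 : F)} ×ˢ ({(0 : F)} ×ˢ Finset.univ)) by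
        ext ⟨a, b, c, e⟩; simp [eq_comm, and_comm]]
    rw [Finset.sum_product, Finset.sum_congr rfl fun a _ => by
      rw [Finset.sum_product, Finset.sum_singleton, Finset.sum_product, Finset.sum_singleton,
        Finset.sum_eq_single (0 : F) (fun e _ he => hfib a e he) (fun h => absurd (Finset.mem_univ _) h), hline a],
      Finset.sum_const, Finset.card_univ, smul_eq_mul]
  have hd1 : d = 1 := by
    rcases Nat.lt_or_ge d 1 with h | h
    · interval_cases d; omega
    · rcases Nat.lt_or_ge d 2 with h' | h'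
      · omega
      · have : q * 2 ≤ q * d := Nat.mul_le_mul_left _ h'
        omega
  rw [hd1, mul_one] at hbd
  -- the general formula on the short part
  obtain ⟨w, w0, w1, w2, w3, hw⟩ := dQ_weyl ρ hP
  have hA : ∀ c0 a c3 : F, a ≠ 0 → dQ ρ P (c0, a, 0, c3) = if c3 = 0 then 1 else 0 := by
    intro c0 a c3 ha
    rw [← dQ_torus ρ hP 1 (Units.mk0 a⁻¹ (inv_ne_zero ha)) (c0, a, 0, c3)]
    simp only [ea, eb, List.getD_cons_succ, List.getD_cons_zero, Units.val_one, Units.val_mk0, one_zpow, one_mul,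
      zero_mul, zpow_neg, zpow_one, inv_inv, inv_one, mul_inv_cancel₀ ha]
    by_cases h : c3 = 0
    · rw [if_pos h, h, zero_mul, hline, hd1]
    · rw [if_neg h, hfib _ _ (mul_ne_zero h ha)]
  have hC : ∀ c0 a b c3 : F, b ≠ 0 →
      dQ ρ P (c0, a, b, c3) = if c0 - a / (2 * b) * a + (a / (2 * b)) ^ 2 * b + (a / (2 * b)) ^ 3 * c3 = 0 then 1 else 0 := by
    intro c0 a b c3 hb
    have h2 := two_ne (F := F)
    rw [← dQ_shear ρ hP (a / (2 * b)) (c0, a, b, c3)]
    simp only [three_eq, zero_mul, mul_zero, sub_zero, add_zero, zero_pow]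
    rw [show a - 2 * (a / (2 * b)) * b = 0 by field_simp; ring]
    generalize c0 - a / (2 * b) * a + (a / (2 * b)) ^ 2 * b + (a / (2 * b)) ^ 3 * c3 = X
    have h := hw (c3 / w.2.2.2, b / w.2.2.1, 0, X / w.1)
    simp only [mul_div_cancel₀ _ w0, mul_div_cancel₀ _ w2, mul_div_cancel₀ _ w3, mul_zero] at h
    rw [h, hA _ _ _ (div_ne_zero hb w2)]
    simp [div_eq_zero_iff, w0]
  set a1 := dQ ρ P (0, 0, 0, 1) with ha1
  have hz3 : ∀ c0 c3 : F, c3 ≠ 0 → dQ ρ P (c0, 0, 0, c3) = a1 := by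
    intro c0 c3 hc3
    obtain ⟨v, hv⟩ := Finite.surjective_of_injective (frobenius_inj F 3) (-(c0 / c3))
    rw [← dQ_shear ρ hP v (c0, 0, 0, c3)]
    simp only [three_eq, zero_mul, mul_zero, sub_zero, add_zero]
    rw [show c0 + v ^ 3 * c3 = 0 by
      rw [show v ^ 3 = frobenius F 3 v from (frobenius_def _ _).symm, hv]; field_simp; ring]
    rw [ha1, ← dQ_torus ρ hP 1 (Units.mk0 c3⁻¹ (inv_ne_zero hc3)) (0, 0, 0, 1)]
    simp [ea, eb]
  have hz0 : ∀ c0 : F, c0 ≠ 0 → dQ ρ P (c0, 0, 0, 0) = a1 := by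
    intro c0 hc0
    have h := hw (0, 0, 0, c0 / w.1)
    simp only [mul_div_cancel₀ _ w0, mul_zero] at h
    rw [h]
    exact hz3 _ _ (div_ne_zero hc0 w0)
  -- the counts
  have hten' : ∑ c ∈ Finset.univ.filter (fun c : F × F × F × F => c.2.2.2 ≠ 0), dQ ρ P c =
      q * (q - 1) * a1 + q * (q - 1) * (q - 1) := by
    rw [show Finset.univ.filter (fun c : F × F × F × F => c.2.2.2 ≠ 0) =
      Finset.univ ×ˢ (Finset.univ ×ˢ (Finset.univ ×ˢ (Finset.univ.filter fun x : F => ¬ x = 0))) by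
        ext ⟨a, b, c, e⟩; simp, Finset.sum_product_right]
    simp only [Finset.sum_product]
    have inner : ∀ a b c3 : F, c3 ≠ 0 → ∑ c0 : F, dQ ρ P (c0, a, b, c3) =
        if b = 0 then (if a = 0 then q * a1 else 0) else 1 := by
      intro a b c3 hc3
      split_ifs with hb ha
      · subst hb ha
        rw [Finset.sum_congr rfl fun c0 _ => hz3 c0 c3 hc3, Finset.sum_const, Finset.card_univ, smul_eq_mul]
      · subst hb
        exact Finset.sum_eq_zero fun c0 _ => by rw [hA c0 a c3 ha, if_neg hc3]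
      · rw [Finset.sum_eq_single (-(-(a / (2 * b) * a) + (a / (2 * b)) ^ 2 * b + (a / (2 * b)) ^ 3 * c3))]
        · rw [hC _ a b c3 hb, if_pos (by ring)]
        · intro c0 _ hne
          rw [hC _ a b c3 hb, if_neg]
          exact fun h => hne (by linear_combination h)
        · exact fun h => absurd (Finset.mem_univ _) h
    rw [Finset.sum_congr rfl fun a _ => Finset.sum_congr rfl fun b _ => Finset.sum_congr rfl fun c3 hc3 =>
      inner a b c3 (Finset.mem_filter.1 hc3).2]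
    simp only [Finset.sum_const, Finset.filter_ne', Finset.card_erase_of_mem (Finset.mem_univ _), Finset.card_univ,
      smul_eq_mul, ← hqdef]
    simp only [mul_ite, mul_zero, mul_one, Finset.sum_ite, Finset.filter_eq', Finset.filter_ne', Finset.mem_univ,
      if_true, Finset.sum_const, Finset.sum_singleton, Finset.card_erase_of_mem, Finset.card_univ, smul_eq_mul,
      Finset.sum_add_distrib, ← hqdef, Finset.card_singleton, one_mul, mul_zero, add_zero, zero_add]
    rw [Finset.sum_eq_single (0 : F) (fun x _ hx => by simp [hx]) (by simp)]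
    simp
    ring
  set e := dQ ρ P (0, 0, 0, 0)
  have hZs : ∑ c ∈ Zs, dQ ρ P c = (q * q - 1) * a1 + e := by
    rw [show Zs = Finset.univ ×ˢ ({(0 : F)} ×ˢ ({(0 : F)} ×ˢ Finset.univ)) by
      ext ⟨a, b, c, e⟩; simp [Zs, eq_comm, and_comm]]
    simp only [Finset.sum_product, Finset.sum_singleton]
    have hrow : ∀ a : F, ∑ c3 : F, dQ ρ P (a, 0, 0, c3) = dQ ρ P (a, 0, 0, 0) + (q - 1) * a1 := by
      intro a
      rw [← Finset.add_sum_erase _ _ (Finset.mem_univ (0 : F)),
        Finset.sum_congr rfl fun c3 hc => hz3 a c3 (Finset.ne_of_mem_erase hc), Finset.sum_const,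
        Finset.card_erase_of_mem (Finset.mem_univ _), Finset.card_univ, smul_eq_mul, ← hqdef]
    simp only [hrow, Finset.sum_add_distrib]
    rw [← Finset.add_sum_erase _ _ (Finset.mem_univ (0 : F)),
      Finset.sum_congr rfl fun c0 hc => hz0 c0 (Finset.ne_of_mem_erase hc), Finset.sum_const, Finset.sum_const,
      Finset.card_erase_of_mem (Finset.mem_univ _), Finset.card_univ, smul_eq_mul, smul_eq_mul, ← hqdef]
    zify [hq1, hqq]
    ring
  rw [hten', ← hqdef] at hten
  rw [hbd, hZs] at hF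
  -- the multiplicity `μ₀`
  have hM : μ0 + (q * q - 1) * 1 = q * a1 + q * (q - 1) := by
    refine Nat.eq_of_mul_eq_mul_left (show 0 < q - 1 by omega) ?_
    rw [← hten]; ring
  rw [hM, hF] at hN
  have ha : 1 ≤ a1 := by
    by_contra h
    have : a1 = 0 := by omega
    rw [this, mul_zero, zero_add, mul_one] at hM
    have : q * (q - 1) < q * q - 1 := by
      zify [hq1, hqq]
      have : (9 : ℤ) ≤ q := by exact_mod_cast hq
      nlinarith
    omega
  by_cases ha2 : 2 ≤ a1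
  · left
    zify [hq1, hqq] at hN ⊢
    have h9 : (9 : ℤ) ≤ q := by exact_mod_cast hq
    have h2 : (2 : ℤ) ≤ a1 := by exact_mod_cast ha2
    have he : (0 : ℤ) ≤ e := Nat.cast_nonneg _
    nlinarith [mul_nonneg (show (0 : ℤ) ≤ (q : ℤ) ^ 3 - 1 by nlinarith) (sub_nonneg.2 h2)]
  have ha1' : a1 = 1 := by omega
  rw [ha1'] at hN
  by_cases he : q + 2 ≤ e
  · left
    zify [hq1, hqq] at hN ⊢
    have he' : (q : ℤ) + 2 ≤ e := by exact_mod_cast he
    nlinarith
  · refine Or.inr ⟨e, by omega, ?_⟩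
    zify [hq1, hqq] at hN ⊢
    linear_combination hN

end Cfsg.Agent.H75.G2Deg
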