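import Cfsg.Agent.H75.G2Deg.OneMod
import Cfsg.Agent.H75.G2Deg.ThreeBound
import Cfsg.Agent.H75.G2Deg.Arith
import Cfsg.Agent.H25.CharIntegral
import Cfsg.Agent.H64.Chev.Exceptional
import Cfsg.Agent.S1055
import Cfsg.Agent.S1059

/-!
# The smallest degree of a non-linear irreducible representation of G₂(q)
-/

set_option autoImplicit false

namespace Cfsg.Agent.H75.G2Deg

open Cfsg.Lie Module

variable {F : Type*} [Field F] [Fintype F]

/-- A field with more than two elements has an element other than `0` and `1`. -/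
theorem exists_ne_zero_one (hq : 2 < Fintype.card F) : ∃ a : F, a ≠ 0 ∧ a ≠ 1 := by
  classical
  obtain ⟨a, -, ha⟩ := Finset.exists_mem_notMem_of_card_lt_card (s := ({0, 1} : Finset F)) (t := Finset.univ) (by
    refine lt_of_le_of_lt Finset.card_le_two ?_
    rw [Finset.card_univ]; exact hq)
  simp only [Finset.mem_insert, Finset.mem_singleton, not_or] at ha
  exact ⟨a, ha⟩

/-- A non-trivial representation is non-trivial on every root group. -/
theorem R_ne_one {V : Type*} [AddCommGroup V] [Module ℂ V] (ρ : ↥(chevG2.group F) →* End ℂ V)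
    (hq : 2 < Fintype.card F) (hρ : ∃ g, ρ g ≠ 1) {r : ℕ} (hr : r < 12) : R ρ r 1 ≠ 1 := by
  intro h
  have : IsSimpleGroup ↥(chevG2.group F) := (Cfsg.Agent.S1055.result (exists_ne_zero_one hq)).1
  rcases (MonoidHom.normal_ker ρ).eq_bot_or_eq_top with hb | ht
  · exact Xe_ne_one hr one_ne_zero ((Subgroup.eq_bot_iff_forall _).1 hb _ h)
  · obtain ⟨g, hg⟩ := hρ
    exact hg (ht ▸ Subgroup.mem_top g : g ∈ ρ.ker)

/-- No non-zero vector of an irreducible representation of degree at least two spans an invariant line. -/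
theorem no_line {G : Type*} [Group G] {k : ℕ} (ρ : Representation ℂ G (Fin k → ℂ)) (hρ : ρ.IsIrreducible)
    (hk : 2 ≤ k) (v : Fin k → ℂ) (hv : ∀ g, ∃ c : ℂ, ρ g v = c • v) : v = 0 := by
  have : ρ.IsIrreducible := hρ
  by_contra h0
  let σ : Subrepresentation ρ := ⟨Submodule.span ℂ {v}, fun g w hw => by
    obtain ⟨a, rfl⟩ := Submodule.mem_span_singleton.1 hw
    obtain ⟨c, hc⟩ := hv g
    rw [map_smul, hc]
    exact Submodule.smul_mem _ _ (Submodule.smul_mem _ _ (Submodule.mem_span_singleton_self v))⟩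
  rcases eq_bot_or_eq_top σ with h | h
  · have h1 : v ∈ σ.toSubmodule := Submodule.mem_span_singleton_self v
    rw [h] at h1
    exact h0 h1
  · have h1 : Submodule.span ℂ ({v} : Set (Fin k → ℂ)) = ⊤ := congrArg Subrepresentation.toSubmodule h
    have h2 := finrank_span_singleton (K := ℂ) h0
    rw [h1, finrank_top, finrank_fin_fun] at h2
    omega

theorem three_cast_ne (h : Fintype.card F % 3 ≠ 0) : (3 : F) ≠ 0 := by
  intro h3
  haveI := Fact.mk Nat.prime_three
  have e : addOrderOf (1 : F) = 3 := addOrderOf_eq_prime (by simpa [nsmul_eq_mul] using h3) one_ne_zero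
  have := addOrderOf_dvd_card (x := (1 : F))
  rw [e] at this
  exact h (Nat.mod_eq_zero_of_dvd this)

theorem card_eq_three_pow (h : Fintype.card F % 3 = 0) : CharP F 3 ∧ ∃ n : ℕ, Fintype.card F = 3 ^ n := by
  obtain ⟨p, hp⟩ := CharP.exists F
  obtain ⟨n, hpp, hn⟩ := FiniteField.card F p
  have hd : 3 ∣ p ^ (n : ℕ) := hn ▸ Nat.dvd_of_mod_eq_zero h
  obtain rfl : 3 = p := (Nat.prime_dvd_prime_iff_eq Nat.prime_three hpp).1 (Nat.prime_three.dvd_of_dvd_pow hd)
  exact ⟨hp, n, hn⟩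

variable {V : Type*} [AddCommGroup V] [Module ℂ V] [FiniteDimensional ℂ V]
  (ρ : ↥(chevG2.group F) →* End ℂ V) {P : Pairing F} (hP : ∀ a b c : F, P.e (a * b) c = P.e a (b * c))

include hP

/-- The bound when the characteristic is not three. -/
theorem not_three_bound (hρ : ∃ g, ρ g ≠ 1) (hline : ∀ v : V, (∀ g, ∃ c : ℂ, ρ g v = c • v) → v = 0) :
    (Fintype.card F % 3 = 1 → 4 < Fintype.card F → Fintype.card F ^ 3 + 1 ≤ finrank ℂ V) ∧
      (Fintype.card F % 3 = 2 → 2 < Fintype.card F → Fintype.card F ^ 3 - 1 ≤ finrank ℂ V) := by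
  classical
  suffices key : Fintype.card F % 3 ≠ 0 → 5 ≤ Fintype.card F →
      Fintype.card F ^ 3 + 1 ≤ finrank ℂ V ∨
        ∃ e, finrank ℂ V + 1 = Fintype.card F ^ 3 + e ∧ (Fintype.card F % 3 = 1 → 7 ≤ Fintype.card F → 2 ≤ e) by
    refine ⟨fun h1 h4 => ?_, fun h2 h2' => ?_⟩
    · rcases key (by omega) (by omega) with h | ⟨e, he, he2⟩
      · exact h
      · have := he2 h1 (by omega); omega
    · rcases key (by omega) (by omega) with h | ⟨e, he, -⟩ <;> omega
  intro hm hq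
  have h3 := three_cast_ne hm
  have hμ0 := dA_ne_zero ρ hP h3 (R_ne_one ρ (by omega) hρ (r := 11) (by norm_num))
  have hN := rk_split ρ P
  rw [(counts ρ hP h3).1] at hN
  set q := Fintype.card F
  rcases Nat.lt_or_ge (dA ρ P (0, 0, 1)) 2 with hμ | hμ
  · have hμ1 : dA ρ P (0, 0, 1) = 1 := by omega
    rw [(axis ρ hP h3 hq hμ1).2, hμ1, mul_one] at hN
    refine Or.inr ⟨∑ c ∈ Finset.univ.filter (fun c : F × F × F × F => c.1 = 0 ∧ c.2.2.2 = 0), dQ ρ P c, ?_,
      fun h1 h7 => ?_⟩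
    · rw [hN, show Fintype.card F = q from rfl]
      have : 1 ≤ q ^ 2 := Nat.one_le_pow _ _ (by omega)
      zify [this, show 1 ≤ q by omega]
      ring
    · by_contra he
      exact false_of_small ρ hP h3 h7 h1 hμ1 hline (by omega)
  · left
    have h2 : q ^ 2 * (q - 1) * 2 ≤ q ^ 2 * (q - 1) * dA ρ P (0, 0, 1) := Nat.mul_le_mul_left _ hμ
    have h3' : q ^ 3 + 1 ≤ q ^ 2 * (q - 1) * 2 := by
      zify [show 1 ≤ q by omega]
      have : (5 : ℤ) ≤ q := by exact_mod_cast hq
      nlinarith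
    omega

/-- The bound in characteristic three. -/
theorem char_three_bound (hρ : ∃ g, ρ g ≠ 1) (hq3 : Fintype.card F % 3 = 0) (hq : 3 < Fintype.card F)
    (hdvd : finrank ℂ V ∣ Nat.card ↥(chevG2.group F)) :
    Fintype.card F ^ 4 + Fintype.card F ^ 2 + 1 ≤ finrank ℂ V := by
  classical
  obtain ⟨hchar, n, hn⟩ := card_eq_three_pow hq3
  have hn2 : 9 ≤ Fintype.card F := by
    rcases Nat.lt_or_ge n 2 with h | h
    · interval_cases n <;> simp at hn <;> omega
    · rw [hn]; exact le_trans (by norm_num) (Nat.pow_le_pow_right (by norm_num) h)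
  haveI := Fact.mk Nat.prime_three
  obtain ⟨σ, π, hπ, hσ⟩ := Cfsg.Agent.H64.Isogeny.swap_G2 (F := F) fun x =>
    (PerfectRing.bijective_frobenius (R := F) (p := 3)).2 x
  let ρ' : ↥(chevG2.group F) →* End ℂ V := ρ.comp σ.toMonoidHom
  have h6 : ∀ t : F, σ (Xe 6 t) = Xe 7 t := by
    intro t
    have hr : 1 < chevG2.rank := by rw [tables.2.2.1]; norm_num
    have h := (hσ ⟨1, hr⟩ t).1
    have hπ1 : ((π ⟨1, hr⟩ : Fin _) : ℕ) = 0 := hπ _
    rw [hπ1] at h
    simp only [tables.1, tables.2.1, List.getD_cons_succ, List.getD_cons_zero, pow_one] at h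
    exact h
  have hR : Pr ρ' P 6 = Pr ρ P 7 := by
    have : R ρ' 6 = R ρ 7 := funext fun t => by simp [R, ρ', h6]
    simp only [Pr, Fam.proj, fam1, this]
  have hrank : rk (Pr ρ' P 11) = rk (Pr ρ P 9) := by
    rw [show (11 : ℕ) = refl 1 10 from rfl, rk_conj_Pr ρ' P (by norm_num) (by norm_num),
      show (10 : ℕ) = refl 0 6 from rfl, rk_conj_Pr ρ' P (by norm_num) (by norm_num), hR,
      show (9 : ℕ) = refl 0 8 from rfl, rk_conj_Pr ρ P (by norm_num) (by norm_num),
      show (8 : ℕ) = refl 1 7 from rfl, rk_conj_Pr ρ P (by norm_num) (by norm_num)]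
  have hρ' : ∃ g, ρ' g ≠ 1 := by
    obtain ⟨g, hg⟩ := hρ
    exact ⟨σ.symm g, by simpa [ρ'] using hg⟩
  have hshort := long_bound ρ' hP (by omega) (R_ne_one ρ' (by omega) hρ' (r := 11) (by norm_num))
  rw [hrank] at hshort
  rcases three_bound ρ hP hn2 (R_ne_one ρ (by omega) hρ (r := 11) (by norm_num)) hshort with h | ⟨e, he, hN⟩
  · exact h
  · exfalso
    rw [Cfsg.Agent.S1059.result rfl] at hdvd
    exact no_dvd hn hn2 he hN hdvd

omit hP in
/-- The bounds for an irreducible representation. -/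
theorem min_degree {k : ℕ} (ρ : Representation ℂ ↥(chevG2.group F) (Fin k → ℂ)) (hρ : ρ.IsIrreducible) (hk : 2 ≤ k) :
    (Fintype.card F % 3 = 1 → 4 < Fintype.card F → Fintype.card F ^ 3 + 1 ≤ k) ∧
      (Fintype.card F % 3 = 2 → 2 < Fintype.card F → Fintype.card F ^ 3 - 1 ≤ k) ∧
      (Fintype.card F % 3 = 0 → 3 < Fintype.card F → Fintype.card F ^ 4 + Fintype.card F ^ 2 + 1 ≤ k) := by
  have : ρ.IsIrreducible := hρ
  obtain ⟨ψ, hψ⟩ := (AddChar.exists_apply_ne_zero (α := F) (a := 1)).2 one_ne_zero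
  have hψ1 : ψ ≠ 1 := fun h => hψ (by rw [h]; rfl)
  have hP : ∀ a b c : F, (Pairing.ofField ψ hψ1).e (a * b) c = (Pairing.ofField ψ hψ1).e a (b * c) :=
    fun a b c => by simp [mul_assoc]
  have hline := no_line ρ hρ hk
  have hne : ∃ g, ρ g ≠ 1 := by
    by_contra h
    push Not at h
    have e := hline (Pi.single ⟨0, by omega⟩ 1) fun g => ⟨1, by rw [h g, one_smul]; rfl⟩
    simp at e
  have h12 := not_three_bound (ρ : _ →* _) hP hne hline
  have h0 := fun a b => char_three_bound (ρ : _ →* _) hP hne a b (Cfsg.Agent.H25.finrank_dvd_card ρ)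
  rw [finrank_fin_fun] at h12 h0
  exact ⟨h12.1, h12.2, h0⟩

end Cfsg.Agent.H75.G2Deg
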