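import Cfsg.Agent.H75.G2Deg.Basic

/-!
# The Levi group acting on the characters of the radical
-/

set_option autoImplicit false
set_option maxRecDepth 10000

namespace Cfsg.Agent.H75.G2Deg

open Cfsg.Lie Module

variable {F : Type*} [Field F] [Fintype F] {V : Type*} [AddCommGroup V] [Module ℂ V]
  (ρ : ↥(chevG2.group F) →* End ℂ V) {P : Pairing F} (hP : ∀ a b c : F, P.e (a * b) c = P.e a (b * c))

include hP in
omit [Fintype F] in
theorem e_eq_one_mul (a b : F) : P.e a b = P.e 1 (a * b) := by rw [← hP, one_mul]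

include hP in
theorem PQ_dot (c a : F × F × F × F) :
    (PQ P).e c a = P.e 1 (c.1 * a.1 + (c.2.1 * a.2.1 + (c.2.2.1 * a.2.2.1 + c.2.2.2 * a.2.2.2))) := by
  rw [PQ_apply, AddChar.map_add_eq_mul, AddChar.map_add_eq_mul, AddChar.map_add_eq_mul, ← e_eq_one_mul hP,
    ← e_eq_one_mul hP, ← e_eq_one_mul hP, ← e_eq_one_mul hP]

/-- Scaling of the four coordinates. -/
def scale4 (k : F × F × F × F) : F × F × F × F →+ F × F × F × F where
  toFun a := (k.1 * a.1, k.2.1 * a.2.1, k.2.2.1 * a.2.2.1, k.2.2.2 * a.2.2.2)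
  map_zero' := by simp
  map_add' a b := by simp [mul_add]

variable (P)

omit hP in
theorem R_move {g : ↥(chevG2.group F)} (hg : Commute (ρ g) (Pr ρ P 11)) {r r' : ℕ} {e : F}
    (h : ∀ t, g * Xe r t = Xe r' (e * t) * g) (t : F) :
    ρ g * (R ρ r t * Pr ρ P 11) = R ρ r' (e * t) * Pr ρ P 11 * ρ g := by
  rw [← mul_assoc, R, ← map_mul, h, map_mul, mul_assoc, hg.eq, ← mul_assoc]
  rfl

omit hP in
theorem Ne_commute_Pr11 (i : ℕ) (hi : i = 0) : Commute (ρ (Ne i)) (Pr ρ P 11) := by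
  subst hi
  obtain ⟨e, he, h⟩ := Ne_mul_Xe (F := F) (i := 0) (r := 11) (by norm_num) (by norm_num)
  exact move_Pr ρ P he h

omit hP in
theorem famQ_eight (t : F) : (famQ ρ P).π (0, t, 0, 0) = R ρ 8 t * Pr ρ P 11 := by
  rw [famQ_apply]; simp [R_zero]

omit hP in
theorem famQ_nine (t : F) : (famQ ρ P).π (0, 0, t, 0) = R ρ 9 t * Pr ρ P 11 := by
  rw [famQ_apply]; simp [R_zero]

variable {P} [FiniteDimensional ℂ V]

include hP

/-- The torus. -/
theorem dQ_torus (x y : Fˣ) (c : F × F × F × F) :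
    dQ ρ P (c.1 * ((x : F) ^ ea 6 * (y : F) ^ eb 6), c.2.1 * ((x : F) ^ ea 8 * (y : F) ^ eb 8),
      c.2.2.1 * ((x : F) ^ ea 9 * (y : F) ^ eb 9), c.2.2.2 * ((x : F) ^ ea 10 * (y : F) ^ eb 10)) = dQ ρ P c := by
  set k : ℕ → F := fun r => (x : F) ^ ea r * (y : F) ^ eb r with hk
  have hk0 : ∀ r, k r ≠ 0 := fun r => mul_ne_zero (zpow_ne_zero _ x.ne_zero) (zpow_ne_zero _ y.ne_zero)
  have hg := Diag_commute_Pr ρ P (isDiag_He x y) (r := 11) (by norm_num)
  let τ := scale4 (k 6, k 8, k 9, k 10)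
  have hb : Function.Bijective τ :=
    Finite.injective_iff_bijective.1 fun a b e => by
      simp only [τ, scale4, AddMonoidHom.coe_mk, ZeroHom.coe_mk, Prod.mk.injEq] at e
      exact Prod.ext (mul_left_cancel₀ (hk0 _) e.1) (Prod.ext (mul_left_cancel₀ (hk0 _) e.2.1)
        (Prod.ext (mul_left_cancel₀ (hk0 _) e.2.2.1) (mul_left_cancel₀ (hk0 _) e.2.2.2)))
  refine ((famQ ρ P).dim_move (PQ P) (map_inv_mul ρ (He x y)) (Equiv.ofBijective τ hb) (famQ_move ρ P τ ?_ ?_ ?_ ?_)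
    (c' := c) fun a => ?_).symm
  · intro t
    rw [famQ_six, show τ (t, 0, 0, 0) = (k 6 * t, 0, 0, 0) by simp [τ, scale4], famQ_six]
    exact R_move ρ P hg (He_mul_Xe x y (by norm_num)) t
  · intro t
    rw [famQ_eight, show τ (0, t, 0, 0) = (0, k 8 * t, 0, 0) by simp [τ, scale4], famQ_eight]
    exact R_move ρ P hg (He_mul_Xe x y (by norm_num)) t
  · intro t
    rw [famQ_nine, show τ (0, 0, t, 0) = (0, 0, k 9 * t, 0) by simp [τ, scale4], famQ_nine]
    exact R_move ρ P hg (He_mul_Xe x y (by norm_num)) t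
  · intro t
    rw [famQ_ten, show τ (0, 0, 0, t) = (0, 0, 0, k 10 * t) by simp [τ, scale4], famQ_ten]
    exact R_move ρ P hg (He_mul_Xe x y (by norm_num)) t
  · rw [PQ_dot hP, PQ_dot hP]
    congr 1
    simp only [Equiv.ofBijective_apply, τ, scale4, AddMonoidHom.coe_mk, ZeroHom.coe_mk, hk]
    ring

/-- The reflection at `a`. -/
theorem dQ_weyl : ∃ e : F × F × F × F, e.1 ≠ 0 ∧ e.2.1 ≠ 0 ∧ e.2.2.1 ≠ 0 ∧ e.2.2.2 ≠ 0 ∧ ∀ c : F × F × F × F,
    dQ ρ P (e.1 * c.2.2.2, e.2.1 * c.2.2.1, e.2.2.1 * c.2.1, e.2.2.2 * c.1) = dQ ρ P c := by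
  obtain ⟨e6, n6, h6⟩ := Ne_mul_Xe (F := F) (i := 0) (r := 6) (by norm_num) (by norm_num)
  obtain ⟨e8, n8, h8⟩ := Ne_mul_Xe (F := F) (i := 0) (r := 8) (by norm_num) (by norm_num)
  obtain ⟨e9, n9, h9⟩ := Ne_mul_Xe (F := F) (i := 0) (r := 9) (by norm_num) (by norm_num)
  obtain ⟨e10, n10, h10⟩ := Ne_mul_Xe (F := F) (i := 0) (r := 10) (by norm_num) (by norm_num)
  have hg := Ne_commute_Pr11 ρ P 0 rfl
  let τ : F × F × F × F →+ F × F × F × F :=
    { toFun := fun a => (e10 * a.2.2.2, e9 * a.2.2.1, e8 * a.2.1, e6 * a.1)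
      map_zero' := by simp
      map_add' := fun a b => by simp [mul_add] }
  have hb : Function.Bijective τ :=
    Finite.injective_iff_bijective.1 fun a b e => by
      simp only [τ, AddMonoidHom.coe_mk, ZeroHom.coe_mk, Prod.mk.injEq] at e
      exact Prod.ext (mul_left_cancel₀ n6 e.2.2.2) (Prod.ext (mul_left_cancel₀ n8 e.2.2.1)
        (Prod.ext (mul_left_cancel₀ n9 e.2.1) (mul_left_cancel₀ n10 e.1)))
  refine ⟨(e10⁻¹, e9⁻¹, e8⁻¹, e6⁻¹), inv_ne_zero n10, inv_ne_zero n9, inv_ne_zero n8, inv_ne_zero n6, fun c => ?_⟩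
  refine (famQ ρ P).dim_move (PQ P) (map_inv_mul ρ (Ne 0)) (Equiv.ofBijective τ hb) (famQ_move ρ P τ ?_ ?_ ?_ ?_)
    fun a => ?_
  · intro t
    rw [famQ_six, show τ (t, 0, 0, 0) = (0, 0, 0, e6 * t) by simp [τ], famQ_ten]
    exact R_move ρ P hg h6 t
  · intro t
    rw [famQ_eight, show τ (0, t, 0, 0) = (0, 0, e8 * t, 0) by simp [τ], famQ_nine]
    exact R_move ρ P hg h8 t
  · intro t
    rw [famQ_nine, show τ (0, 0, t, 0) = (0, e9 * t, 0, 0) by simp [τ], famQ_eight]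
    exact R_move ρ P hg h9 t
  · intro t
    rw [famQ_ten, show τ (0, 0, 0, t) = (e10 * t, 0, 0, 0) by simp [τ], famQ_six]
    exact R_move ρ P hg h10 t
  · rw [PQ_dot hP, PQ_dot hP]
    congr 1
    simp only [Equiv.ofBijective_apply, τ, AddMonoidHom.coe_mk, ZeroHom.coe_mk]
    field_simp
    ring

/-- The action of `x₇(v)` on the radical. -/
def shearMap (v : F) : F × F × F × F →+ F × F × F × F where
  toFun a := (a.1, a.2.1 - v * a.1, a.2.2.1 + v ^ 2 * a.1 - 2 * v * a.2.1,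
    a.2.2.2 + v ^ 3 * a.1 - 3 * v ^ 2 * a.2.1 + 3 * v * a.2.2.1)
  map_zero' := by simp
  map_add' a b := by
    simp only [Prod.fst_add, Prod.snd_add, Prod.mk_add_mk, Prod.mk.injEq]
    exact ⟨trivial, by ring, by ring, by ring⟩

omit hP [FiniteDimensional ℂ V] in
theorem shearMap_bijective (v : F) : Function.Bijective (shearMap v) := by
  refine Finite.injective_iff_bijective.1 fun a b e => ?_
  simp only [shearMap, AddMonoidHom.coe_mk, ZeroHom.coe_mk, Prod.mk.injEq] at e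
  obtain ⟨h1, h2, h3, h4⟩ := e
  rw [h1] at h2 h3 h4
  have h2' := sub_left_inj.1 h2
  rw [h2'] at h3 h4
  have h3' : a.2.2.1 = b.2.2.1 := by linear_combination h3
  rw [h3'] at h4
  exact Prod.ext h1 (Prod.ext h2' (Prod.ext h3' (by linear_combination h4)))

omit hP [FiniteDimensional ℂ V] in
theorem shear_move (v : F) (a : F × F × F × F) :
    ρ (Xe 7 v) * (famQ ρ P).π a = (famQ ρ P).π (shearMap v a) * ρ (Xe 7 v) := by
  have hg : Commute (ρ (Xe 7 v)) (Pr ρ P 11) := R_commute_Pr ρ P (Or.inl (by simp [commPairs])) v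
  have absorb : ∀ (g : ↥(chevG2.group F)) (t : F), ρ (g * Xe 11 t) * Pr ρ P 11 = ρ g * Pr ρ P 11 := fun g t => by
    rw [map_mul, mul_assoc]
    exact congrArg (ρ g * ·) (R_mul_Pr ρ P 11 t)
  refine famQ_move ρ P (shearMap v) ?_ ?_ ?_ ?_ a
  · intro t
    rw [famQ_six, show shearMap v (t, 0, 0, 0) = (t, -(v * t), v ^ 2 * t, v ^ 3 * t) by simp [shearMap], famQ_apply]
    simp only [R]
    rw [← mul_assoc, ← map_mul, conj_seven_six, map_mul, mul_assoc, hg.eq, ← mul_assoc, absorb]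
    simp only [map_mul]
  · intro t
    rw [famQ_eight, show shearMap v (0, t, 0, 0) = (0, t, -(2 * v * t), -(3 * v ^ 2 * t)) by simp [shearMap], famQ_apply]
    simp only [R, Xe_zero, map_one, one_mul]
    rw [← mul_assoc, ← map_mul, conj_seven_eight, map_mul, mul_assoc, hg.eq, ← mul_assoc, absorb]
    simp only [map_mul]
  · intro t
    rw [famQ_nine, show shearMap v (0, 0, t, 0) = (0, 0, t, 3 * v * t) by simp [shearMap], famQ_apply]
    simp only [R, Xe_zero, map_one, one_mul]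
    rw [← mul_assoc, ← map_mul, conj_seven_nine, map_mul, mul_assoc, hg.eq, ← mul_assoc]
    simp only [map_mul]
  · intro t
    rw [famQ_ten, show shearMap v (0, 0, 0, t) = (0, 0, 0, t) by simp [shearMap], famQ_ten]
    have h := R_commute ρ (r := 7) (s := 10) (Or.inl (by simp [commPairs])) v t
    rw [← mul_assoc, show ρ (Xe 7 v) * R ρ 10 t = R ρ 10 t * ρ (Xe 7 v) from h.eq, mul_assoc, hg.eq, ← mul_assoc]

/-- The unipotent element `x₇(v)`. -/
theorem dQ_shear (v : F) (c : F × F × F × F) :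
    dQ ρ P (c.1 - v * c.2.1 + v ^ 2 * c.2.2.1 + v ^ 3 * c.2.2.2, c.2.1 - 2 * v * c.2.2.1 - 3 * v ^ 2 * c.2.2.2,
      c.2.2.1 + 3 * v * c.2.2.2, c.2.2.2) = dQ ρ P c := by
  refine ((famQ ρ P).dim_move (PQ P) (map_inv_mul ρ (Xe 7 v)) (Equiv.ofBijective _ (shearMap_bijective v))
    (shear_move ρ v) (c' := c) fun a => ?_).symm
  rw [PQ_dot hP, PQ_dot hP]
  congr 1
  simp only [Equiv.ofBijective_apply, shearMap, AddMonoidHom.coe_mk, ZeroHom.coe_mk]
  ring

end Cfsg.Agent.H75.G2Deg
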