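import Cfsg.Agent.H75.G2Deg.Moves

/-!
# Characteristic other than three: the two multiplicities
-/

set_option autoImplicit false
set_option maxRecDepth 10000

namespace Cfsg.Agent.H75.G2Deg

open Cfsg.Lie Module

variable {F : Type*} [Field F] [Fintype F] [DecidableEq F] {V : Type*} [AddCommGroup V] [Module ℂ V]
  (ρ : ↥(chevG2.group F) →* End ℂ V)

/-- The abelian group of the roots `6, 8, 11`. -/
noncomputable def famA : Fam (F × F × F) V where
  π a := R ρ 6 a.1 * R ρ 8 a.2.1 * R ρ 11 a.2.2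
  add a b := by
    have c : ∀ r s, (r, s) ∈ commPairs ∨ (s, r) ∈ commPairs ∨ r = s → ∀ t u : F, Commute (R ρ r t) (R ρ s u) :=
      fun r s h => R_commute ρ h
    simp only [Prod.fst_add, Prod.snd_add, R_add]
    rw [(c 6 8 (by simp [commPairs]) b.1 a.2.1).mul_mul_mul_comm]
    exact (((c 11 6 (by simp [commPairs]) a.2.2 b.1).mul_right (c 11 8 (by simp [commPairs]) a.2.2 b.2.1))).symm.mul_mul_mul_comm _ _

variable {P : Pairing F} (hP : ∀ a b c : F, P.e (a * b) c = P.e a (b * c))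

variable (P) in
/-- The pairing of the three roots. -/
noncomputable def PA : Pairing (F × F × F) := P.prod (P.prod P)

variable (P) in
/-- A multiplicity on the three roots. -/
noncomputable def dA (c : F × F × F) : ℕ := (famA ρ).dim (PA P) c

include hP in
omit [DecidableEq F] in
theorem PA_dot (c a : F × F × F) : (PA P).e c a = P.e 1 (c.1 * a.1 + (c.2.1 * a.2.1 + c.2.2 * a.2.2)) := by
  rw [AddChar.map_add_eq_mul, AddChar.map_add_eq_mul, ← e_eq_one_mul hP, ← e_eq_one_mul hP, ← e_eq_one_mul hP]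
  rfl

theorem famA_zero : (famA ρ).π 0 = 1 := by simp [famA, R_zero]

theorem Pr11_sum : Pr ρ P 11 = ∑ c ∈ Finset.univ.filter (fun c : F × F × F => c.2.2 = 0), (famA ρ).proj (PA P) c := by
  refine (famA ρ).proj_restrict (PA P) P (fam1 ρ 11) (fun z => (0, 0, z)) (fun c => c.2.2) (fun z => ?_) (fun c b => ?_) 0
  · simp [famA, fam1, R_zero]
  · simp [PA, AddChar.map_zero_eq_one]

theorem Pr6_sum : Pr ρ P 6 = ∑ c ∈ Finset.univ.filter (fun c : F × F × F => c.1 = 0), (famA ρ).proj (PA P) c := by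
  refine (famA ρ).proj_restrict (PA P) P (fam1 ρ 6) (fun z => (z, 0, 0)) (fun c => c.1) (fun z => ?_) (fun c b => ?_) 0
  · simp [famA, fam1, R_zero]
  · simp [PA, AddChar.map_zero_eq_one]

variable [FiniteDimensional ℂ V]

include hP

theorem dA_const (h3 : (3 : F) ≠ 0) (η θ : F) {χ : F} (hχ : χ ≠ 0) : dA ρ P (η, θ, χ) = dA ρ P (0, 0, 1) := by
  have shift10 : ∀ η θ χ u : F, dA ρ P (η, θ, χ) = dA ρ P (η - χ * u, θ, χ) := by
    intro η θ χ u
    let τ : F × F × F ≃ F × F × F :=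
      { toFun := fun a => (a.1, a.2.1, a.2.2 + -(a.1 * u))
        invFun := fun a => (a.1, a.2.1, a.2.2 + a.1 * u)
        left_inv := fun a => by simp
        right_inv := fun a => by simp }
    refine (famA ρ).dim_move (PA P) (map_inv_mul ρ (Xe 10 u)) τ (fun a => ?_) fun a => ?_
    · have c8 := R_commute ρ (r := 10) (s := 8) (by simp [commPairs]) u a.2.1
      have c11 := R_commute ρ (r := 10) (s := 11) (by simp [commPairs]) u a.2.2
      have c11' : ∀ t : F, Commute (R ρ 11 t) (R ρ 8 a.2.1) := fun t => R_commute ρ (by simp [commPairs]) t _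
      show R ρ 10 u * (R ρ 6 a.1 * R ρ 8 a.2.1 * R ρ 11 a.2.2) = R ρ 6 a.1 * R ρ 8 a.2.1 * R ρ 11 _ * R ρ 10 u
      have c11'' := R_commute ρ (r := 10) (s := 11) (by simp [commPairs]) u (a.2.2 + -(a.1 * u))
      have e : R ρ 10 u * R ρ 6 a.1 = R ρ 6 a.1 * R ρ 10 u * R ρ 11 (-(a.1 * u)) := by
        simp only [R, ← map_mul, comm10_6]
      calc R ρ 10 u * (R ρ 6 a.1 * R ρ 8 a.2.1 * R ρ 11 a.2.2)
          = R ρ 6 a.1 * R ρ 10 u * (R ρ 11 (-(a.1 * u)) * R ρ 8 a.2.1) * R ρ 11 a.2.2 := by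
            rw [← mul_assoc, ← mul_assoc, e]; simp only [mul_assoc]
        _ = R ρ 6 a.1 * (R ρ 10 u * R ρ 8 a.2.1) * (R ρ 11 (-(a.1 * u)) * R ρ 11 a.2.2) := by
            rw [(c11' _).eq]; simp only [mul_assoc]
        _ = R ρ 6 a.1 * R ρ 8 a.2.1 * (R ρ 10 u * R ρ 11 (a.2.2 + -(a.1 * u))) := by
            rw [c8.eq, ← R_add, add_comm (-(a.1 * u))]; simp only [mul_assoc]
        _ = _ := by rw [c11''.eq]; simp only [mul_assoc]; rfl
    · rw [PA_dot hP, PA_dot hP]
      congr 1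
      simp only [τ, Equiv.coe_fn_mk]
      ring
  have shift9 : ∀ η θ χ u : F, dA ρ P (η, θ, χ) = dA ρ P (η, θ - χ * (3 * u), χ) := by
    intro η θ χ u
    let τ : F × F × F ≃ F × F × F :=
      { toFun := fun a => (a.1, a.2.1, a.2.2 + -(3 * a.2.1 * u))
        invFun := fun a => (a.1, a.2.1, a.2.2 + 3 * a.2.1 * u)
        left_inv := fun a => by simp
        right_inv := fun a => by simp }
    refine (famA ρ).dim_move (PA P) (map_inv_mul ρ (Xe 9 u)) τ (fun a => ?_) fun a => ?_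
    · have c6 := R_commute ρ (r := 9) (s := 6) (by simp [commPairs]) u a.1
      show R ρ 9 u * (R ρ 6 a.1 * R ρ 8 a.2.1 * R ρ 11 a.2.2) = R ρ 6 a.1 * R ρ 8 a.2.1 * R ρ 11 _ * R ρ 9 u
      have c11'' := R_commute ρ (r := 9) (s := 11) (by simp [commPairs]) u (a.2.2 + -(3 * a.2.1 * u))
      have e : R ρ 9 u * R ρ 8 a.2.1 = R ρ 8 a.2.1 * R ρ 9 u * R ρ 11 (-(3 * a.2.1 * u)) := by
        simp only [R, ← map_mul, comm9_8]
      calc R ρ 9 u * (R ρ 6 a.1 * R ρ 8 a.2.1 * R ρ 11 a.2.2)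
          = R ρ 6 a.1 * (R ρ 9 u * R ρ 8 a.2.1) * R ρ 11 a.2.2 := by
            rw [← mul_assoc, ← mul_assoc, c6.eq]; simp only [mul_assoc]
        _ = R ρ 6 a.1 * R ρ 8 a.2.1 * (R ρ 9 u * R ρ 11 (a.2.2 + -(3 * a.2.1 * u))) := by
            rw [e, add_comm a.2.2, R_add]; simp only [mul_assoc]
        _ = _ := by rw [c11''.eq]; simp only [τ, Equiv.coe_fn_mk, mul_assoc]
    · rw [PA_dot hP, PA_dot hP]
      congr 1
      simp only [τ, Equiv.coe_fn_mk]
      ring
  have tor : ∀ c : F × F × F, ∀ y : Fˣ,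
      dA ρ P (c.1 * (y : F) ^ eb 6, c.2.1 * (y : F) ^ eb 8, c.2.2 * (y : F) ^ eb 11) = dA ρ P c := by
    intro c y
    have hy : ∀ n : ℤ, (y : F) ^ n ≠ 0 := fun n => zpow_ne_zero _ y.ne_zero
    let τ : F × F × F ≃ F × F × F :=
      (Equiv.mulLeft₀ _ (hy (eb 6))).prodCongr ((Equiv.mulLeft₀ _ (hy (eb 8))).prodCongr (Equiv.mulLeft₀ _ (hy (eb 11))))
    refine ((famA ρ).dim_move (PA P) (map_inv_mul ρ (He 1 y)) τ (fun a => ?_) (c' := c) fun a => ?_).symm
    · have k : ∀ r < 12, ∀ t : F, ρ (He 1 y) * R ρ r t = R ρ r ((y : F) ^ eb r * t) * ρ (He 1 y) := fun r hr t => by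
        simp only [R, ← map_mul, He_mul_Xe 1 y hr, Units.val_one, one_zpow, one_mul]
      show ρ (He 1 y) * (R ρ 6 a.1 * R ρ 8 a.2.1 * R ρ 11 a.2.2) = _
      rw [← mul_assoc, ← mul_assoc, k 6 (by norm_num), mul_assoc _ (ρ (He 1 y)), k 8 (by norm_num), ← mul_assoc,
        mul_assoc _ (ρ (He 1 y)), k 11 (by norm_num), ← mul_assoc]
      rfl
    · rw [PA_dot hP, PA_dot hP]
      congr 1
      simp only [τ, Equiv.prodCongr_apply, Prod.map, Equiv.mulLeft₀, Units.mulLeft_apply, Units.val_mk0]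
      ring
  rw [shift10 η θ χ (η / χ), mul_div_cancel₀ _ hχ, sub_self, shift9 0 θ χ (θ / (3 * χ)),
    show θ - χ * (3 * (θ / (3 * χ))) = 0 by field_simp; ring, ← tor (0, 0, 1) (Units.mk0 χ hχ)]
  simp [eb]

/-- The two counting identities. -/
theorem counts (h3 : (3 : F) ≠ 0) :
    rk (1 - Pr ρ P 11) = Fintype.card F ^ 2 * (Fintype.card F - 1) * dA ρ P (0, 0, 1) ∧
      ∑ c ∈ Finset.univ.filter (fun c : F × F × F × F => c.2.2.2 ≠ 0), dQ ρ P c =
        Fintype.card F * (Fintype.card F - 1) * dA ρ P (0, 0, 1) := by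
  have h1 : (1 : End ℂ V) = ∑ c, (famA ρ).proj (PA P) c := by rw [Fam.sum_proj, famA_zero]
  have cU : ((Finset.univ : Finset F).filter (fun x => ¬ x = 0)).card = Fintype.card F - 1 := by
    rw [Finset.filter_ne', Finset.card_erase_of_mem (Finset.mem_univ _), Finset.card_univ]
  constructor
  · have e : 1 - Pr ρ P 11 = ∑ c ∈ Finset.univ.filter (fun c : F × F × F => ¬ c.2.2 = 0), (famA ρ).proj (PA P) c := by
      rw [sub_eq_iff_eq_add', Pr11_sum, h1, Finset.sum_filter_add_sum_filter_not]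
    rw [e, Fam.rk_sum, Finset.sum_congr rfl fun c hc => show (famA ρ).dim (PA P) c = dA ρ P (0, 0, 1) from
      dA_const ρ hP h3 c.1 c.2.1 (Finset.mem_filter.1 hc).2, Finset.sum_const, smul_eq_mul]
    congr 1
    rw [show Finset.univ.filter (fun c : F × F × F => ¬ c.2.2 = 0) =
      Finset.univ ×ˢ (Finset.univ ×ˢ (Finset.univ.filter fun x : F => ¬ x = 0)) by ext ⟨a, b, c⟩; simp,
      Finset.card_product, Finset.card_product, Finset.card_univ, cU]
    ring
  · have e6 : Pr ρ P 6 - Pr ρ P 6 * Pr ρ P 11 =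
        ∑ c ∈ (Finset.univ.filter (fun c : F × F × F => c.1 = 0)).filter (fun c => ¬ c.2.2 = 0),
          (famA ρ).proj (PA P) c := by
      rw [Pr6_sum, Pr11_sum, Fam.sum_mul_sum_proj, sub_eq_iff_eq_add', ← Finset.filter_and,
        Finset.filter_filter, ← Finset.sum_filter_add_sum_filter_not (Finset.univ.filter (fun c : F × F × F => c.1 = 0))
          (fun c => c.2.2 = 0), Finset.filter_filter, Finset.filter_filter]
    rw [sum_dQ_ten, e6, Fam.rk_sum, Finset.sum_congr rfl fun c hc => show (famA ρ).dim (PA P) c = dA ρ P (0, 0, 1) from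
      dA_const ρ hP h3 c.1 c.2.1 (Finset.mem_filter.1 hc).2, Finset.sum_const, smul_eq_mul]
    congr 1
    rw [show (Finset.univ.filter (fun c : F × F × F => c.1 = 0)).filter (fun c => ¬ c.2.2 = 0) =
      {(0 : F)} ×ˢ (Finset.univ ×ˢ (Finset.univ.filter fun x : F => ¬ x = 0)) by ext ⟨a, b, c⟩; simp [and_comm, eq_comm],
      Finset.card_product, Finset.card_product, Finset.card_univ, cU, Finset.card_singleton, one_mul]

theorem dA_ne_zero (h3 : (3 : F) ≠ 0) {t : F} (ht : R ρ 11 t ≠ 1) : dA ρ P (0, 0, 1) ≠ 0 := by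
  intro h0
  have h := (counts ρ hP h3).1
  rw [h0, mul_zero, rk_eq_zero, sub_eq_zero] at h
  exact ht (by rw [← mul_one (R ρ 11 t), h, R_mul_Pr])

/-- With multiplicity one, the characters moved by `x₁₀` form one orbit of the axis. -/
theorem axis (h3 : (3 : F) ≠ 0) (hq : 5 ≤ Fintype.card F) (hμ : dA ρ P (0, 0, 1) = 1) :
    (∀ k a b : F, k ≠ 0 → dQ ρ P (k, a, b, 0) = if a = 0 ∧ b = 0 then 1 else 0) ∧
      rk (Pr ρ P 11) = Fintype.card F ^ 2 - 1 +
        ∑ c ∈ Finset.univ.filter (fun c : F × F × F × F => c.1 = 0 ∧ c.2.2.2 = 0), dQ ρ P c := by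
  classical
  set q := Fintype.card F with hqdef
  have hsum := (counts ρ hP h3).2
  rw [hμ, mul_one, ← hqdef] at hsum
  set S3 := Finset.univ.filter (fun c : F × F × F × F => c.2.2.2 ≠ 0) with hS3
  obtain ⟨c, hc, hcd⟩ : ∃ c ∈ S3, dQ ρ P c ≠ 0 := Finset.exists_ne_zero_of_sum_ne_zero (by
    rw [hsum]; exact Nat.mul_ne_zero (by omega) (by omega))
  have hc3 : c.2.2.2 ≠ 0 := (Finset.mem_filter.1 hc).2
  -- a representative with vanishing third coordinate
  obtain ⟨p0, p1, p3, hp3, hpd⟩ : ∃ p0 p1 p3 : F, p3 ≠ 0 ∧ dQ ρ P (p0, p1, 0, p3) ≠ 0 := by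
    have h := dQ_shear ρ hP (-(c.2.2.1 / (3 * c.2.2.2))) c
    rw [show c.2.2.1 + 3 * -(c.2.2.1 / (3 * c.2.2.2)) * c.2.2.2 = 0 by field_simp; ring] at h
    exact ⟨_, _, _, hc3, h ▸ hcd⟩
  let φ : Fˣ × F → F × F × F × F := fun z =>
    (p0 * (z.1 : F) ^ (2 : ℤ) - z.2 * (p1 * (z.1 : F)) + z.2 ^ 3 * (p3 * (z.1 : F)⁻¹),
      p1 * (z.1 : F) - 3 * z.2 ^ 2 * (p3 * (z.1 : F)⁻¹), 3 * z.2 * (p3 * (z.1 : F)⁻¹), p3 * (z.1 : F)⁻¹)
  have hφd : ∀ z, dQ ρ P (φ z) = dQ ρ P (p0, p1, 0, p3) := by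
    intro z
    refine Eq.trans ?_ ((dQ_shear ρ hP z.2 _).trans (dQ_torus ρ hP 1 z.1 (p0, p1, 0, p3)))
    congr 1
    simp [φ, eb, mul_assoc]
  have hφi : Function.Injective φ := by
    intro z z' e
    simp only [φ, Prod.mk.injEq] at e
    obtain ⟨-, -, e2, e3⟩ := e
    have e1 : z.1 = z'.1 := Units.ext (inv_injective (mul_left_cancel₀ hp3 e3))
    rw [e1] at e2
    exact Prod.ext e1 (mul_left_cancel₀ h3 (mul_right_cancel₀ (mul_ne_zero hp3 (inv_ne_zero z'.1.ne_zero)) e2))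
  set Img := Finset.univ.image φ with hImg
  have hcard : Img.card = (q - 1) * q := by
    rw [hImg, Finset.card_image_of_injective _ hφi, Finset.card_univ, Fintype.card_prod, Fintype.card_units]
  have hsub : Img ⊆ S3 := by
    intro x hx
    obtain ⟨z, -, rfl⟩ := Finset.mem_image.1 hx
    exact Finset.mem_filter.2 ⟨Finset.mem_univ _, mul_ne_zero hp3 (inv_ne_zero z.1.ne_zero)⟩
  have hsplit := Finset.sum_sdiff (f := dQ ρ P) hsub
  have hI : ∑ x ∈ Img, dQ ρ P x = (q - 1) * q * dQ ρ P (p0, p1, 0, p3) := by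
    rw [Finset.sum_congr rfl fun x hx => ?_, Finset.sum_const, smul_eq_mul, hcard]
    obtain ⟨z, -, rfl⟩ := Finset.mem_image.1 hx
    exact hφd z
  rw [hI, hsum, mul_comm (q - 1) q] at hsplit
  have hd1 : dQ ρ P (p0, p1, 0, p3) = 1 := by
    by_contra hne
    have hge : q * (q - 1) * 2 ≤ q * (q - 1) * dQ ρ P (p0, p1, 0, p3) := Nat.mul_le_mul_left _ (by omega)
    have : 0 < q * (q - 1) := Nat.mul_pos (by omega) (by omega)
    omega
  rw [hd1, mul_one] at hsplit
  have hout : ∀ x ∈ S3, dQ ρ P x ≠ 0 → x ∈ Img := by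
    intro x hx hxd
    by_contra hxI
    have := Finset.single_le_sum (fun y _ => Nat.zero_le (dQ ρ P y)) (Finset.mem_sdiff.2 ⟨hx, hxI⟩)
    omega
  -- the representative lies on the axis
  obtain ⟨s, hs⟩ := IsCyclic.exists_generator (α := Fˣ)
  have hs2 : ∀ n : ℕ, 0 < n → n ≤ 3 → (s : F) ^ n ≠ 1 := by
    intro n hn hn3 e
    have h' : orderOf s ∣ n := orderOf_dvd_of_pow_eq_one (Units.ext (by simpa using e))
    rw [orderOf_eq_card_of_forall_mem_zpowers hs, Nat.card_units, Nat.card_eq_fintype_card] at h'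
    have := Nat.le_of_dvd hn h'
    omega
  have hp01 : p0 = 0 ∧ p1 = 0 := by
    have h := dQ_torus ρ hP s (s ^ 3) (p0, p1, 0, p3)
    simp only [ea, eb, List.getD_cons_succ, List.getD_cons_zero, Units.val_pow_eq_pow_val, zero_mul, zpow_neg,
      zpow_one, zpow_zero, mul_one] at h
    have hs0 : (s : F) ≠ 0 := s.ne_zero
    have e10 : p3 * ((s : F) ^ (3 : ℤ) * ((s : F) ^ 3)⁻¹) = p3 := by field_simp
    rw [e10] at h
    obtain ⟨z, -, hz⟩ := Finset.mem_image.1 (hout _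
      (Finset.mem_filter.2 ⟨Finset.mem_univ _, show p3 ≠ 0 from hp3⟩) (by rw [h, hd1]; norm_num))
    simp only [φ, Prod.mk.injEq] at hz
    obtain ⟨z0, z1, z2, z3⟩ := hz
    have hy : (z.1 : F) = 1 := by
      have := mul_left_cancel₀ hp3 (z3.trans (mul_one p3).symm)
      simpa using this
    have hv : z.2 = 0 := by
      rw [hy, inv_one, mul_one, mul_eq_zero, mul_eq_zero] at z2
      exact (z2.resolve_right hp3).resolve_left h3
    rw [hy, hv] at z0 z1
    constructor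
    · by_contra hne
      refine hs2 3 (by omega) le_rfl (mul_left_cancel₀ hne ?_)
      rw [mul_one]
      field_simp at z0
      simp at z0
      linear_combination -z0
    · by_contra hne
      refine hs2 2 (by omega) (by omega) (mul_left_cancel₀ hne ?_)
      rw [mul_one]
      field_simp at z1
      simp at z1
      linear_combination -z1
  obtain ⟨rfl, rfl⟩ := hp01
  obtain ⟨e, e0, e1, e2, e3, hw⟩ := dQ_weyl ρ hP
  have hax : ∀ k a b : F, k ≠ 0 → dQ ρ P (k, a, b, 0) = if a = 0 ∧ b = 0 then 1 else 0 := by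
    intro k a b hk
    have h := hw (0, b / e.2.2.1, a / e.2.1, k / e.1)
    simp only [mul_div_cancel₀ _ e0, mul_div_cancel₀ _ e1, mul_div_cancel₀ _ e2, mul_zero] at h
    rw [h]
    set x : F × F × F × F := (0, b / e.2.2.1, a / e.2.1, k / e.1) with hx
    have hxS : x ∈ S3 := Finset.mem_filter.2 ⟨Finset.mem_univ _, div_ne_zero hk e0⟩
    by_cases hxd : dQ ρ P x = 0
    · rw [hxd, if_neg]
      rintro ⟨rfl, rfl⟩
      have := hφd (Units.mk0 (p3 / (k / e.1)) (div_ne_zero hp3 (div_ne_zero hk e0)), 0)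
      rw [hd1] at this
      have e' : φ (Units.mk0 (p3 / (k / e.1)) (div_ne_zero hp3 (div_ne_zero hk e0)), 0) = x := by
        simp [φ, hx]
        field_simp
      rw [e', hxd] at this
      exact zero_ne_one this
    · obtain ⟨z, -, hz⟩ := Finset.mem_image.1 (hout x hxS hxd)
      rw [← hz, hφd, hd1, if_pos]
      simp only [φ, hx, Prod.mk.injEq, zero_mul, mul_zero, sub_zero, zero_sub, zero_add] at hz
      obtain ⟨z0, z1, z2, -⟩ := hz
      have hv : z.2 = 0 := by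
        rcases mul_eq_zero.1 z0 with h | h
        · exact pow_eq_zero_iff (by norm_num) |>.1 h
        · exact absurd h (mul_ne_zero hp3 (inv_ne_zero z.1.ne_zero))
      rw [hv] at z1 z2
      constructor
      · simpa [e1] using z2.symm
      · simpa [e2] using z1.symm
  refine ⟨hax, ?_⟩
  rw [← sum_dQ ρ P, ← Finset.sum_filter_add_sum_filter_not Finset.univ (fun c : F × F × F × F => c.2.2.2 ≠ 0), hsum,
    ← Finset.sum_filter_add_sum_filter_not (Finset.univ.filter fun c : F × F × F × F => ¬ c.2.2.2 ≠ 0)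
      (fun c => ¬ c.1 = 0), Finset.filter_filter, Finset.filter_filter]
  have hrest : ∑ c ∈ Finset.univ.filter (fun c : F × F × F × F => ¬ c.2.2.2 ≠ 0 ∧ ¬ c.1 = 0), dQ ρ P c = q - 1 := by
    rw [show Finset.univ.filter (fun c : F × F × F × F => ¬ c.2.2.2 ≠ 0 ∧ ¬ c.1 = 0) =
      (Finset.univ.filter fun x : F => ¬ x = 0) ×ˢ (Finset.univ ×ˢ (Finset.univ ×ˢ {(0 : F)})) by
        ext ⟨a, b, c, d⟩; simp [and_comm, eq_comm], Finset.sum_product,
      Finset.sum_congr rfl fun k hk => show (∑ y ∈ Finset.univ ×ˢ (Finset.univ ×ˢ {(0 : F)}), dQ ρ P (k, y)) = 1 from ?_]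
    · rw [Finset.sum_const, smul_eq_mul, mul_one, Finset.filter_ne', Finset.card_erase_of_mem (Finset.mem_univ _),
        Finset.card_univ]
    · rw [Finset.sum_product, Finset.sum_congr rfl fun a _ => by
        rw [Finset.sum_product, Finset.sum_congr rfl fun b _ => by
          rw [Finset.sum_singleton, hax k a b (Finset.mem_filter.1 hk).2]]]
      simp [ite_and]
  rw [hrest, ← add_assoc]
  congr 1
  · have h1 : 1 ≤ q ^ 2 := Nat.one_le_pow _ _ (by omega)
    zify [h1, (show 1 ≤ q by omega)]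
    ring
  · refine Finset.sum_congr ?_ fun _ _ => rfl
    ext x
    simp [and_comm]

end Cfsg.Agent.H75.G2Deg
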