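import Cfsg.Agent.H75.G2Deg.Axis
import Mathlib.RingTheory.RootsOfUnity.Complex

/-!
# `q ≡ 1 (mod 3)`: degree `q³ - 1` and `q³` do not occur

The element of order three centralising the long root groups has too large an eigenspace on the translates of the fixed
space of two long root groups, and too large other eigenspaces on the Heisenberg part.
-/

set_option autoImplicit false
set_option maxRecDepth 10000

namespace Cfsg.Agent.H75.G2Deg

open Cfsg.Lie Module Cfsg.Agent.H46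

section Eig

variable {V : Type*} [AddCommGroup V] [Module ℂ V]

/-- The eigenprojection of an operator of order three. -/
noncomputable def eig3 (Z : End ℂ V) (a : ℂ) : End ℂ V := (3 : ℂ)⁻¹ • ((1 : End ℂ V) + a ^ 2 • Z + a • (Z * Z))

theorem eig3_mul {Z : End ℂ V} (hZ : Z * Z * Z = 1) {a b : ℂ} (ha : a ^ 3 = 1) (_hb : b ^ 3 = 1) :
    eig3 Z a * eig3 Z b = ((1 + a ^ 2 * b + a * b ^ 2) / 3) • eig3 Z a := by
  have e1 : b ^ 2 + a ^ 2 + a * b = a ^ 2 * (1 + a ^ 2 * b + a * b ^ 2) := by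
    linear_combination (-(a * b) - b ^ 2) * ha
  have e2 : b + a ^ 2 * b ^ 2 + a = a * (1 + a ^ 2 * b + a * b ^ 2) := by
    linear_combination (-b) * ha
  have h4 : Z * Z * (Z * Z) = Z := by rw [← mul_assoc, hZ, one_mul]
  have hz : Z * (Z * Z) = 1 := by rw [← mul_assoc, hZ]
  calc eig3 Z a * eig3 Z b
      = ((3 : ℂ)⁻¹ * (3 : ℂ)⁻¹) • ((1 + a ^ 2 * b + a * b ^ 2) • (1 : End ℂ V) + (b ^ 2 + a ^ 2 + a * b) • Z +
          (b + a ^ 2 * b ^ 2 + a) • (Z * Z)) := by
        simp only [eig3, smul_mul_smul_comm]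
        congr 1
        simp only [add_mul, mul_add, one_mul, mul_one, smul_mul_assoc, mul_smul_comm, smul_smul, hz, hZ, h4]
        module
    _ = _ := by
        rw [e1, e2, eig3]
        simp only [smul_add, smul_smul]
        module

theorem Commute.eig3_right {X Z : End ℂ V} (h : Commute X Z) (a : ℂ) : Commute X (eig3 Z a) :=
  (((Commute.one_right X).add_right (h.smul_right _)).add_right ((h.mul_right h).smul_right _)).smul_right _

theorem eig3_fix {X Z : End ℂ V} {a : ℂ} (ha : a ^ 3 = 1) (h : Z * X = a • X) : eig3 Z a * X = X := by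
  rw [eig3, smul_mul_assoc, add_mul, add_mul, one_mul, smul_mul_assoc, smul_mul_assoc, h, mul_assoc, h,
    mul_smul_comm, h, smul_smul, smul_smul, smul_smul, ← pow_succ, show (2 : ℕ) + 1 = 3 from rfl, ha,
    show a * a * a = 1 by linear_combination ha]
  module

end Eig

variable {F : Type*} [Field F] [Fintype F] [DecidableEq F] {V : Type*} [AddCommGroup V] [Module ℂ V]
  [FiniteDimensional ℂ V]
  (ρ : ↥(chevG2.group F) →* End ℂ V) {P : Pairing F} (hP : ∀ a b c : F, P.e (a * b) c = P.e a (b * c))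

theorem He_commute_R (w : Fˣ) (hw : w ^ 3 = 1) {r : ℕ} (hr : r ∈ [0, 1, 5, 6, 10, 11]) (t : F) :
    Commute (R ρ r t) (ρ (He w 1)) := by
  have h3 : ∀ r ∈ [0, 1, 5, 6, 10, 11], r < 12 ∧ (3 : ℤ) ∣ ea r := by decide +kernel
  obtain ⟨hr12, k, hk⟩ := h3 r hr
  have h := He_mul_Xe w 1 hr12 t
  rw [hk, zpow_mul, show (w : F) ^ (3 : ℤ) = 1 by rw [zpow_ofNat, ← Units.val_pow_eq_pow_val, hw, Units.val_one],
    one_zpow, Units.val_one, one_zpow, one_mul, one_mul] at h
  rw [commute_iff_eq, R, ← map_mul, ← map_mul, h]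

theorem He_mul_He (w w' : Fˣ) : He w 1 * He w' 1 = He (w * w') 1 := by
  refine Subtype.ext ?_
  simp only [He, Subgroup.coe_mul, Units.val_one, goodG2.hg_one (F := F) (show (6 : ℕ) < chevG2.nroots by decide +kernel),
    mul_one, Units.val_mul]
  exact goodG2.hg_mul_hg (by decide +kernel) w.ne_zero w'.ne_zero

theorem He_one : He (1 : Fˣ) 1 = 1 := by
  refine Subtype.ext ?_
  simp only [He, Units.val_one, goodG2.hg_one (F := F) (show (6 : ℕ) < chevG2.nroots by decide +kernel),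
    goodG2.hg_one (F := F) (show (7 : ℕ) < chevG2.nroots by decide +kernel), mul_one]
  rfl

include hP

/-- The part of the Heisenberg characters moved by the element of order three. -/
theorem trace_He_mov (w : Fˣ) (hw3 : w ^ 3 = 1) (hw1 : w ≠ 1) :
    LinearMap.trace ℂ V (ρ (He w 1) * ((1 - Pr ρ P 8) * (1 - Pr ρ P 11))) = 0 := by
  classical
  have e8 : Pr ρ P 8 = ∑ c ∈ Finset.univ.filter (fun c : F × F × F => c.2.1 = 0), (famA ρ).proj (PA P) c := by
    refine (famA ρ).proj_restrict (PA P) P (fam1 ρ 8) (fun z => (0, z, 0)) (fun c => c.2.1) (fun z => ?_) (fun c b => ?_) 0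
    · simp [famA, fam1, R_zero]
    · simp [PA, AddChar.map_zero_eq_one]
  have h1 : (1 : End ℂ V) = ∑ c, (famA ρ).proj (PA P) c := by rw [Fam.sum_proj, famA_zero]
  rw [e8, Pr11_sum, h1, ← Finset.sum_filter_add_sum_filter_not Finset.univ (fun c : F × F × F => c.2.1 = 0),
    add_sub_cancel_left]
  rw [Finset.sum_filter_add_sum_filter_not Finset.univ (fun c : F × F × F => c.2.1 = 0),
    ← Finset.sum_filter_add_sum_filter_not Finset.univ (fun c : F × F × F => c.2.2 = 0), add_sub_cancel_left,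
    Fam.sum_mul_sum_proj, Finset.mul_sum, map_sum]
  refine Finset.sum_eq_zero fun c hc => ?_
  have hc2 : c.2.1 ≠ 0 := (Finset.mem_filter.1 (Finset.mem_inter.1 hc).1).2
  have hw0 : ((w : F)⁻¹) ≠ 0 := inv_ne_zero w.ne_zero
  let τ : F × F × F ≃ F × F × F :=
    (Equiv.refl F).prodCongr ((Equiv.mulLeft₀ (w : F)⁻¹ hw0).prodCongr (Equiv.refl F))
  refine Fam.trace_moved (PA P) (famA ρ) (c' := (c.1, c.2.1 * (w : F), c.2.2)) (fun e => hw1 ?_)
    ((famA ρ).move_proj (PA P) τ (fun a => ?_) fun a => ?_)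
  · have := congrArg (fun x : F × F × F => x.2.1) e
    exact Units.ext (mul_left_cancel₀ hc2 (by simpa using this.symm))
  · have k : ∀ r < 12, ∀ t : F, ρ (He w 1) * R ρ r t = R ρ r ((w : F) ^ ea r * t) * ρ (He w 1) := fun r hr t => by
      simp only [R, ← map_mul, He_mul_Xe w 1 hr, Units.val_one, one_zpow, mul_one]
    have h6 : ∀ t, ρ (He w 1) * R ρ 6 t = R ρ 6 ((w : F) ^ ea 6 * t) * ρ (He w 1) := k 6 (by norm_num)
    show ρ (He w 1) * (R ρ 6 a.1 * R ρ 8 a.2.1 * R ρ 11 a.2.2) =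
      R ρ 6 a.1 * R ρ 8 ((w : F)⁻¹ * a.2.1) * R ρ 11 a.2.2 * ρ (He w 1)
    rw [← mul_assoc, ← mul_assoc, ← (He_commute_R ρ w hw3 (by simp) a.1).eq, mul_assoc _ (ρ (He w 1)),
      k 8 (by norm_num), ← mul_assoc, mul_assoc _ (ρ (He w 1)), ← (He_commute_R ρ w hw3 (by simp) a.2.2).eq,
      ← mul_assoc]
    simp [ea]
  · rw [PA_dot hP, PA_dot hP]
    congr 1
    simp only [τ, Equiv.prodCongr_apply, Prod.map, Equiv.refl_apply, Equiv.mulLeft₀, Units.mulLeft_apply, Units.val_mk0]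
    field_simp

/-- The contradiction. -/
theorem false_of_small (h3 : (3 : F) ≠ 0) (hq : 7 ≤ Fintype.card F) (hq3 : Fintype.card F % 3 = 1)
    (hμ : dA ρ P (0, 0, 1) = 1) (hline : ∀ v : V, (∀ g, ∃ c : ℂ, ρ g v = c • v) → v = 0)
    (he : ∑ c ∈ Finset.univ.filter (fun c : F × F × F × F => c.1 = 0 ∧ c.2.2.2 = 0), dQ ρ P c ≤ 1) : False := by
  classical
  set q := Fintype.card F with hqdef
  obtain ⟨hax, hF⟩ := axis ρ hP h3 (by omega) hμ
  obtain ⟨hd1, hd0, hz⟩ := EL_dims ρ P hP hax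
  obtain ⟨hdim, -⟩ := counts ρ hP h3
  rw [hμ, mul_one] at hdim
  have hN3 : finrank ℂ V = q ^ 3 - 1 + rk (pe ρ P 0) := by
    rw [rk_split ρ P, hdim, hF, ← hd0, ← hqdef]
    have h1 : 1 ≤ q ^ 2 := Nat.one_le_pow _ _ (by omega)
    have h2 : 1 ≤ q ^ 3 := Nat.one_le_pow _ _ (by omega)
    zify [h1, h2, (show 1 ≤ q by omega)]
    ring
  have h0 : rk (pe ρ P 0) ≤ 1 := hd0 ▸ he
  -- the only character of the middle part is the trivial one
  obtain ⟨σ, hσ⟩ := IsCyclic.exists_generator (α := Fˣ)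
  have hσo : orderOf σ = q - 1 := by
    rw [orderOf_eq_card_of_forall_mem_zpowers hσ, Nat.card_units, Nat.card_eq_fintype_card]
  have hQ : pe ρ P 0 = (famQ ρ P).proj (PQ P) 0 := by
    rw [hz, Finset.sum_eq_single (0 : F × F × F × F)]
    · rintro ⟨c0, c1, c2, c3⟩ hc hne
      obtain ⟨rfl, rfl⟩ := (Finset.mem_filter.1 hc).2
      rw [← Fam.dim_eq_zero]
      by_contra hd
      have ht := dQ_torus ρ hP σ 1 (0, c1, c2, 0)
      simp only [ea, eb, List.getD_cons_succ, List.getD_cons_zero, Units.val_one, one_zpow, mul_one, zero_mul,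
        zpow_neg, zpow_one] at ht
      have hne' : ((0 : F), c1 * (σ : F)⁻¹, c2 * (σ : F), (0 : F)) ≠ (0, c1, c2, 0) := by
        intro e
        have hσ1 : σ ≠ 1 := fun h => by rw [h, orderOf_one] at hσo; omega
        simp only [Prod.mk.injEq] at e
        obtain ⟨-, e1, e2, -⟩ := e
        apply hne
        have a : c1 = 0 := by
          by_contra hh
          exact hσ1 (Units.ext (inv_eq_one.1 (mul_left_cancel₀ hh (e1.trans (mul_one c1).symm))))
        have b : c2 = 0 := by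
          by_contra hh
          exact hσ1 (Units.ext (mul_left_cancel₀ hh (e2.trans (mul_one c2).symm)))
        subst a b
        rfl
      have hd' : 1 ≤ dQ ρ P (0, c1, c2, 0) := Nat.one_le_iff_ne_zero.2 hd
      have h2 := Finset.add_le_sum (f := dQ ρ P) (fun _ _ => Nat.zero_le _)
        (Finset.mem_filter.2 ⟨Finset.mem_univ _, (rfl : (0 : F) = 0), (rfl : (0 : F) = 0)⟩ :
          (((0 : F), c1 * (σ : F)⁻¹, c2 * (σ : F), (0 : F))) ∈
            Finset.univ.filter (fun c : F × F × F × F => c.1 = 0 ∧ c.2.2.2 = 0)) hc hne'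
      omega
    · intro h
      exact absurd (Finset.mem_filter.2 ⟨Finset.mem_univ _, rfl, rfl⟩) h
  obtain ⟨hkN, hkM, hkH, hkD⟩ := key ρ P hP hd1 h0 hQ hline
  set z := pe ρ P 0 with hzdef
  set E := EL ρ P with hEdef
  set γ : ℂ := -(q : ℂ)⁻¹ with hγ
  set N := ρ (Ne 1) with hNdef
  set M := ρ (Ne 1)⁻¹ with hMdef
  have hNM : N * M = 1 := map_mul_inv ρ _
  have hMN : M * N = 1 := map_inv_mul ρ _
  have hNE : Commute N E := N_commute_EL ρ P
  have hEM : Commute M E := by
    rw [commute_iff_eq]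
    calc M * E = M * (E * N) * M := by rw [mul_assoc, mul_assoc, hNM, mul_one]
      _ = E * M := by rw [← hNE.eq, ← mul_assoc M N, hMN, one_mul]
  have hzi : z * z = z := pe_idem ρ P 0
  have hEz : E * z = z := EL_mul_pe ρ P 0
  have hzE : z * E = z := pe_mul_EL ρ P 0
  -- root group `5`
  have five : ∀ s : F, s ≠ 0 → Pr ρ P 6 * Pr ρ P 11 * R ρ 5 s * (Pr ρ P 6 * Pr ρ P 11) = γ • z := by
    intro s hs
    have c611 : Commute (Pr ρ P 6) (Pr ρ P 11) := Pr_commute ρ P (Or.inl (by simp [commPairs]))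
    set A := Pr ρ P 6 * Pr ρ P 11 with hA
    have h6 : ∀ t : F, A * R ρ 6 t = A ∧ R ρ 6 t * A = A := fun t => by
      constructor
      · rw [hA, mul_assoc, ← (R_commute_Pr ρ P (r := 6) (s := 11) (Or.inl (by simp [commPairs])) t).eq, ← mul_assoc,
          Pr_mul_R]
      · rw [hA, ← mul_assoc, R_mul_Pr]
    have hd : IsDiag (Hb (-s)) := isDiag_Hb (neg_ne_zero.2 hs)
    have hHA : Commute (ρ (Hb (-s))) A :=
      (Diag_commute_Pr ρ P hd (by norm_num)).mul_right (Diag_commute_Pr ρ P hd (by norm_num))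
    have hANA : A * N * A = γ • z := by
      calc A * N * A = Pr ρ P 6 * (Pr ρ P 11 * N) * A := by rw [hA]; simp only [mul_assoc]
        _ = Pr ρ P 6 * N * (E * Pr ρ P 6) := by
            rw [hNdef, ← (N_move ρ P).1, ← hNdef, hA, hEdef, EL, c611.eq]; simp only [mul_assoc]
        _ = Pr ρ P 6 * N * z := by rw [hEdef, EL_mul_Pr6, hzdef]
        _ = Pr ρ P 6 * E * N * z := by
            conv_lhs => rw [← hEz, ← mul_assoc, mul_assoc (Pr ρ P 6), hNE.eq, ← mul_assoc]
        _ = γ • z := by rw [hEdef, Pr6_mul_EL, ← hzdef, hkN]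
    rw [R, Xe_five hs, map_mul, map_mul, map_mul, ← hNdef]
    calc A * (R ρ 6 s⁻¹ * N * ρ (Hb (-s)) * R ρ 6 s⁻¹) * A
        = A * R ρ 6 s⁻¹ * N * (ρ (Hb (-s)) * (R ρ 6 s⁻¹ * A)) := by simp only [mul_assoc]
      _ = A * N * A * ρ (Hb (-s)) := by rw [(h6 _).1, (h6 _).2, hHA.eq]; simp only [mul_assoc]
      _ = γ • z := by
          rw [hANA, smul_mul_assoc, ← (Diag_commute_pe_zero ρ P hd).eq, ← hzdef, hkH _ (neg_ne_zero.2 hs)]
  -- root group `1`
  obtain ⟨e5, he5, hA5⟩ := Ne_mul_Xe (F := F) (i := 0) (r := 5) (by norm_num) (by norm_num)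
  rw [show refl 0 5 = 1 from rfl] at hA5
  have one : ∀ s : F, s ≠ 0 → E * R ρ 1 s * E = γ • z := by
    intro s hs
    obtain ⟨e, he, h⟩ := Ne_mul_Xe (F := F) (i := 0) (r := 6) (by norm_num) (by norm_num)
    obtain ⟨e', he', h'⟩ := Ne_mul_Xe (F := F) (i := 0) (r := 11) (by norm_num) (by norm_num)
    have m6 : ρ (Ne 0) * Pr ρ P 6 = Pr ρ P 10 * ρ (Ne 0) := move_Pr ρ P he h
    have m11 : ρ (Ne 0) * Pr ρ P 11 = Pr ρ P 11 * ρ (Ne 0) := move_Pr ρ P he' h'
    have mA : ρ (Ne 0) * (Pr ρ P 6 * Pr ρ P 11) = E * ρ (Ne 0) := by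
      rw [← mul_assoc, m6, mul_assoc, m11, ← mul_assoc, hEdef, EL]
    have mE : E = ρ (Ne 0) * (Pr ρ P 6 * Pr ρ P 11) * ρ (Ne 0)⁻¹ := by rw [mA, mul_assoc, map_mul_inv, mul_one]
    have mR : R ρ 1 s = ρ (Ne 0) * R ρ 5 (e5⁻¹ * s) * ρ (Ne 0)⁻¹ := by
      rw [R, R, ← map_mul, ← map_mul, hA5, mul_inv_cancel_right, mul_inv_cancel_left₀ he5]
    calc E * R ρ 1 s * E = ρ (Ne 0) * (Pr ρ P 6 * Pr ρ P 11 * (ρ (Ne 0)⁻¹ * ρ (Ne 0)) * R ρ 5 (e5⁻¹ * s) *
          (ρ (Ne 0)⁻¹ * ρ (Ne 0)) * (Pr ρ P 6 * Pr ρ P 11)) * ρ (Ne 0)⁻¹ := by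
          rw [mR, mE]; simp only [mul_assoc]
      _ = γ • (ρ (Ne 0) * z * ρ (Ne 0)⁻¹) := by
          rw [map_inv_mul, mul_one, mul_one, five _ (mul_ne_zero (inv_ne_zero he5) hs), mul_smul_comm, smul_mul_assoc]
      _ = γ • z := by rw [(A_commute_pe_zero ρ P).eq, mul_assoc, map_mul_inv, mul_one]
  -- root group `0`
  set B := N * z * M with hB
  obtain ⟨e1, he1, hN1⟩ := Ne_mul_Xe (F := F) (i := 1) (r := 1) (by norm_num) (by norm_num)
  rw [show refl 1 1 = 0 from rfl] at hN1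
  have zero : ∀ t : F, t ≠ 0 → E * R ρ 0 t * E = γ • B := by
    intro t ht
    have mR : R ρ 0 t = N * R ρ 1 (e1⁻¹ * t) * M := by
      rw [hNdef, hMdef, R, R, ← map_mul, ← map_mul, hN1, mul_inv_cancel_right, mul_inv_cancel_left₀ he1]
    calc E * R ρ 0 t * E = (E * N) * R ρ 1 (e1⁻¹ * t) * (M * E) := by rw [mR]; simp only [mul_assoc]
      _ = N * (E * R ρ 1 (e1⁻¹ * t) * E) * M := by rw [← hNE.eq, hEM.eq]; simp only [mul_assoc]
      _ = γ • B := by rw [one _ (mul_ne_zero (inv_ne_zero he1) ht), mul_smul_comm, smul_mul_assoc, hB]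
  have hBE : E * B = B := by rw [hB, ← mul_assoc, ← mul_assoc, ← hNE.eq, mul_assoc N E, hEz]
  have hEB : B * E = B := by rw [hB, mul_assoc, hEM.eq, ← mul_assoc, mul_assoc N z E, hzE]
  have hsw : ∀ a X, pe ρ P a * X * pe ρ P a = LinearMap.trace ℂ V (pe ρ P a * X) • pe ρ P a := fun a X =>
    exists_sandwich (pe_idem ρ P a) (by
      by_cases ha : a = 0
      · subst ha; exact h0
      · exact (hd1 a ha).le) X
  set β : F → ℂ := fun a => LinearMap.trace ℂ V (pe ρ P a * B) with hβ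
  have hβ0 : β 0 = γ * γ * (rk z : ℂ) := by
    rw [hβ]; simp only
    rw [← hzdef]
    conv_lhs => rw [← hzi, mul_assoc, LinearMap.trace_mul_comm, hB]
    rw [show z * (N * z * M) * z = (z * N * z) * (M * z) by simp only [mul_assoc], hkN, smul_mul_assoc, ← mul_assoc,
      hkM, smul_smul, map_smul, trace_idem hzi, smul_eq_mul]
  have hβc : ∀ a, a ≠ 0 → β a = β 1 := by
    intro a ha
    set y : Fˣ := Units.mk0 a ha with hy
    set g := He y y with hg
    have m := He_move_pe ρ P hP y a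
    rw [hy, Units.val_mk0, mul_inv_cancel₀ ha, ← hy, ← hg] at m
    set g' := ρ ((Ne 1)⁻¹ * g * Ne 1) with hg'
    have c1 : ρ g * N = N * g' := by rw [hg', hNdef, ← map_mul, ← map_mul]; group
    have c2 : Commute g' z := Diag_commute_pe_zero ρ P ((isDiag_He y y).conj (by norm_num))
    have c3 : g' * M = M * ρ g := by rw [hg', hMdef, ← map_mul, ← map_mul]; group
    have cB : ρ g * B = B * ρ g := by
      rw [hB, ← mul_assoc, ← mul_assoc, c1, mul_assoc N g', c2.eq, ← mul_assoc, mul_assoc _ g', c3, ← mul_assoc]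
    rw [hβ]; simp only
    have e : pe ρ P a * B = ρ g * (pe ρ P 1 * B) * ρ g⁻¹ := by
      calc pe ρ P a * B = pe ρ P a * (B * (ρ g * ρ g⁻¹)) := by rw [map_mul_inv, mul_one]
        _ = pe ρ P a * (B * ρ g) * ρ g⁻¹ := by simp only [mul_assoc]
        _ = (pe ρ P a * ρ g) * B * ρ g⁻¹ := by rw [← cB]; simp only [mul_assoc]
        _ = ρ g * (pe ρ P 1 * B) * ρ g⁻¹ := by rw [← m]; simp only [mul_assoc]
    rw [e, LinearMap.trace_mul_comm, ← mul_assoc, map_inv_mul, one_mul]
  have hβsum : ∑ a, β a = (rk z : ℂ) := by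
    rw [hβ]; simp only
    rw [← map_sum, ← Finset.sum_mul, sum_pe, ← hEdef, hBE, hB, LinearMap.trace_mul_comm, ← mul_assoc, hMN, one_mul,
      trace_idem hzi]
  -- the compressed Fourier sum
  have hq0 : (q : ℂ) ≠ 0 := Nat.cast_ne_zero.2 Fintype.card_ne_zero
  set Mop : End ℂ V := ∑ p : F × F, P.e 1 p.1 • (E * (R ρ 0 p.1 * R ρ 1 p.2) * E) with hMop
  set D := ∑ a, pe ρ P a * B * pe ρ P a with hD
  have hS : ∑ u : F, R ρ 6 u * B * R ρ 6 (-u) = (q : ℂ) • D := by
    have e : ∀ u, R ρ 6 u * B * R ρ 6 (-u) = ∑ a, ∑ b, P.e (a - b) u • (pe ρ P a * B * pe ρ P b) := by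
      intro u
      have x1 : R ρ 6 u * E = ∑ a, P.e a u • pe ρ P a := (famE ρ P).expand P u
      have x2 : E * R ρ 6 (-u) = ∑ b, P.e b (-u) • pe ρ P b := by
        rw [← (R6_commute_EL ρ P (-u)).eq]; exact (famE ρ P).expand P (-u)
      calc R ρ 6 u * B * R ρ 6 (-u) = (R ρ 6 u * E) * B * (E * R ρ 6 (-u)) := by
            conv_lhs => rw [← hBE, ← hEB]
            simp only [mul_assoc]
        _ = _ := by
            rw [x1, x2, Finset.sum_mul, Finset.sum_mul]
            refine Finset.sum_congr rfl fun a _ => ?_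
            rw [Finset.mul_sum]
            refine Finset.sum_congr rfl fun b _ => ?_
            rw [smul_mul_assoc, mul_smul_comm, smul_mul_assoc, smul_smul]
            congr 1
            rw [sub_eq_add_neg, Pairing.add_apply, P.symm (-b) u, AddChar.map_neg_eq_inv, AddChar.map_neg_eq_inv,
              P.symm u b]
            ring
    rw [Finset.sum_congr rfl fun u _ => e u, Finset.sum_comm, hD, Finset.smul_sum]
    refine Finset.sum_congr rfl fun a _ => ?_
    rw [Finset.sum_comm]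
    simp only [← Finset.sum_smul, Pairing.sum_e, sub_eq_zero, ite_smul, zero_smul, Finset.sum_ite_eq, Finset.mem_univ,
      if_true, ← hqdef]
  have hMval : Mop = E + ((q - 1 : ℂ) * γ) • z + D := by
    rw [hMop, Fintype.sum_prod_type, ← Finset.add_sum_erase _ _ (Finset.mem_univ (0 : F))]
    congr 1
    · simp only [AddChar.map_zero_eq_one, one_smul, R_zero, one_mul]
      rw [← Finset.add_sum_erase _ _ (Finset.mem_univ (0 : F)), R_zero, mul_one, EL_idem,
        Finset.sum_congr rfl fun s hs => one s (Finset.ne_of_mem_erase hs), Finset.sum_const,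
        Finset.card_erase_of_mem (Finset.mem_univ _), Finset.card_univ, ← Nat.cast_smul_eq_nsmul ℂ, smul_smul,
        ← hqdef, Nat.cast_sub (by omega : 1 ≤ q), Nat.cast_one]
    · have e : ∀ t ∈ Finset.univ.erase (0 : F), ∑ s : F, P.e 1 t • (E * (R ρ 0 t * R ρ 1 s) * E) =
          (P.e 1 t * γ * q) • D := by
        intro t ht
        have ht0 : t ≠ 0 := Finset.ne_of_mem_erase ht
        rw [← Finset.smul_sum, mul_assoc (P.e 1 t), ← smul_smul, ← smul_smul γ, ← hS, Finset.smul_sum (r := γ)]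
        congr 1
        refine (Fintype.sum_equiv (Equiv.mulLeft₀ (-t) (neg_ne_zero.2 ht0)) _ _ fun u => ?_).symm
        have hl : R ρ 0 t * R ρ 1 (-t * u) = R ρ 6 u * R ρ 0 t * R ρ 6 (-u) := by
          simp only [R, ← map_mul, conj_low, neg_mul]
        show γ • (R ρ 6 u * B * R ρ 6 (-u)) = E * (R ρ 0 t * R ρ 1 (-t * u)) * E
        rw [hl]
        calc γ • (R ρ 6 u * B * R ρ 6 (-u)) = R ρ 6 u * (E * R ρ 0 t * E) * R ρ 6 (-u) := by
              rw [zero t ht0, mul_smul_comm, smul_mul_assoc]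
          _ = (E * R ρ 6 u) * R ρ 0 t * (R ρ 6 (-u) * E) := by
              rw [← (R6_commute_EL ρ P u).eq, (R6_commute_EL ρ P (-u)).eq]; simp only [hEdef, mul_assoc]
          _ = _ := by simp only [mul_assoc]
      rw [Finset.sum_congr rfl e, ← Finset.sum_smul, ← Finset.sum_mul, ← Finset.sum_mul]
      have h' := P.sum_e (1 : F)
      rw [if_neg one_ne_zero, ← Finset.add_sum_erase _ _ (Finset.mem_univ (0 : F)), AddChar.map_zero_eq_one] at h'
      rw [show ∑ t ∈ Finset.univ.erase (0 : F), P.e 1 t = -1 by linear_combination h', hγ]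
      field_simp
      rw [one_smul]
  have hcoef : ∀ a, pe ρ P a * Mop = ((1 : ℂ) + (if a = 0 then (q - 1 : ℂ) * γ else 0) + β a) • pe ρ P a := by
    intro a
    have orth : ∀ b, pe ρ P a * pe ρ P b = if a = b then pe ρ P b else 0 := Fam.proj_mul_proj P (famE ρ P) a
    rw [hMval, mul_add, mul_add, pe_mul_EL, mul_smul_comm, hzdef, orth, hD, Finset.mul_sum,
      Finset.sum_eq_single a (fun b _ hb => by rw [← mul_assoc, ← mul_assoc, orth, if_neg (Ne.symm hb), zero_mul,
        zero_mul]) (fun h => absurd (Finset.mem_univ a) h), ← mul_assoc, ← mul_assoc, pe_idem, hsw a B, add_smul,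
      add_smul, one_smul]
    split_ifs with h
    · subst h; rfl
    · simp [hβ]
  have hsumβ : ((q : ℂ) - 1) * β 1 = (rk z : ℂ) * (1 - γ * γ) := by
    have h := hβsum
    rw [← Finset.add_sum_erase _ _ (Finset.mem_univ (0 : F)),
      Finset.sum_congr rfl fun a ha => hβc a (Finset.ne_of_mem_erase ha), Finset.sum_const,
      Finset.card_erase_of_mem (Finset.mem_univ _), Finset.card_univ, nsmul_eq_mul, ← hqdef,
      Nat.cast_sub (by omega : 1 ≤ q), Nat.cast_one, hβ0] at h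
    linear_combination h
  have hz01 : rk z = 0 ∨ rk z = 1 := by omega
  have hinj : ∀ x : V, E x = x → Mop x = 0 → x = 0 := by
    intro x hx hMx
    rw [← hx, hEdef, ← sum_pe, LinearMap.sum_apply]
    refine Finset.sum_eq_zero fun a _ => ?_
    have h := LinearMap.congr_fun (hcoef a) x
    rw [Module.End.mul_apply, hMx, map_zero, LinearMap.smul_apply, eq_comm, smul_eq_zero] at h
    rcases h with h | h
    · exfalso
      by_cases ha : a = 0
      · subst ha
        rw [if_pos rfl, hβ0] at h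
        rcases hz01 with hr | hr
        · rw [hr, Nat.cast_zero, mul_zero, add_zero, hγ] at h
          field_simp at h
          exact one_ne_zero (show (1 : ℂ) = 0 by linear_combination h)
        · rw [hr, Nat.cast_one, mul_one, hγ] at h
          field_simp at h
          have : (((q + 1 : ℕ)) : ℂ) = 0 := by push_cast; linear_combination h
          exact Nat.succ_ne_zero q (by exact_mod_cast this)
      · rw [if_neg ha, add_zero, hβc a ha] at h
        have hb : β 1 = -1 := by linear_combination h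
        rw [hb, hγ] at hsumβ
        field_simp at hsumβ
        have h2 : (((q - 1) * q ^ 2 + rk z * (q ^ 2 - 1) : ℕ) : ℂ) = 0 := by
          rw [Nat.cast_add, Nat.cast_mul, Nat.cast_mul, Nat.cast_sub (by omega : 1 ≤ q),
            Nat.cast_sub (Nat.one_le_pow 2 q (by omega)), Nat.cast_pow, Nat.cast_one]
          linear_combination -hsumβ
        rw [Nat.cast_eq_zero] at h2
        have : 0 < (q - 1) * q ^ 2 := Nat.mul_pos (by omega) (by positivity)
        omega
    · exact h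
  -- the element of order three
  set w : Fˣ := σ ^ ((q - 1) / 3) with hwdef
  have hw3 : w ^ 3 = 1 := by
    rw [hwdef, ← pow_mul, show (q - 1) / 3 * 3 = q - 1 by omega, ← hσo, pow_orderOf_eq_one]
  have hw1 : w ≠ 1 := pow_ne_one_of_lt_orderOf (by omega) (by omega)
  have hw2 : w * w ≠ 1 := fun h => hw1 (by rw [← hw3, pow_succ, pow_two, h, one_mul])
  set Z := ρ (He w 1) with hZdef
  have hZ3 : Z * Z * Z = 1 := by
    rw [hZdef, ← map_mul, He_mul_He, ← map_mul, He_mul_He, show w * w * w = 1 by rw [← hw3, pow_succ, pow_two], He_one, map_one]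
  have cR : ∀ r ∈ [0, 1, 5, 6, 10, 11], ∀ t : F, Commute (R ρ r t) Z := fun r hr t => He_commute_R ρ w hw3 hr t
  have cE : Commute Z E := Diag_commute_EL ρ P (isDiag_He w 1)
  have cpe : ∀ a, Commute Z (pe ρ P a) := fun a =>
    Fam.commute_proj P (famE ρ P) (fun t => (cR 6 (by simp) t).symm.mul_right cE) a
  have cN : Commute Z N := by
    have e : Ne 1 = Xe 6 (1 : F) * Xe 5 (-1⁻¹ : F) * Xe 6 1 := by
      refine Subtype.ext ?_
      simp only [Ne, Xe, Subgroup.coe_mul, tables.2.1]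
      rw [Cfsg.Agent.H46.Good.ng, tables.2.2.2.2.1]
    rw [hNdef, e, map_mul, map_mul]
    exact (((cR 6 (by simp) _).symm).mul_right (cR 5 (by simp) _).symm).mul_right (cR 6 (by simp) _).symm
  set κ := LinearMap.trace ℂ V (pe ρ P 1 * Z) with hκdef
  have hκ1 : Z * pe ρ P 1 = κ • pe ρ P 1 := by
    rw [hκdef, ← hsw, ← (cpe 1).eq, mul_assoc, pe_idem]
  have hκa : ∀ a, a ≠ 0 → Z * pe ρ P a = κ • pe ρ P a := by
    intro a ha
    set y : Fˣ := Units.mk0 a ha with hy
    have m := He_move_pe ρ P hP y a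
    rw [hy, Units.val_mk0, mul_inv_cancel₀ ha, ← hy] at m
    have cg : Commute Z (ρ (He y y)) := ((isDiag_He w 1).comm (isDiag_He y y)).map ρ
    rw [show pe ρ P a = ρ (He y y) * pe ρ P 1 * ρ (He y y)⁻¹ by rw [m, mul_assoc, map_mul_inv, mul_one], ← mul_assoc,
      ← mul_assoc, cg.eq, mul_assoc _ Z, hκ1, mul_smul_comm, smul_mul_assoc]
  have hκz : Z * z = κ • z := by
    by_cases hz0 : z = 0
    · rw [hz0, mul_zero, smul_zero]
    set κ0 := LinearMap.trace ℂ V (z * Z)
    have h0' : Z * z = κ0 • z := commute_sandwich ρ P h0 (cpe 0)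
    have hd : pe ρ P 1 * N * z ≠ 0 := hkD hz0
    have e1 : Z * (pe ρ P 1 * N * z) = κ • (pe ρ P 1 * N * z) := by
      rw [← mul_assoc, ← mul_assoc, hκ1, smul_mul_assoc, smul_mul_assoc]
    have e2 : Z * (pe ρ P 1 * N * z) = κ0 • (pe ρ P 1 * N * z) := by
      rw [← mul_assoc, ((cpe 1).mul_right cN).eq, mul_assoc, h0', mul_smul_comm]
    rw [h0', smul_left_injective ℂ hd (e2.symm.trans e1)]
  have hZE : Z * E = κ • E := by
    rw [hEdef, ← sum_pe, Finset.mul_sum, Finset.smul_sum]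
    refine Finset.sum_congr rfl fun a _ => ?_
    by_cases ha : a = 0
    · subst ha; exact hκz
    · exact hκa a ha
  have hp1 : pe ρ P 1 ≠ 0 := fun h => by
    have := hd1 1 one_ne_zero
    rw [h, rk, LinearMap.range_zero, finrank_bot] at this
    omega
  have hκ3 : κ ^ 3 = 1 := by
    have h : (Z * Z * Z) * pe ρ P 1 = κ ^ 3 • pe ρ P 1 := by
      rw [mul_assoc, hκ1, mul_smul_comm, mul_assoc, hκ1, mul_smul_comm, hκ1, smul_smul, smul_smul]
      ring_nf
    rw [hZ3, one_mul] at h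
    exact smul_left_injective ℂ hp1 (show κ ^ 3 • pe ρ P 1 = (1 : ℂ) • pe ρ P 1 by rw [← h, one_smul])
  set ek := eig3 Z κ with hek
  have hekE : ek * E = E := eig3_fix hκ3 hZE
  have hek2 : ek * ek = ek := by
    rw [hek, eig3_mul hZ3 hκ3 hκ3, show ((1 : ℂ) + κ ^ 2 * κ + κ * κ ^ 2) / 3 = 1 by
      rw [← pow_succ, ← pow_succ', hκ3]; norm_num, one_smul]
  have cek : ∀ r ∈ [0, 1, 5, 6, 10, 11], ∀ t : F, Commute (R ρ r t) ek := fun r hr t => Commute.eig3_right (cR r hr t) κ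
  -- translates of the fixed space
  let fN : Fam (F × F) V :=
    { π := fun p => R ρ 0 p.1 * R ρ 1 p.2 * ek
      add := fun a b => by
        have c01 := R_commute ρ (r := 1) (s := 0) (by simp [commPairs]) a.2 b.1
        simp only [Prod.fst_add, Prod.snd_add, R_add]
        rw [← c01.mul_mul_mul_comm, mul_assoc _ ek, ← mul_assoc ek,
          ← ((cek 0 (by simp) b.1).mul_left (cek 1 (by simp) b.2)).eq, mul_assoc _ ek, hek2]
        simp only [mul_assoc] }
  let P2 : Pairing (F × F) := P.prod P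
  have hP2 : ∀ c a : F × F, P2.e c a = P.e 1 (c.1 * a.1 + c.2 * a.2) := fun c a => by
    rw [AddChar.map_add_eq_mul, ← e_eq_one_mul hP, ← e_eq_one_mul hP]; rfl
  have hstar : rk E ≤ fN.dim P2 (-1, 0) := by
    have hX : E * fN.proj P2 (-1, 0) * E = ((Fintype.card (F × F) : ℂ))⁻¹ • Mop := by
      simp only [Fam.proj, mul_smul_comm, smul_mul_assoc, Finset.mul_sum, Finset.sum_mul, hMop]
      congr 1
      refine Finset.sum_congr rfl fun p _ => ?_
      congr 1
      · rw [hP2]; congr 1; simp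
      · show E * (R ρ 0 p.1 * R ρ 1 p.2 * ek) * E = _
        rw [mul_assoc E, mul_assoc (R ρ 0 p.1 * R ρ 1 p.2), hekE]
        simp only [mul_assoc]
    let f : LinearMap.range E →ₗ[ℂ] V := (fN.proj P2 (-1, 0)).comp (LinearMap.range E).subtype
    have hfi : Function.Injective f := by
      rw [injective_iff_map_eq_zero]
      rintro ⟨x, y, rfl⟩ hx
      have hx' : fN.proj P2 (-1, 0) (E y) = 0 := hx
      have hEy : E (E y) = E y := LinearMap.congr_fun (EL_idem ρ P) y
      refine Subtype.ext (hinj (E y) hEy ?_)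
      have := LinearMap.congr_fun hX (E y)
      rw [Module.End.mul_apply, hEy, Module.End.mul_apply, hx', map_zero, LinearMap.smul_apply, eq_comm,
        smul_eq_zero] at this
      exact this.resolve_left (inv_ne_zero (Nat.cast_ne_zero.2 Fintype.card_ne_zero))
    rw [rk, ← LinearMap.finrank_range_of_inj hfi]
    exact Submodule.finrank_mono (LinearMap.range_comp_le_range _ _)
  have shiftN : ∀ α β u : F, fN.dim P2 (α, β) = fN.dim P2 (α, β - α * u) := by
    intro α β u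
    let τ : F × F ≃ F × F :=
      { toFun := fun p => (p.1 + -(p.2 * u), p.2)
        invFun := fun p => (p.1 + p.2 * u, p.2)
        left_inv := fun p => by simp
        right_inv := fun p => by simp }
    refine fN.dim_move P2 (map_inv_mul ρ (Xe 5 u)) τ (fun p => ?_) fun p => ?_
    · have c5 := R_commute ρ (r := 5) (s := 0) (by simp [commPairs]) u p.1
      have c10 := R_commute ρ (r := 1) (s := 0) (by simp [commPairs]) p.2 (-(p.2 * u))
      have e : R ρ 5 u * R ρ 1 p.2 = R ρ 1 p.2 * R ρ 0 (-(p.2 * u)) * R ρ 5 u := by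
        simp only [R, ← map_mul, conj_five]
      show R ρ 5 u * (R ρ 0 p.1 * R ρ 1 p.2 * ek) = R ρ 0 (p.1 + -(p.2 * u)) * R ρ 1 p.2 * ek * R ρ 5 u
      rw [mul_assoc _ ek, ← (cek 5 (by simp) u).eq, ← mul_assoc, ← mul_assoc, c5.eq, mul_assoc (R ρ 0 p.1), e, c10.eq,
        R_add]
      simp only [mul_assoc]
    · rw [hP2, hP2]
      congr 1
      simp only [τ, Equiv.coe_fn_mk]
      ring
  have torN : ∀ α β : F, ∀ y : Fˣ, fN.dim P2 (α * (y : F)⁻¹, β * (y : F)) = fN.dim P2 (α, β) := by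
    intro α β y
    let τ : F × F ≃ F × F :=
      (Equiv.mulLeft₀ (y : F)⁻¹ (inv_ne_zero y.ne_zero)).prodCongr (Equiv.mulLeft₀ (y : F) y.ne_zero)
    refine (fN.dim_move P2 (map_inv_mul ρ (He 1 y)) τ (fun p => ?_) (c' := (α, β)) fun p => ?_).symm
    · have k : ∀ r < 12, ∀ t : F, ρ (He 1 y) * R ρ r t = R ρ r ((y : F) ^ eb r * t) * ρ (He 1 y) := fun r hr t => by
        simp only [R, ← map_mul, He_mul_Xe 1 y hr, Units.val_one, one_zpow, one_mul]
      have cZ : Commute (ρ (He 1 y)) ek :=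
        Commute.eig3_right (((isDiag_He 1 y).comm (isDiag_He w 1)).map ρ) κ
      show ρ (He 1 y) * (R ρ 0 p.1 * R ρ 1 p.2 * ek) = R ρ 0 ((y : F)⁻¹ * p.1) * R ρ 1 ((y : F) * p.2) * ek * _
      rw [mul_assoc _ ek, ← cZ.eq, ← mul_assoc, ← mul_assoc, k 0 (by norm_num), mul_assoc _ (ρ (He 1 y)),
        k 1 (by norm_num), ← mul_assoc, ← mul_assoc]
      simp [eb]
    · rw [hP2, hP2]
      congr 1
      simp only [τ, Equiv.prodCongr_apply, Prod.map, Equiv.mulLeft₀, Units.mulLeft_apply, Units.val_mk0]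
      ring
  obtain ⟨e0, he0, hN0⟩ := Ne_mul_Xe (F := F) (i := 1) (r := 0) (by norm_num) (by norm_num)
  rw [show refl 1 0 = 1 from rfl] at hN0
  have swapN : ∀ α β : F, fN.dim P2 (α, β) = fN.dim P2 (β * e0, α * e1) := by
    intro α β
    let τ : F × F ≃ F × F :=
      (Equiv.prodComm F F).trans ((Equiv.mulLeft₀ e1 he1).prodCongr (Equiv.mulLeft₀ e0 he0))
    refine fN.dim_move P2 (map_inv_mul ρ (Ne 1)) τ (fun p => ?_) fun p => ?_
    · have k0 : N * R ρ 0 p.1 = R ρ 1 (e0 * p.1) * N := by simp only [hNdef, R, ← map_mul, hN0]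
      have k1 : N * R ρ 1 p.2 = R ρ 0 (e1 * p.2) * N := by simp only [hNdef, R, ← map_mul, hN1]
      have cek' : Commute N ek := Commute.eig3_right cN.symm κ
      show N * (R ρ 0 p.1 * R ρ 1 p.2 * ek) = R ρ 0 (e1 * p.2) * R ρ 1 (e0 * p.1) * ek * N
      rw [mul_assoc _ ek, ← cek'.eq, ← mul_assoc, ← mul_assoc, k0, mul_assoc _ N, k1, ← mul_assoc,
        (R_commute ρ (r := 1) (s := 0) (by simp [commPairs]) (e0 * p.1) (e1 * p.2)).eq, mul_assoc _ N]
    · rw [hP2, hP2]
      congr 1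
      simp only [τ, Equiv.trans_apply, Equiv.prodComm_apply, Prod.swap, Equiv.prodCongr_apply, Prod.map,
        Equiv.mulLeft₀, Units.mulLeft_apply, Units.val_mk0]
      ring
  have hallN : ∀ p : F × F, p ≠ 0 → fN.dim P2 p = fN.dim P2 (-1, 0) := by
    have hα : ∀ α β : F, α ≠ 0 → fN.dim P2 (α, β) = fN.dim P2 (-1, 0) := by
      intro α β hα
      rw [shiftN α β (β / α), mul_div_cancel₀ _ hα, sub_self,
        ← torN α 0 (Units.mk0 (-α) (neg_ne_zero.2 hα)), Units.val_mk0, zero_mul,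
        show α * (-α)⁻¹ = -1 by field_simp]
    rintro ⟨α, β⟩ hp
    by_cases h : α = 0
    · subst h
      have hb : β ≠ 0 := fun h => hp (by rw [h]; rfl)
      rw [swapN 0 β, hα _ _ (mul_ne_zero hb he0)]
    · exact hα α β h
  have hW : (q * q - 1) * rk E ≤ rk ek := by
    have h : ∑ p, fN.dim P2 p = rk ek := by rw [Fam.sum_dim]; simp [fN, R_zero]
    rw [← h, ← Finset.add_sum_erase _ _ (Finset.mem_univ (0 : F × F)),
      Finset.sum_congr rfl fun p hp => hallN p (Finset.ne_of_mem_erase hp), Finset.sum_const,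
      Finset.card_erase_of_mem (Finset.mem_univ _), Finset.card_univ, Fintype.card_prod, smul_eq_mul, ← hqdef]
    exact le_trans (Nat.mul_le_mul_left _ hstar) (Nat.le_add_left _ _)
  have hrE : rk E = q - 1 + rk z := by
    have h : rk E = ∑ a, rk (pe ρ P a) := by
      rw [hEdef, ← sum_pe]
      exact Fam.rk_sum P (famE ρ P) Finset.univ
    rw [h, ← Finset.add_sum_erase _ _ (Finset.mem_univ (0 : F)),
      Finset.sum_congr rfl fun a ha => hd1 a (Finset.ne_of_mem_erase ha), Finset.sum_const,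
      Finset.card_erase_of_mem (Finset.mem_univ _), Finset.card_univ, smul_eq_mul, mul_one, ← hzdef, ← hqdef, add_comm]
  -- another eigenvalue
  obtain ⟨om, hom⟩ : ∃ om : ℂ, IsPrimitiveRoot om 3 := ⟨_, Complex.isPrimitiveRoot_exp 3 (by norm_num)⟩
  have hom3 : om ^ 3 = 1 := hom.pow_eq_one
  have homsum : 1 + om + om ^ 2 = 0 := by
    have h := hom.geom_sum_eq_zero (by norm_num)
    simp [Finset.sum_range_succ] at h
    exact h
  have hκ'3 : (κ * om) ^ 3 = 1 := by rw [mul_pow, hκ3, hom3, one_mul]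
  set ek' := eig3 Z (κ * om) with hek'
  have hek'2 : ek' * ek' = ek' := by
    rw [hek', eig3_mul hZ3 hκ'3 hκ'3, show ((1 : ℂ) + (κ * om) ^ 2 * (κ * om) + (κ * om) * (κ * om) ^ 2) / 3 = 1 by
      rw [← pow_succ, ← pow_succ', hκ'3]; norm_num, one_smul]
  have hoo : ek * ek' = 0 ∧ ek' * ek = 0 := by
    have e : (1 : ℂ) + κ ^ 2 * (κ * om) + κ * (κ * om) ^ 2 = 0 := by
      linear_combination homsum + (om + om ^ 2) * hκ3
    constructor
    · rw [hek, hek', eig3_mul hZ3 hκ3 hκ'3, e, zero_div, zero_smul]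
    · rw [hek, hek', eig3_mul hZ3 hκ'3 hκ3, show (1 : ℂ) + (κ * om) ^ 2 * κ + (κ * om) * κ ^ 2 = 0 by
        linear_combination homsum + (om + om ^ 2) * hκ3, zero_div, zero_smul]
  set Pm := (1 - Pr ρ P 8) * (1 - Pr ρ P 11) with hPm
  have c811 : Commute (Pr ρ P 8) (Pr ρ P 11) := Pr_commute ρ P (Or.inl (by simp [commPairs]))
  have i8 : ((1 : End ℂ V) - Pr ρ P 8) * (1 - Pr ρ P 8) = 1 - Pr ρ P 8 := IsIdempotentElem.one_sub (Pr_idem ρ P 8)
  have i11 : ((1 : End ℂ V) - Pr ρ P 11) * (1 - Pr ρ P 11) = 1 - Pr ρ P 11 := IsIdempotentElem.one_sub (Pr_idem ρ P 11)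
  have c811' : Commute ((1 : End ℂ V) - Pr ρ P 8) (1 - Pr ρ P 11) :=
    ((Commute.one_left _).sub_left ((Commute.one_right _).sub_right c811))
  have hPm2 : Pm * Pm = Pm := by rw [hPm, c811'.symm.mul_mul_mul_comm, i8, i11]
  have cPmZ : Commute Z Pm :=
    ((Commute.one_right _).sub_right (Diag_commute_Pr ρ P (isDiag_He w 1) (by norm_num))).mul_right
      ((Commute.one_right _).sub_right (Diag_commute_Pr ρ P (isDiag_He w 1) (by norm_num)))
  have cek'Pm : Commute ek' Pm := (Commute.eig3_right cPmZ.symm (κ * om)).symm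
  have hkey : ek' * Pm * (ek' * Pm) = ek' * Pm := by rw [cek'Pm.symm.mul_mul_mul_comm, hek'2, hPm2]
  have hPmrk : 3 * rk (ek' * Pm) = rk Pm := by
    have ht : LinearMap.trace ℂ V (ek' * Pm) = (3 : ℂ)⁻¹ * (rk Pm : ℂ) := by
      rw [hek', eig3, smul_mul_assoc, add_mul, add_mul, one_mul, smul_mul_assoc, smul_mul_assoc, map_smul, map_add,
        map_add, map_smul, map_smul, hPm, hZdef, trace_He_mov ρ hP w hw3 hw1, ← map_mul, He_mul_He,
        trace_He_mov ρ hP (w * w) (by rw [mul_pow, hw3, one_mul]) hw2, ← hPm, trace_idem hPm2,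
        smul_zero, smul_zero, add_zero, add_zero, smul_eq_mul]
    rw [trace_idem hkey, eq_inv_mul_iff_mul_eq₀ (by norm_num)] at ht
    exact_mod_cast ht
  have hPmval : rk Pm = q * (q - 1) * (q - 1) := by
    have e8 : Pr ρ P 8 = ∑ c ∈ Finset.univ.filter (fun c : F × F × F => c.2.1 = 0), (famA ρ).proj (PA P) c := by
      refine (famA ρ).proj_restrict (PA P) P (fam1 ρ 8) (fun x => (0, x, 0)) (fun c => c.2.1) (fun x => ?_)
        (fun c b => ?_) 0
      · simp [famA, fam1, R_zero]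
      · simp [PA, AddChar.map_zero_eq_one]
    have h1 : (1 : End ℂ V) = ∑ c, (famA ρ).proj (PA P) c := by rw [Fam.sum_proj, famA_zero]
    have cU : ((Finset.univ : Finset F).filter (fun x => ¬ x = 0)).card = q - 1 := by
      rw [Finset.filter_ne', Finset.card_erase_of_mem (Finset.mem_univ _), Finset.card_univ]
    have f8 : (1 : End ℂ V) - Pr ρ P 8 =
        ∑ c ∈ Finset.univ.filter (fun c : F × F × F => ¬ c.2.1 = 0), (famA ρ).proj (PA P) c := by
      rw [sub_eq_iff_eq_add', e8, h1, Finset.sum_filter_add_sum_filter_not]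
    have f11 : (1 : End ℂ V) - Pr ρ P 11 =
        ∑ c ∈ Finset.univ.filter (fun c : F × F × F => ¬ c.2.2 = 0), (famA ρ).proj (PA P) c := by
      rw [sub_eq_iff_eq_add', Pr11_sum, h1, Finset.sum_filter_add_sum_filter_not]
    rw [hPm, f8, f11, Fam.sum_mul_sum_proj, Fam.rk_sum, ← Finset.filter_and,
      Finset.sum_congr rfl fun c hc => show (famA ρ).dim (PA P) c = 1 from
        (dA_const ρ hP h3 c.1 c.2.1 (Finset.mem_filter.1 hc).2.2).trans hμ, Finset.sum_const, smul_eq_mul, mul_one,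
      show Finset.univ.filter (fun c : F × F × F => ¬ c.2.1 = 0 ∧ ¬ c.2.2 = 0) =
        Finset.univ ×ˢ ((Finset.univ.filter fun x : F => ¬ x = 0) ×ˢ (Finset.univ.filter fun x : F => ¬ x = 0)) by
          ext ⟨a, b, c⟩; simp, Finset.card_product, Finset.card_product, Finset.card_univ, cU, mul_assoc]
  have htot : rk ek + rk ek' ≤ finrank ℂ V := by
    rw [← rk_add hek2 hek'2 hoo.1 hoo.2]; exact rk_le _
  have hle := rk_mul_le ek' Pm
  rw [hrE] at hW
  have hq2 : 1 ≤ q * q := Nat.one_le_iff_ne_zero.2 (Nat.mul_ne_zero (by omega) (by omega))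
  have hq3' : 1 ≤ q ^ 3 := Nat.one_le_pow _ _ (by omega)
  zify [hq2, hq3', (show 1 ≤ q by omega)] at hN3 hW hPmval hPmrk hle htot
  have hr1 : (rk z : ℤ) ≤ 1 := by exact_mod_cast h0
  have hq7 : (7 : ℤ) ≤ q := by exact_mod_cast hq
  have hr0 : (0 : ℤ) ≤ rk z := Nat.cast_nonneg _
  nlinarith [mul_nonneg (sub_nonneg.2 hq7) (sub_nonneg.2 hq7), mul_nonneg hr0 (sub_nonneg.2 hr1)]

end Cfsg.Agent.H75.G2Deg
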