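import Cfsg.Agent.H75.G2Deg.Moves

/-!
# Characteristic three

The radical of the parabolic at the long root group is `(U₆ U₁₀ U₁₁) × (U₈ U₉)`, and the Levi group acts on the second
factor naturally. The multiplicities of the two types of characters with non-trivial central part determine the rest.
-/

set_option autoImplicit false
set_option maxRecDepth 10000

namespace Cfsg.Agent.H75.G2Deg

open Cfsg.Lie Module

variable {F : Type*} [Field F] [Fintype F] [CharP F 3] [DecidableEq F] {V : Type*} [AddCommGroup V] [Module ℂ V]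
  (ρ : ↥(chevG2.group F) →* End ℂ V)

omit [Fintype F] [DecidableEq F] in
theorem three_eq : (3 : F) = 0 := by exact_mod_cast CharP.cast_eq_zero F 3

omit [Fintype F] [DecidableEq F] in
theorem two_ne : (2 : F) ≠ 0 := fun h =>
  one_ne_zero (by linear_combination three_eq (F := F) - h : (1 : F) = 0)

omit [Fintype F] [DecidableEq F] in
theorem R8_R9 (t u : F) : Commute (R ρ 8 t) (R ρ 9 u) := by
  rw [commute_iff_eq, R, R, ← map_mul, ← map_mul, comm9_8 t u]
  simp [three_eq, Xe_zero]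

/-- The abelian group of the roots `6, 8, 9, 11`. -/
noncomputable def famB : Fam (F × F × F × F) V where
  π a := R ρ 6 a.1 * R ρ 8 a.2.1 * (R ρ 9 a.2.2.1 * R ρ 11 a.2.2.2)
  add a b := by
    have c : ∀ r s, (r, s) ∈ commPairs ∨ (s, r) ∈ commPairs ∨ r = s → ∀ t u : F, Commute (R ρ r t) (R ρ s u) :=
      fun r s h => R_commute ρ h
    simp only [Prod.fst_add, Prod.snd_add, R_add]
    rw [(c 6 8 (by simp [commPairs]) b.1 a.2.1).mul_mul_mul_comm,
      (c 9 11 (by simp [commPairs]) b.2.2.1 a.2.2.2).mul_mul_mul_comm]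
    exact (((c 9 6 (by simp [commPairs]) a.2.2.1 b.1).mul_right (R8_R9 ρ b.2.1 a.2.2.1).symm).mul_left
      ((c 11 6 (by simp [commPairs]) a.2.2.2 b.1).mul_right (c 11 8 (by simp [commPairs]) a.2.2.2 b.2.1))).symm.mul_mul_mul_comm _ _

/-- The abelian group of the roots `8, 9, 11`. -/
noncomputable def famY : Fam (F × F × F) V where
  π a := (famB ρ).π (0, a)
  add a b := by rw [← (famB ρ).add]; simp

theorem famY_apply (a : F × F × F) : (famY ρ).π a = R ρ 8 a.1 * (R ρ 9 a.2.1 * R ρ 11 a.2.2) := by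
  simp [famY, famB, R_zero]

theorem famB_zero : (famB ρ).π 0 = 1 := by simp [famB, R_zero]

variable {P : Pairing F} (hP : ∀ a b c : F, P.e (a * b) c = P.e a (b * c))

variable (P) in
/-- The pairing of three coordinates. -/
noncomputable def P3 : Pairing (F × F × F) := P.prod (P.prod P)

variable (P) in
/-- A multiplicity on the roots `6, 8, 9, 11`. -/
noncomputable def dB (c : F × F × F × F) : ℕ := (famB ρ).dim (PQ P) c

variable (P) in
/-- A multiplicity on the roots `8, 9, 11`. -/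
noncomputable def dY (c : F × F × F) : ℕ := (famY ρ).dim (P3 P) c

include hP in
omit [CharP F 3] [DecidableEq F] in
theorem P3_dot (c a : F × F × F) : (P3 P).e c a = P.e 1 (c.1 * a.1 + (c.2.1 * a.2.1 + c.2.2 * a.2.2)) := by
  rw [AddChar.map_add_eq_mul, AddChar.map_add_eq_mul, ← e_eq_one_mul hP, ← e_eq_one_mul hP, ← e_eq_one_mul hP]
  rfl

theorem Pr_six_sumB : Pr ρ P 6 = ∑ c ∈ Finset.univ.filter (fun c : F × F × F × F => c.1 = 0), (famB ρ).proj (PQ P) c := by
  refine (famB ρ).proj_restrict (PQ P) P (fam1 ρ 6) (fun x => (x, 0, 0, 0)) (fun c => c.1) (fun x => ?_) (fun c b => ?_) 0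
  · simp [famB, fam1, R_zero]
  · simp [PQ_apply, AddChar.map_zero_eq_one]

theorem Pr_nine_sumB : Pr ρ P 9 = ∑ c ∈ Finset.univ.filter (fun c : F × F × F × F => c.2.2.1 = 0), (famB ρ).proj (PQ P) c := by
  refine (famB ρ).proj_restrict (PQ P) P (fam1 ρ 9) (fun x => (0, 0, x, 0)) (fun c => c.2.2.1) (fun x => ?_) (fun c b => ?_) 0
  · simp [famB, fam1, R_zero]
  · simp [PQ_apply, AddChar.map_zero_eq_one]

theorem Pr_eleven_sumB : Pr ρ P 11 = ∑ c ∈ Finset.univ.filter (fun c : F × F × F × F => c.2.2.2 = 0), (famB ρ).proj (PQ P) c := by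
  refine (famB ρ).proj_restrict (PQ P) P (fam1 ρ 11) (fun x => (0, 0, 0, x)) (fun c => c.2.2.2) (fun x => ?_) (fun c b => ?_) 0
  · simp [famB, fam1, R_zero]
  · simp [PQ_apply, AddChar.map_zero_eq_one]

variable [FiniteDimensional ℂ V]

include hP

theorem ten_move_exists (u : F) : ∃ τ : F × F × F × F ≃ F × F × F × F,
    (∀ x, R ρ 10 u * (famB ρ).π x = (famB ρ).π (τ x) * R ρ 10 u) ∧
      ∀ η a b χ x, (PQ P).e (η, a, b, χ) (τ x) = (PQ P).e (η - χ * u, a, b, χ) x := by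
  let τ : F × F × F × F ≃ F × F × F × F :=
    { toFun := fun a => (a.1, a.2.1, a.2.2.1, a.2.2.2 + -(a.1 * u))
      invFun := fun a => (a.1, a.2.1, a.2.2.1, a.2.2.2 + a.1 * u)
      left_inv := fun a => by simp
      right_inv := fun a => by simp }
  refine ⟨τ, fun x => ?_, fun η a b χ x => ?_⟩
  · have c8 := R_commute ρ (r := 10) (s := 8) (by simp [commPairs]) u x.2.1
    have c9 := R_commute ρ (r := 10) (s := 9) (by simp [commPairs]) u x.2.2.1
    have c11 : ∀ t : F, Commute (R ρ 10 u) (R ρ 11 t) := fun t => R_commute ρ (by simp [commPairs]) u t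
    have c118 : ∀ t : F, Commute (R ρ 11 t) (R ρ 8 x.2.1) := fun t => R_commute ρ (by simp [commPairs]) t _
    have c119 : ∀ t : F, Commute (R ρ 11 t) (R ρ 9 x.2.2.1) := fun t => R_commute ρ (by simp [commPairs]) t _
    have e : R ρ 10 u * R ρ 6 x.1 = R ρ 6 x.1 * R ρ 10 u * R ρ 11 (-(x.1 * u)) := by
      simp only [R, ← map_mul, comm10_6]
    show R ρ 10 u * (R ρ 6 x.1 * R ρ 8 x.2.1 * (R ρ 9 x.2.2.1 * R ρ 11 x.2.2.2)) =
      R ρ 6 x.1 * R ρ 8 x.2.1 * (R ρ 9 x.2.2.1 * R ρ 11 (x.2.2.2 + -(x.1 * u))) * R ρ 10 u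
    calc R ρ 10 u * (R ρ 6 x.1 * R ρ 8 x.2.1 * (R ρ 9 x.2.2.1 * R ρ 11 x.2.2.2))
        = R ρ 6 x.1 * R ρ 10 u * (R ρ 11 (-(x.1 * u)) * R ρ 8 x.2.1) * (R ρ 9 x.2.2.1 * R ρ 11 x.2.2.2) := by
          rw [← mul_assoc (R ρ 10 u), ← mul_assoc (R ρ 10 u), e]; simp only [mul_assoc]
      _ = R ρ 6 x.1 * (R ρ 10 u * R ρ 8 x.2.1) * (R ρ 11 (-(x.1 * u)) * R ρ 9 x.2.2.1) * R ρ 11 x.2.2.2 := by
          rw [(c118 _).eq]; simp only [mul_assoc]
      _ = R ρ 6 x.1 * R ρ 8 x.2.1 * (R ρ 10 u * R ρ 9 x.2.2.1) * (R ρ 11 (-(x.1 * u)) * R ρ 11 x.2.2.2) := by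
          rw [(c119 _).eq, c8.eq]; simp only [mul_assoc]
      _ = R ρ 6 x.1 * R ρ 8 x.2.1 * R ρ 9 x.2.2.1 * (R ρ 10 u * R ρ 11 (x.2.2.2 + -(x.1 * u))) := by
          rw [c9.eq, ← R_add, add_comm (-(x.1 * u))]; simp only [mul_assoc]
      _ = _ := by rw [(c11 _).eq]; simp only [mul_assoc]
  · rw [PQ_dot hP, PQ_dot hP]
    congr 1
    simp only [τ, Equiv.coe_fn_mk]
    ring

theorem dB_shift (η a b χ u : F) : dB ρ P (η, a, b, χ) = dB ρ P (η - χ * u, a, b, χ) := by
  obtain ⟨τ, h1, h2⟩ := ten_move_exists ρ hP u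
  exact (famB ρ).dim_move (PQ P) (map_inv_mul ρ (Xe 10 u)) τ h1 (h2 η a b χ)

/-- Moving an eigenprojection by the root group `10`. -/
theorem ten_move (η a b χ u : F) : R ρ 10 u * (famB ρ).proj (PQ P) (η - χ * u, a, b, χ) =
    (famB ρ).proj (PQ P) (η, a, b, χ) * R ρ 10 u := by
  obtain ⟨τ, h1, h2⟩ := ten_move_exists ρ hP u
  exact (famB ρ).move_proj (PQ P) τ h1 (h2 η a b χ)

theorem dY_eq (a b : F) {χ : F} (hχ : χ ≠ 0) :
    dY ρ P (a, b, χ) = if a = 0 ∧ b = 0 then dY ρ P (0, 0, 1) else dY ρ P (0, 1, 1) := by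
  have shear : ∀ a b χ v : F, dY ρ P (a, b, χ) = dY ρ P (a - b * (2 * v), b, χ) := by
    intro a b χ v
    let τ : F × F × F ≃ F × F × F :=
      { toFun := fun x => (x.1, x.2.1 + -(2 * v * x.1), x.2.2)
        invFun := fun x => (x.1, x.2.1 + 2 * v * x.1, x.2.2)
        left_inv := fun x => by simp
        right_inv := fun x => by simp }
    refine (famY ρ).dim_move (P3 P) (map_inv_mul ρ (Xe 7 v)) τ (fun x => ?_) fun x => ?_
    · have e8 : R ρ 7 v * R ρ 8 x.1 = R ρ 8 x.1 * R ρ 9 (-(2 * v * x.1)) * R ρ 7 v := by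
        simp only [R, ← map_mul, conj_seven_eight]
        simp [three_eq, Xe_zero]
      have e9 : R ρ 7 v * R ρ 9 x.2.1 = R ρ 9 x.2.1 * R ρ 7 v := by
        simp only [R, ← map_mul, conj_seven_nine]
        simp [three_eq, Xe_zero]
      have e11 := R_commute ρ (r := 7) (s := 11) (by simp [commPairs]) v x.2.2
      show R ρ 7 v * (famY ρ).π x = (famY ρ).π (x.1, x.2.1 + -(2 * v * x.1), x.2.2) * R ρ 7 v
      rw [famY_apply, famY_apply, ← mul_assoc, e8, mul_assoc _ (R ρ 7 v), ← mul_assoc (R ρ 7 v), e9,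
        mul_assoc _ (R ρ 7 v), e11.eq, add_comm x.2.1, R_add]
      simp only [mul_assoc]
    · rw [P3_dot hP, P3_dot hP]
      congr 1
      simp only [τ, Equiv.coe_fn_mk]
      ring
  have tor : ∀ a b χ : F, ∀ x y : Fˣ,
      dY ρ P (a * ((x : F)⁻¹ * (y : F)), b * (x : F), χ * (y : F)) = dY ρ P (a, b, χ) := by
    intro a b χ x y
    let τ : F × F × F ≃ F × F × F :=
      (Equiv.mulLeft₀ ((x : F)⁻¹ * (y : F)) (mul_ne_zero (inv_ne_zero x.ne_zero) y.ne_zero)).prodCongr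
        ((Equiv.mulLeft₀ (x : F) x.ne_zero).prodCongr (Equiv.mulLeft₀ (y : F) y.ne_zero))
    refine ((famY ρ).dim_move (P3 P) (map_inv_mul ρ (He x y)) τ (fun z => ?_) (c' := (a, b, χ)) fun z => ?_).symm
    · have k : ∀ r < 12, ∀ t : F, ρ (He x y) * R ρ r t =
          R ρ r ((x : F) ^ ea r * (y : F) ^ eb r * t) * ρ (He x y) := fun r hr t => by
        simp only [R, ← map_mul, He_mul_Xe x y hr]
      show ρ (He x y) * (famY ρ).π z = (famY ρ).π _ * ρ (He x y)
      rw [famY_apply, famY_apply, ← mul_assoc, k 8 (by norm_num), mul_assoc _ (ρ (He x y)), ← mul_assoc (ρ (He x y)),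
        k 9 (by norm_num), mul_assoc _ (ρ (He x y)), k 11 (by norm_num)]
      simp [τ, ea, eb, mul_assoc]
    · rw [P3_dot hP, P3_dot hP]
      congr 1
      simp only [τ, Equiv.prodCongr_apply, Prod.map, Equiv.mulLeft₀, Units.mulLeft_apply, Units.val_mk0]
      ring
  obtain ⟨e8, n8, h8⟩ := Ne_mul_Xe (F := F) (i := 0) (r := 8) (by norm_num) (by norm_num)
  obtain ⟨e9, n9, h9⟩ := Ne_mul_Xe (F := F) (i := 0) (r := 9) (by norm_num) (by norm_num)
  obtain ⟨e11, n11, h11⟩ := Ne_mul_Xe (F := F) (i := 0) (r := 11) (by norm_num) (by norm_num)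
  have weyl : ∀ a b χ : F, dY ρ P (a, b, χ) = dY ρ P (b * e8, a * e9, χ * e11) := by
    intro a b χ
    let τ : F × F × F ≃ F × F × F :=
      { toFun := fun z => (e9 * z.2.1, e8 * z.1, e11 * z.2.2)
        invFun := fun z => (z.2.1 / e8, z.1 / e9, z.2.2 / e11)
        left_inv := fun z => by simp [mul_div_cancel_left₀ _ n8, mul_div_cancel_left₀ _ n9, mul_div_cancel_left₀ _ n11]
        right_inv := fun z => by simp [mul_div_cancel₀ _ n8, mul_div_cancel₀ _ n9, mul_div_cancel₀ _ n11] }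
    refine (famY ρ).dim_move (P3 P) (map_inv_mul ρ (Ne 0)) τ (fun z => ?_) fun z => ?_
    · have k8 : ρ (Ne 0) * R ρ 8 z.1 = R ρ 9 (e8 * z.1) * ρ (Ne 0) := by simp only [R, ← map_mul, h8]; rfl
      have k9 : ρ (Ne 0) * R ρ 9 z.2.1 = R ρ 8 (e9 * z.2.1) * ρ (Ne 0) := by simp only [R, ← map_mul, h9]; rfl
      have k11 : ρ (Ne 0) * R ρ 11 z.2.2 = R ρ 11 (e11 * z.2.2) * ρ (Ne 0) := by simp only [R, ← map_mul, h11]; rfl
      show ρ (Ne 0) * (famY ρ).π z = (famY ρ).π (e9 * z.2.1, e8 * z.1, e11 * z.2.2) * ρ (Ne 0)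
      rw [famY_apply, famY_apply, ← mul_assoc, k8, mul_assoc _ (ρ (Ne 0)), ← mul_assoc (ρ (Ne 0)), k9,
        mul_assoc _ (ρ (Ne 0)), k11]
      simp only [← mul_assoc]
      rw [(R8_R9 ρ (e9 * z.2.1) (e8 * z.1)).eq]
    · rw [P3_dot hP, P3_dot hP]
      congr 1
      simp only [τ, Equiv.coe_fn_mk]
      ring
  have base : ∀ b χ : F, b ≠ 0 → χ ≠ 0 → dY ρ P (0, b, χ) = dY ρ P (0, 1, 1) := fun b χ hb hχ => by
    rw [← tor 0 1 1 (Units.mk0 b hb) (Units.mk0 χ hχ)]
    simp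
  split_ifs with h
  · obtain ⟨rfl, rfl⟩ := h
    rw [← tor 0 0 1 1 (Units.mk0 χ hχ)]
    simp
  · by_cases hb : b = 0
    · subst hb
      have ha : a ≠ 0 := fun ha => h ⟨ha, rfl⟩
      rw [weyl, zero_mul]
      exact base _ _ (mul_ne_zero ha n9) (mul_ne_zero hχ n11)
    · rw [shear a b χ (a / (2 * b)), show a - b * (2 * (a / (2 * b))) = 0 by
        have := two_ne (F := F); field_simp; ring]
      exact base b χ hb hχ

/-- The two multiplicities with non-trivial central part. -/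
theorem dB_eq (η a b : F) {χ : F} (hχ : χ ≠ 0) :
    dB ρ P (η, a, b, χ) = if a = 0 ∧ b = 0 then dB ρ P (0, 0, 0, 1) else dB ρ P (0, 0, 1, 1) := by
  have hY : ∀ a b χ : F, χ ≠ 0 → dY ρ P (a, b, χ) = Fintype.card F * dB ρ P (0, a, b, χ) := by
    intro a b χ hχ
    have h := (famB ρ).dim_restrict (PQ P) (P3 P) (famY ρ) (fun x => (0, x)) (fun c => c.2) (fun x => rfl)
      (fun c x => by simp [PQ_apply, P3, AddChar.map_zero_eq_one]) (a, b, χ)
    rw [dY, h, show Finset.univ.filter (fun c : F × F × F × F => c.2 = (a, b, χ)) =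
      Finset.univ ×ˢ {((a, b, χ) : F × F × F)} by ext ⟨x, y⟩; simp [eq_comm], Finset.sum_product,
      Finset.sum_congr rfl fun x _ => by
        rw [Finset.sum_singleton, show (famB ρ).dim (PQ P) (x, a, b, χ) = dB ρ P (0, a, b, χ) by
          rw [← dB, dB_shift ρ hP x a b χ (x / χ), mul_div_cancel₀ _ hχ, sub_self]], Finset.sum_const,
      Finset.card_univ, smul_eq_mul]
  have key := dY_eq ρ hP a b hχ
  rw [hY a b χ hχ, hY 0 0 1 one_ne_zero, hY 0 1 1 one_ne_zero, ← apply_ite (Fintype.card F * ·)] at key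
  rw [dB_shift ρ hP η a b χ (η / χ), mul_div_cancel₀ _ hχ, sub_self]
  exact Nat.eq_of_mul_eq_mul_left Fintype.card_pos key

/-- The sum over a box of characters with non-trivial central part. -/
theorem sum_dB (A B C : Finset F) (hB : (0 : F) ∈ B) (hC : (0 : F) ∈ C) :
    ∑ c ∈ A ×ˢ (B ×ˢ (C ×ˢ (Finset.univ.filter fun x : F => ¬ x = 0))), dB ρ P c =
      A.card * (Fintype.card F - 1) *
        (dB ρ P (0, 0, 0, 1) + (B.card * C.card - 1) * dB ρ P (0, 0, 1, 1)) := by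
  have inner : ∀ η, ∑ y ∈ B ×ˢ (C ×ˢ (Finset.univ.filter fun x : F => ¬ x = 0)), dB ρ P (η, y) =
      (Fintype.card F - 1) * (dB ρ P (0, 0, 0, 1) + (B.card * C.card - 1) * dB ρ P (0, 0, 1, 1)) := by
    intro η
    rw [Finset.sum_product, Finset.sum_congr rfl fun a _ => by
      rw [Finset.sum_product, Finset.sum_congr rfl fun b _ => by
        rw [Finset.sum_congr rfl fun χ hχ => dB_eq ρ hP η a b (Finset.mem_filter.1 hχ).2, Finset.sum_const,
          smul_eq_mul, Finset.filter_ne', Finset.card_erase_of_mem (Finset.mem_univ _), Finset.card_univ]]]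
    simp only [← Finset.mul_sum]
    congr 1
    rw [← Finset.sum_product' B C (fun a b => if a = 0 ∧ b = 0 then dB ρ P (0, 0, 0, 1) else dB ρ P (0, 0, 1, 1)),
      ← Finset.add_sum_erase _ _ (Finset.mk_mem_product hB hC), if_pos ⟨rfl, rfl⟩,
      Finset.sum_congr rfl fun p hp => if_neg fun h => Finset.ne_of_mem_erase hp (Prod.ext h.1 h.2),
      Finset.sum_const, smul_eq_mul, Finset.card_erase_of_mem (Finset.mk_mem_product hB hC), Finset.card_product]
  rw [Finset.sum_product, Finset.sum_congr rfl fun η _ => inner η, Finset.sum_const, smul_eq_mul, mul_assoc]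

end Cfsg.Agent.H75.G2Deg
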